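import Mathlib
import Cfsg.Prelude.Def_ClassicalGeometry
import Cfsg.Agent.H17.SympGen
import Cfsg.Agent.H44.RepEig

/-!
# S2333 (team project, helper44): minimal degree of `Sp_{2n}(q)`, `q` even — definitions and
exact statements of the pieces.

Notation (char 2 throughout): `G = Sp(Fin (m+1))`, `e = e0` (the basis vector `inl 0`),
`W = F^{2m}` embedded by `embW` (coordinates `inl i.succ`, `inr i.succ`), `f = sympForm`,
`kap a = Σ a(inl i) a(inr i)` (a quadratic form with polar form `f`).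
`yel (a, c) = t_a(1) t_{a+e}(1) t_e(c + kap a + 1)` is the map
`v ↦ v + f(v,e) (a + (c + kap a) e) + f(v,a) e`; `yel` is a homomorphism from `(W × F, +)` onto
the unipotent radical `Q` of the stabilizer of `⟨e⟩`, and `yel (0, c) = t_e(c)`.
Characters of `Q`: `chi ψ (w, s) (a, c) = ψ (f(a, w) + s c)`.
`Xset ρ y ψ` = the set of `(w, s)` whose character occurs in `ρ` restricted along `y`.
-/

set_option autoImplicit false

namespace Cfsg.Agent.H44.SpL

open Matrix Module Cfsg.Agent.H17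

universe u v w

/-- The Landazuri–Seitz bound for `Sp_{2n}(q)`, `q` even. -/
def bnd (q n : ℕ) : ℕ := (q ^ n - 1) * (q ^ n - q) / (2 * (q + 1))

section Defs

variable {F : Type u} [Field F] (m : ℕ)

/-- The embedding of `F^{2m}` into `F^{2(m+1)}` (zero at `inl 0` and `inr 0`). -/
def embW (a : Fin m ⊕ Fin m → F) : Fin (m + 1) ⊕ Fin (m + 1) → F :=
  Sum.elim (Fin.cons 0 (fun i => a (Sum.inl i))) (Fin.cons 0 (fun i => a (Sum.inr i)))

/-- The first basis vector of `F^{2(m+1)}`. -/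
def e0 (F : Type u) [Field F] (m : ℕ) : Fin (m + 1) ⊕ Fin (m + 1) → F := Pi.single (Sum.inl 0) 1

/-- The quadratic form `Σ a(inl i) a(inr i)` on `F^{2m}`. -/
def kap (a : Fin m ⊕ Fin m → F) : F := ∑ i, a (Sum.inl i) * a (Sum.inr i)

/-- The elements of the unipotent radical of the stabilizer of `⟨e0⟩` (char 2 parametrization). -/
def yel (p : (Fin m ⊕ Fin m → F) × F) : Matrix.symplecticGroup (Fin (m + 1)) F :=
  spTransv (m + 1) (embW m p.1) 1 * spTransv (m + 1) (embW m p.1 + e0 F m) 1 *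
    spTransv (m + 1) (e0 F m) (p.2 + kap m p.1 + 1)

/-- The character `(a, c) ↦ ψ (f(a, w) + s c)` of `W × F` attached to `p = (w, s)`. -/
def chi (ψ : AddChar F ℂ) (p a : (Fin m ⊕ Fin m → F) × F) : ℂ :=
  ψ (Cfsg.sympForm m F a.1 p.1 + p.2 * a.2)

/-- The set of `p = (w, s)` whose character occurs in `ρ ∘ y`. -/
def Xset {G : Type w} [Monoid G] {V : Type v} [AddCommGroup V] [Module ℂ V]
    (ρ : Representation ℂ G V) (y : (Fin m ⊕ Fin m → F) × F → G) (ψ : AddChar F ℂ) :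
    Set ((Fin m ⊕ Fin m → F) × F) :=
  {p | ∃ v : V, v ≠ 0 ∧ ∀ a, ρ (y a) v = chi m ψ p a • v}

/-- Moving eigenvectors: if `y a * g = g * y (φ a)` and `chi p' = chi p ∘ φ` then `ρ g` maps the
`p`-eigenspace into the `p'`-eigenspace. -/
theorem eig_move {G : Type w} [Monoid G] {V : Type v} [AddCommGroup V] [Module ℂ V]
    (ρ : Representation ℂ G V) (y : (Fin m ⊕ Fin m → F) × F → G) (ψ : AddChar F ℂ)
    (g : G) (φ : (Fin m ⊕ Fin m → F) × F → (Fin m ⊕ Fin m → F) × F)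
    (p p' : (Fin m ⊕ Fin m → F) × F)
    (h1 : ∀ a, y a * g = g * y (φ a)) (h2 : ∀ a, chi m ψ p' a = chi m ψ p (φ a))
    (v : V) (hv : ∀ a, ρ (y a) v = chi m ψ p a • v) :
    ∀ a, ρ (y a) (ρ g v) = chi m ψ p' a • ρ g v := by
  intro a
  have e1 : ρ (y a) (ρ g v) = ρ (y a * g) v := by rw [map_mul]; rfl
  rw [e1, h1 a, map_mul, Module.End.mul_apply, hv (φ a), map_smul, h2 a]

/-- Closure of `Xset` under such moves (group case). -/
theorem xset_move {G : Type w} [Group G] {V : Type v} [AddCommGroup V] [Module ℂ V]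
    (ρ : Representation ℂ G V) (y : (Fin m ⊕ Fin m → F) × F → G) (ψ : AddChar F ℂ)
    (g : G) (φ : (Fin m ⊕ Fin m → F) × F → (Fin m ⊕ Fin m → F) × F)
    (p p' : (Fin m ⊕ Fin m → F) × F)
    (h1 : ∀ a, y a * g = g * y (φ a)) (h2 : ∀ a, chi m ψ p' a = chi m ψ p (φ a))
    (hp : p ∈ Xset m ρ y ψ) : p' ∈ Xset m ρ y ψ := by
  obtain ⟨v, hv0, hv⟩ := hp
  refine ⟨ρ g v, ?_, eig_move m ρ y ψ g φ p p' h1 h2 v hv⟩
  intro h0
  apply hv0
  have e1 : ρ g⁻¹ (ρ g v) = v := by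
    have : ρ g⁻¹ (ρ g v) = ρ (g⁻¹ * g) v := by rw [map_mul]; rfl
    rw [this, inv_mul_cancel, map_one]; rfl
  rw [← e1, h0, map_zero]

end Defs

/-! ## Exact statements of the pieces -/

/-- (R1) dimension count: a subspace fixed by `Z = y(0, ·)` plus one dimension for every occurring
character with nontrivial central part. -/
def StR1 : Prop :=
  ∀ {F : Type u} [Field F] [Fintype F] (m : ℕ) {G : Type w} [Group G] {V : Type v}
    [AddCommGroup V] [Module ℂ V] [FiniteDimensional ℂ V] (ρ : Representation ℂ G V)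
    (y : (Fin m ⊕ Fin m → F) × F → G), (∀ p p', y (p + p') = y p * y p') →
    ∀ (ψ : AddChar F ℂ), ψ.IsPrimitive →
    ∀ (C : Submodule ℂ V), (∀ v ∈ C, ∀ c : F, ρ (y (0, c)) v = v) →
    finrank ℂ C + Set.ncard {p | p ∈ Xset m ρ y ψ ∧ p.2 ≠ 0} ≤ finrank ℂ V

/-- (R3) if `Z = y(0, ·)` acts nontrivially, some character with nontrivial central part occurs. -/
def StR3 : Prop :=
  ∀ {F : Type u} [Field F] [Fintype F] (m : ℕ) {G : Type w} [Group G] {V : Type v}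
    [AddCommGroup V] [Module ℂ V] [FiniteDimensional ℂ V] (ρ : Representation ℂ G V)
    (y : (Fin m ⊕ Fin m → F) × F → G), (∀ p p', y (p + p') = y p * y p') →
    ∀ (ψ : AddChar F ℂ), ψ.IsPrimitive →
    (∃ c : F, ρ (y (0, c)) ≠ 1) → ∃ p, p ∈ Xset m ρ y ψ ∧ p.2 ≠ 0

/-- (G1) `yel` is additive and `yel (0, c) = t_e(c)` (char 2). -/
def StG1 : Prop :=
  ∀ {F : Type u} [Field F] (m : ℕ), (2 : F) = 0 →
    (∀ p p' : (Fin m ⊕ Fin m → F) × F, yel m (p + p') = yel m p * yel m p') ∧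
    (∀ c : F, yel m ((0 : Fin m ⊕ Fin m → F), c) = spTransv (m + 1) (e0 F m) c)

/-- (G2) conjugation of `yel` by the transvection `t_b(1)`, `b ∈ W` (char 2). -/
def StG2 : Prop :=
  ∀ {F : Type u} [Field F] (m : ℕ), (2 : F) = 0 →
    ∀ (b a : Fin m ⊕ Fin m → F) (c : F),
      yel m (a, c) * spTransv (m + 1) (embW m b) 1 =
        spTransv (m + 1) (embW m b) 1 *
          yel m (a + Cfsg.sympForm m F a b • b,
            c + (Cfsg.sympForm m F a b) ^ 2 * (kap m b + 1))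

/-- (G3) conjugation of `yel` by a torus element (char 2). -/
def StG3 : Prop :=
  ∀ {F : Type u} [Field F] (m : ℕ), (2 : F) = 0 → ∀ t : F, t ≠ 0 →
    ∃ h : Matrix.symplecticGroup (Fin (m + 1)) F,
      ∀ (a : Fin m ⊕ Fin m → F) (c : F), yel m (a, c) * h = h * yel m (t • a, t ^ 2 * c)

/-- (G4) the normal closure of the root group `t_e(·)` is everything. -/
def StG4 : Prop :=
  ∀ {F : Type u} [Field F] (m : ℕ) (N : Subgroup (Matrix.symplecticGroup (Fin (m + 1)) F)),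
    N.Normal → (∀ c : F, spTransv (m + 1) (e0 F m) c ∈ N) → N = ⊤

/-- (EMB) the embedding `Sp(m) → Sp(m+1)` acting on `embW`-coordinates. -/
def StEmb : Prop :=
  ∀ {F : Type u} [Field F] (m : ℕ),
    ∃ φ : Matrix.symplecticGroup (Fin m) F →* Matrix.symplecticGroup (Fin (m + 1)) F,
      (∀ (b : Fin m ⊕ Fin m → F) (c : F), φ (spTransv m b c) = spTransv (m + 1) (embW m b) c) ∧
      (∀ (g : Matrix.symplecticGroup (Fin m) F) (c : F),
        φ g * spTransv (m + 1) (e0 F m) c = spTransv (m + 1) (e0 F m) c * φ g)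

/-- (B3) swapping the two root groups `t_{e0}(·)` and `t_{e_i}(·)`. -/
def StB3 : Prop :=
  ∀ {F : Type u} [Field F] (m : ℕ) (i : Fin m) {V : Type v} [AddCommGroup V] [Module ℂ V]
    [FiniteDimensional ℂ V] (ρ : Representation ℂ (Matrix.symplecticGroup (Fin (m + 1)) F) V),
    (∃ u : V, (∀ c : F, ρ (spTransv (m + 1) (embW m (Pi.single (Sum.inl i) 1)) c) u = u) ∧
      ∃ c : F, ρ (spTransv (m + 1) (e0 F m) c) u ≠ u) →
    (∃ u : V, (∀ c : F, ρ (spTransv (m + 1) (e0 F m) c) u = u) ∧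
      ∃ c : F, ρ (spTransv (m + 1) (embW m (Pi.single (Sum.inl i) 1)) c) u ≠ u)

/-- (CHIT) the character identity behind the `t_b(1)`-move (char 2, `ψ (x²) = ψ x`). -/
def StChiT : Prop :=
  ∀ {F : Type u} [Field F] (m : ℕ), (2 : F) = 0 → ∀ (ψ : AddChar F ℂ), (∀ x, ψ (x ^ 2) = ψ x) →
    ∀ (w b : Fin m ⊕ Fin m → F) (s r k : F), r ^ 2 = s → k ^ 2 = kap m b →
    ∀ (a : Fin m ⊕ Fin m → F) (c : F),
      chi m ψ (w + (Cfsg.sympForm m F b w + r * (k + 1)) • b, s) (a, c) =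
        chi m ψ (w, s) (a + Cfsg.sympForm m F a b • b,
          c + (Cfsg.sympForm m F a b) ^ 2 * (kap m b + 1))

/-- (CHAR) a primitive additive character invariant under Frobenius. -/
def StChar : Prop :=
  ∀ {F : Type u} [Field F] [Fintype F], (2 : F) = 0 →
    ∃ ψ : AddChar F ℂ, ψ.IsPrimitive ∧ ∀ x : F, ψ (x ^ 2) = ψ x

/-- (CHAR2) even order means characteristic 2. -/
def StChar2 : Prop :=
  ∀ {F : Type u} [Field F] [Fintype F], Even (Fintype.card F) → (2 : F) = 0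

/-- The closure property of a set `X` of characters under the `t_b(1)`-moves. -/
def TClosed {F : Type u} [Field F] (m : ℕ) (X : Set ((Fin m ⊕ Fin m → F) × F)) : Prop :=
  ∀ (w b : Fin m ⊕ Fin m → F) (s r k : F), (w, s) ∈ X → r ^ 2 = s → k ^ 2 = kap m b →
    (w + (Cfsg.sympForm m F b w + r * (k + 1)) • b, s) ∈ X

/-- The closure property of a set `X` of characters under the torus moves. -/
def HClosed {F : Type u} [Field F] (m : ℕ) (X : Set ((Fin m ⊕ Fin m → F) × F)) : Prop :=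
  ∀ (w : Fin m ⊕ Fin m → F) (s t : F), (w, s) ∈ X → t ≠ 0 → (t • w, t ^ 2 * s) ∈ X

/-- (B1) in a `TClosed` set one can kill the `inr i` coordinate (needs a second index `j`). -/
def StB1 : Prop :=
  ∀ {F : Type u} [Field F] [Fintype F] (m : ℕ), (2 : F) = 0 → ∀ (i j : Fin m), i ≠ j →
    ∀ (X : Set ((Fin m ⊕ Fin m → F) × F)), TClosed m X →
    ∀ (w : Fin m ⊕ Fin m → F) (s : F), s ≠ 0 → (w, s) ∈ X →
      ∃ w' : Fin m ⊕ Fin m → F, (w', s) ∈ X ∧ w' (Sum.inr i) = 0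

/-- (B2) from an occurring character `(w, s)`, `s ≠ 0`, `w (inr i) = 0`: a vector fixed by the
root group `t_{e_i}(·)` but not by `t_{e0}(·)`. -/
def StB2 : Prop :=
  ∀ {F : Type u} [Field F] [Fintype F] (m : ℕ), (2 : F) = 0 → ∀ (i : Fin m) {V : Type v}
    [AddCommGroup V] [Module ℂ V] [FiniteDimensional ℂ V]
    (ρ : Representation ℂ (Matrix.symplecticGroup (Fin (m + 1)) F) V)
    (ψ : AddChar F ℂ), ψ.IsPrimitive → (∀ x, ψ (x ^ 2) = ψ x) →
    ∀ (w : Fin m ⊕ Fin m → F) (s : F), s ≠ 0 → w (Sum.inr i) = 0 →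
      (w, s) ∈ Xset m ρ (yel m) ψ →
      ∃ u : V, (∀ c : F, ρ (spTransv (m + 1) (embW m (Pi.single (Sum.inl i) 1)) c) u = u) ∧
        ∃ c : F, ρ (spTransv (m + 1) (e0 F m) c) u ≠ u

/-- (ORBD) every `d` with `kap d / s + f(d, w)² / s² ∈ ℘(F)` gives `(w + d, s) ∈ X`. -/
def StOrbD : Prop :=
  ∀ {F : Type u} [Field F] [Fintype F] (m : ℕ), (2 : F) = 0 →
    ∀ (X : Set ((Fin m ⊕ Fin m → F) × F)), TClosed m X →
    ∀ (w : Fin m ⊕ Fin m → F) (s : F), s ≠ 0 → (w, s) ∈ X →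
    ∀ (d : Fin m ⊕ Fin m → F) (τ : F),
      τ ^ 2 + τ = kap m d / s + (Cfsg.sympForm m F d w) ^ 2 / s ^ 2 → (w + d, s) ∈ X

/-- (COUNT) a "quadratic" function with polar form `f / s` takes values in `℘(F)` at least
`(q^{2m} - q^m)/2` times. -/
def StCount : Prop :=
  ∀ {F : Type u} [Field F] [Fintype F] (m : ℕ), (2 : F) = 0 →
    ∀ (K : (Fin m ⊕ Fin m → F) → F) (s : F), s ≠ 0 →
    (∀ d d', K (d + d') = K d + K d' + Cfsg.sympForm m F d d' / s) →
    Fintype.card F ^ (2 * m) - Fintype.card F ^ m ≤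
      2 * Set.ncard {d : Fin m ⊕ Fin m → F | ∃ τ : F, τ ^ 2 + τ = K d}

/-- (ORB) the orbit bound. -/
def StOrb : Prop :=
  ∀ {F : Type u} [Field F] [Fintype F] (m : ℕ), (2 : F) = 0 →
    ∀ (X : Set ((Fin m ⊕ Fin m → F) × F)), TClosed m X → HClosed m X →
    ∀ (w : Fin m ⊕ Fin m → F) (s : F), s ≠ 0 → (w, s) ∈ X →
      (Fintype.card F - 1) * (Fintype.card F ^ (2 * m) - Fintype.card F ^ m) ≤
        2 * Set.ncard {p : (Fin m ⊕ Fin m → F) × F | p ∈ X ∧ p.2 ≠ 0}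

/-- (ARITH) the recursion for the bound. -/
def StArith : Prop :=
  ∀ (q m x y : ℕ), bnd q m ≤ x → (q - 1) * (q ^ (2 * m) - q ^ m) ≤ 2 * y → bnd q (m + 1) ≤ x + y

end Cfsg.Agent.H44.SpL
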