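import Mathlib
import Cfsg.Prelude.Def_ClassicalGeometry
import Cfsg.Agent.H17.SympGen
import Cfsg.Agent.H17.SpPerfect

/-!
# S2347 part B (team project, helper44): the Weil representation of `Sp_{2n}(q)`, `q` odd —
definitions and exact statements of the pieces.

`S = (Fin n → F) → ℂ` (functions on `F^n`).  For `w ∈ F^{2n}` with `x = xpt w` (the `inl`
coordinates) and `y = ypt w` (the `inr` coordinates) the Schrödinger operator is
`(heis w φ)(ξ) = ψ (y·ξ + x·y/2) · φ (ξ + x)`; it satisfies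
`heis w ∘ heis w' = ψ (-(f(w,w')/2)) • heis (w + w')`, `f = Cfsg.sympForm`.
`IsInt g T` says `T ∘ heis w = heis (g w) ∘ T` for all `w`.  `refl φ = φ ∘ neg`;
`evenSub`, `oddSub` are its eigenspaces (dimensions `(q^n ± 1)/2`).

The trick: the intertwiners of `g` form a line; each commutes with `refl`; the unique one with
`det (T|evenSub) = det (T|oddSub)` depends multiplicatively on `g` (scaling `T` by `c` scales
the ratio of the two determinants by `c`, as `dim evenSub = dim oddSub + 1`).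
-/

set_option autoImplicit false

namespace Cfsg.Agent.H44.Weil

open Matrix Module Cfsg.Agent.H17

universe u v w

section Defs

variable {F : Type u} [Field F] (n : ℕ)

/-- The `inl` coordinates of a vector of `F^{2n}`. -/
def xpt (w : Fin n ⊕ Fin n → F) : Fin n → F := fun i => w (Sum.inl i)

/-- The `inr` coordinates of a vector of `F^{2n}`. -/
def ypt (w : Fin n ⊕ Fin n → F) : Fin n → F := fun i => w (Sum.inr i)

/-- The Schrödinger operators `(heis w φ)(ξ) = ψ (y·ξ + x·y/2) · φ (ξ + x)`. -/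
def heis (ψ : AddChar F ℂ) (w : Fin n ⊕ Fin n → F) :
    ((Fin n → F) → ℂ) →ₗ[ℂ] ((Fin n → F) → ℂ) where
  toFun φ := fun ξ => ψ (ypt n w ⬝ᵥ ξ + (2 : F)⁻¹ * (xpt n w ⬝ᵥ ypt n w)) * φ (ξ + xpt n w)
  map_add' := by
    intro φ φ'
    funext ξ
    simp only [Pi.add_apply]
    ring
  map_smul' := by
    intro c φ
    funext ξ
    simp only [Pi.smul_apply, smul_eq_mul, RingHom.id_apply]
    ring

theorem heis_apply (ψ : AddChar F ℂ) (w : Fin n ⊕ Fin n → F) (φ : (Fin n → F) → ℂ)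
    (ξ : Fin n → F) :
    heis n ψ w φ ξ = ψ (ypt n w ⬝ᵥ ξ + (2 : F)⁻¹ * (xpt n w ⬝ᵥ ypt n w)) * φ (ξ + xpt n w) :=
  rfl

/-- The reflection `φ ↦ φ ∘ neg`. -/
def refl (F : Type u) [Field F] (n : ℕ) : ((Fin n → F) → ℂ) →ₗ[ℂ] ((Fin n → F) → ℂ) where
  toFun φ := fun ξ => φ (-ξ)
  map_add' := by
    intro φ φ'
    rfl
  map_smul' := by
    intro c φ
    rfl

theorem refl_apply (φ : (Fin n → F) → ℂ) (ξ : Fin n → F) : refl F n φ ξ = φ (-ξ) := rfl

/-- Even functions. -/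
def evenSub (F : Type u) [Field F] (n : ℕ) : Submodule ℂ ((Fin n → F) → ℂ) where
  carrier := {φ | ∀ ξ, φ (-ξ) = φ ξ}
  add_mem' := by
    intro a b ha hb ξ
    simp only [Pi.add_apply, ha ξ, hb ξ]
  zero_mem' := by
    intro ξ
    rfl
  smul_mem' := by
    intro c a ha ξ
    simp only [Pi.smul_apply, ha ξ]

/-- Odd functions. -/
def oddSub (F : Type u) [Field F] (n : ℕ) : Submodule ℂ ((Fin n → F) → ℂ) where
  carrier := {φ | ∀ ξ, φ (-ξ) = -φ ξ}
  add_mem' := by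
    intro a b ha hb ξ
    simp only [Pi.add_apply, ha ξ, hb ξ]
    ring
  zero_mem' := by
    intro ξ
    simp
  smul_mem' := by
    intro c a ha ξ
    simp only [Pi.smul_apply, ha ξ, smul_eq_mul]
    ring

theorem mem_evenSub (φ : (Fin n → F) → ℂ) : φ ∈ evenSub F n ↔ ∀ ξ, φ (-ξ) = φ ξ := Iff.rfl

theorem mem_oddSub (φ : (Fin n → F) → ℂ) : φ ∈ oddSub F n ↔ ∀ ξ, φ (-ξ) = -φ ξ := Iff.rfl

/-- `T` intertwines `heis` with `heis ∘ g`. -/
def IsInt (ψ : AddChar F ℂ) (g : Matrix.symplecticGroup (Fin n) F)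
    (T : ((Fin n → F) → ℂ) →ₗ[ℂ] ((Fin n → F) → ℂ)) : Prop :=
  ∀ w : Fin n ⊕ Fin n → F,
    T ∘ₗ heis n ψ w = heis n ψ ((g : Matrix (Fin n ⊕ Fin n) (Fin n ⊕ Fin n) F) *ᵥ w) ∘ₗ T

end Defs

/-! ## Exact statements of the pieces (part B) -/

/-- (W1) the Weyl relations. -/
def StWeyl : Prop :=
  ∀ {F : Type u} [Field F] (n : ℕ), (2 : F) ≠ 0 → ∀ (ψ : AddChar F ℂ),
    heis n ψ 0 = LinearMap.id ∧
    ∀ w w' : Fin n ⊕ Fin n → F,
      heis n ψ w ∘ₗ heis n ψ w' =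
        ψ (-((2 : F)⁻¹ * Cfsg.sympForm n F w w')) • heis n ψ (w + w')

/-- (W2) the commutant of the Schrödinger operators consists of scalars. -/
def StComm : Prop :=
  ∀ {F : Type u} [Field F] [Fintype F] (n : ℕ) (ψ : AddChar F ℂ), ψ.IsPrimitive →
    ∀ T : ((Fin n → F) → ℂ) →ₗ[ℂ] ((Fin n → F) → ℂ),
      (∀ w, T ∘ₗ heis n ψ w = heis n ψ w ∘ₗ T) → ∃ c : ℂ, T = c • LinearMap.id

/-- (W3a) every transvection has an invertible intertwiner. -/
def StTransvInt : Prop :=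
  ∀ {F : Type u} [Field F] [Fintype F] (n : ℕ), (2 : F) ≠ 0 → ∀ (ψ : AddChar F ℂ),
    ψ.IsPrimitive → ∀ (v : Fin n ⊕ Fin n → F) (c : F),
    ∃ T : Module.End ℂ ((Fin n → F) → ℂ), IsUnit T ∧ IsInt n ψ (spTransv n v c) T

/-- (W3b) every element of `Sp` has an invertible intertwiner. -/
def StAllInt : Prop :=
  ∀ {F : Type u} [Field F] [Fintype F] (n : ℕ), (2 : F) ≠ 0 → ∀ (ψ : AddChar F ℂ),
    ψ.IsPrimitive → ∀ g : Matrix.symplecticGroup (Fin n) F,
    ∃ T : Module.End ℂ ((Fin n → F) → ℂ), IsUnit T ∧ IsInt n ψ g T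

/-- (W4b) dimensions of the even and odd parts. -/
def StDims : Prop :=
  ∀ {F : Type u} [Field F] [Fintype F] (n : ℕ), (2 : F) ≠ 0 →
    finrank ℂ (evenSub F n) = finrank ℂ (oddSub F n) + 1 ∧
    2 * finrank ℂ (oddSub F n) + 1 = Fintype.card F ^ n ∧
    IsCompl (evenSub F n) (oddSub F n)

/-- (W4a) invertible intertwiners commute with the reflection. -/
def StReflComm : Prop :=
  ∀ {F : Type u} [Field F] [Fintype F] (n : ℕ), (2 : F) ≠ 0 → ∀ (ψ : AddChar F ℂ),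
    ψ.IsPrimitive → ∀ (g : Matrix.symplecticGroup (Fin n) F)
    (T : Module.End ℂ ((Fin n → F) → ℂ)), IsUnit T → IsInt n ψ g T →
    refl F n ∘ₗ T = T ∘ₗ refl F n

/-- (W5) the Weil representation: a homomorphism choosing an intertwiner for every `g`. -/
def StWeilRep : Prop :=
  ∀ {F : Type u} [Field F] [Fintype F] (n : ℕ), (2 : F) ≠ 0 → ∀ (ψ : AddChar F ℂ),
    ψ.IsPrimitive →
    ∃ ω : Representation ℂ (Matrix.symplecticGroup (Fin n) F) ((Fin n → F) → ℂ),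
      ∀ g, IsInt n ψ g (ω g)

/-- (W6) a homomorphic choice of intertwiners is not trivial on the odd part (`n ≥ 2`). -/
def StNontriv : Prop :=
  ∀ {F : Type u} [Field F] [Fintype F] (n : ℕ), 2 ≤ n → (2 : F) ≠ 0 → ∀ (ψ : AddChar F ℂ),
    ψ.IsPrimitive →
    ∀ ω : Representation ℂ (Matrix.symplecticGroup (Fin n) F) ((Fin n → F) → ℂ),
      (∀ g, IsInt n ψ g (ω g)) → ∃ g, ∃ φ ∈ oddSub F n, ω g φ ≠ φ

/-- (W7) a representation of minimal possible nontrivial dimension is irreducible. -/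
def StIrr : Prop :=
  ∀ {G : Type w} [Group G] [Finite G] (d : ℕ),
    (∀ {V : Type v} [AddCommGroup V] [Module ℂ V] [FiniteDimensional ℂ V]
      (ρ : Representation ℂ G V), (∃ g, ρ g ≠ 1) → d ≤ finrank ℂ V) →
    ∀ {V : Type v} [AddCommGroup V] [Module ℂ V] [FiniteDimensional ℂ V]
      (ρ : Representation ℂ G V), finrank ℂ V = d → (∃ g, ρ g ≠ 1) → ρ.IsIrreducible

end Cfsg.Agent.H44.Weil
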