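import Mathlib
import Cfsg.Prelude.Def_ClassicalGeometry
import Cfsg.Agent.H17.SympGen
import Cfsg.Agent.H17.SpPerfect
import Cfsg.Agent.H44.RepEig
import Cfsg.Agent.H44.SpLDefs

/-!
# S2347 part A (team project, helper44): the lower bound `(q^n - 1)/2` for `Sp_{2n}(q)`, `q` odd —
definitions and exact statements of the pieces.

`G = Sp(Fin (m+1))`.  The abelian group is the Siegel unipotent radical
`{fromBlocks 1 S 0 1 | S symmetric}`, parametrized by ALL families `a : Fin (m+1) × Fin (m+1) → F`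
through `S = symOf a = A + Aᵀ` (`A i j = a (i, j)`): `ysym a = fromBlocks 1 (symOf a) 0 1`.
Characters: `chi ψ p a = ψ (a ⬝ᵥ p)`; `Xset ρ y ψ` = the `p` whose character occurs in `ρ ∘ y`.
The Levi elements `fromBlocks D⁻¹ 0 0 Dᵀ` act by `a ↦ congL D a = D A Dᵀ` on parameters and by
`p ↦ congR D p = Dᵀ P D` on characters.  The "central" coordinate is `(0, 0)`:
`ysym (single (0,0) c) = t_{e0}(2c)`.
-/

set_option autoImplicit false

namespace Cfsg.Agent.H44.SpO

open Matrix Module Cfsg.Agent.H17 Cfsg.Agent.H44.SpL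

universe u v w

section Defs

variable {F : Type u} [Field F]

/-- The matrix of a family indexed by pairs. -/
def toMat (n : ℕ) (a : Fin n × Fin n → F) : Matrix (Fin n) (Fin n) F := Matrix.of fun i j => a (i, j)

/-- The family of a matrix. -/
def ofMat (n : ℕ) (M : Matrix (Fin n) (Fin n) F) : Fin n × Fin n → F := fun p => M p.1 p.2

/-- `a ↦ D A Dᵀ`. -/
def congL (n : ℕ) (D : Matrix (Fin n) (Fin n) F) (a : Fin n × Fin n → F) : Fin n × Fin n → F :=
  ofMat n (D * toMat n a * Dᵀ)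

/-- `p ↦ Dᵀ P D`. -/
def congR (n : ℕ) (D : Matrix (Fin n) (Fin n) F) (p : Fin n × Fin n → F) : Fin n × Fin n → F :=
  ofMat n (Dᵀ * toMat n p * D)

/-- The symmetric matrix `A + Aᵀ`. -/
def symOf (n : ℕ) (a : Fin n × Fin n → F) : Matrix (Fin n) (Fin n) F :=
  Matrix.of fun i j => a (i, j) + a (j, i)

theorem symOf_transpose (n : ℕ) (a : Fin n × Fin n → F) : (symOf n a)ᵀ = symOf n a := by
  ext i j
  simp [symOf, add_comm]

theorem upper_mem (n : ℕ) (S : Matrix (Fin n) (Fin n) F) (hS : Sᵀ = S) :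
    (Matrix.fromBlocks 1 S 0 1 : Matrix (Fin n ⊕ Fin n) (Fin n ⊕ Fin n) F) ∈
      Matrix.symplecticGroup (Fin n) F := by
  rw [SymplecticGroup.mem_iff, Matrix.J, Matrix.fromBlocks_transpose, Matrix.fromBlocks_multiply,
    Matrix.fromBlocks_multiply]
  simp [hS]

/-- The elements of the Siegel unipotent radical. -/
def ysym (m : ℕ) (a : Fin (m + 1) × Fin (m + 1) → F) : Matrix.symplecticGroup (Fin (m + 1)) F :=
  ⟨Matrix.fromBlocks 1 (symOf (m + 1) a) 0 1, upper_mem (m + 1) _ (symOf_transpose (m + 1) a)⟩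

theorem ysym_coe (m : ℕ) (a : Fin (m + 1) × Fin (m + 1) → F) :
    ((ysym m a : Matrix.symplecticGroup (Fin (m + 1)) F) :
      Matrix (Fin (m + 1) ⊕ Fin (m + 1)) (Fin (m + 1) ⊕ Fin (m + 1)) F) =
      Matrix.fromBlocks 1 (symOf (m + 1) a) 0 1 := rfl

variable {ι : Type*} [Fintype ι]

/-- The character `a ↦ ψ (a ⬝ᵥ p)` of `ι → F`. -/
def chi (ψ : AddChar F ℂ) (p a : ι → F) : ℂ := ψ (a ⬝ᵥ p)

/-- The set of `p` whose character occurs in `ρ ∘ y`. -/
def Xset {G : Type w} [Monoid G] {V : Type v} [AddCommGroup V] [Module ℂ V]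
    (ρ : Representation ℂ G V) (y : (ι → F) → G) (ψ : AddChar F ℂ) : Set (ι → F) :=
  {p | ∃ v : V, v ≠ 0 ∧ ∀ a, ρ (y a) v = chi ψ p a • v}

/-- Closure of `Xset` under moves. -/
theorem xset_move {G : Type w} [Group G] {V : Type v} [AddCommGroup V] [Module ℂ V]
    (ρ : Representation ℂ G V) (y : (ι → F) → G) (ψ : AddChar F ℂ)
    (g : G) (φ : (ι → F) → (ι → F)) (p p' : ι → F)
    (h1 : ∀ a, y a * g = g * y (φ a)) (h2 : ∀ a, chi ψ p' a = chi ψ p (φ a))
    (hp : p ∈ Xset ρ y ψ) : p' ∈ Xset ρ y ψ := by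
  obtain ⟨v, hv0, hv⟩ := hp
  refine ⟨ρ g v, ?_, ?_⟩
  · intro h0
    apply hv0
    have e1 : ρ g⁻¹ (ρ g v) = v := by
      have : ρ g⁻¹ (ρ g v) = ρ (g⁻¹ * g) v := by rw [map_mul]; rfl
      rw [this, inv_mul_cancel, map_one]; rfl
    rw [← e1, h0, map_zero]
  · intro a
    have e1 : ρ (y a) (ρ g v) = ρ (y a * g) v := by rw [map_mul]; rfl
    rw [e1, h1 a, map_mul, Module.End.mul_apply, hv (φ a), map_smul, h2 a]

/-- Closure of a set of characters under congruence. -/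
def CClosed (m : ℕ) (X : Set (Fin (m + 1) × Fin (m + 1) → F)) : Prop :=
  ∀ D : Matrix (Fin (m + 1)) (Fin (m + 1)) F, IsUnit D.det → ∀ p ∈ X, congR (m + 1) D p ∈ X

end Defs

/-! ## Exact statements of the pieces (part A) -/

/-- (A1) `ysym` is additive; the two root groups inside it. -/
def StY : Prop :=
  ∀ {F : Type u} [Field F] (m : ℕ),
    (∀ a b : Fin (m + 1) × Fin (m + 1) → F, ysym m (a + b) = ysym m a * ysym m b) ∧
    (∀ c : F, ysym m (Pi.single (0, 0) c) = spTransv (m + 1) (e0 F m) (2 * c)) ∧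
    (∀ (i : Fin m) (c : F), ysym m (Pi.single (i.succ, i.succ) c) =
      spTransv (m + 1) (embW m (Pi.single (Sum.inl i) 1)) (2 * c))

/-- (A2) the Levi elements normalize the Siegel radical. -/
def StMove : Prop :=
  ∀ {F : Type u} [Field F] (m : ℕ) (D : Matrix (Fin (m + 1)) (Fin (m + 1)) F), IsUnit D.det →
    ∃ g : Matrix.symplecticGroup (Fin (m + 1)) F,
      ∀ a : Fin (m + 1) × Fin (m + 1) → F, ysym m a * g = g * ysym m (congL (m + 1) D a)

/-- (A3) the character identity behind the Levi move. -/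
def StChiMove : Prop :=
  ∀ {F : Type u} [Field F] (n : ℕ) (ψ : AddChar F ℂ) (D : Matrix (Fin n) (Fin n) F)
    (p a : Fin n × Fin n → F), chi ψ (congR n D p) a = chi ψ p (congL n D a)

/-- (A5) the first row of a character can be moved freely (torus and lower unitriangular moves). -/
def StRow : Prop :=
  ∀ {F : Type u} [Field F] (m : ℕ) (X : Set (Fin (m + 1) × Fin (m + 1) → F)), CClosed m X →
    ∀ p ∈ X, p (0, 0) ≠ 0 → ∀ (t : F), t ≠ 0 → ∀ μ : Fin m → F,
      ∃ p' ∈ X, p' (0, 0) = t ^ 2 * p (0, 0) ∧ ∀ j : Fin m, p' (0, j.succ) = μ j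

/-- (A6) one square class gives `(q-1)/2 · q^m` characters with nonzero central value. -/
def StCount1 : Prop :=
  ∀ {F : Type u} [Field F] [Fintype F] (m : ℕ), (2 : F) ≠ 0 →
    ∀ (X : Set (Fin (m + 1) × Fin (m + 1) → F)), CClosed m X →
    ∀ p ∈ X, p (0, 0) ≠ 0 →
      (Fintype.card F - 1) / 2 * Fintype.card F ^ m ≤ Set.ncard {p' | p' ∈ X ∧ p' (0, 0) ≠ 0}

/-- (A8) two square classes give `(q-1) · q^m` characters with nonzero central value. -/
def StCount2 : Prop :=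
  ∀ {F : Type u} [Field F] [Fintype F] (m : ℕ), (2 : F) ≠ 0 →
    ∀ (X : Set (Fin (m + 1) × Fin (m + 1) → F)), CClosed m X →
    ∀ p ∈ X, ∀ p' ∈ X, p (0, 0) ≠ 0 → p' (0, 0) ≠ 0 → ¬ IsSquare (p' (0, 0) / p (0, 0)) →
      (Fintype.card F - 1) * Fintype.card F ^ m ≤ Set.ncard {p' | p' ∈ X ∧ p' (0, 0) ≠ 0}

/-- (A7) the dichotomy: kill the `(i+1, i+1)` entry, or reach the other square class. -/
def StDich : Prop :=
  ∀ {F : Type u} [Field F] [Fintype F] (m : ℕ), (2 : F) ≠ 0 → ∀ (i : Fin m)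
    (X : Set (Fin (m + 1) × Fin (m + 1) → F)), CClosed m X →
    ∀ p ∈ X, p (0, 0) ≠ 0 →
      (∃ p' ∈ X, p' (0, 0) ≠ 0 ∧ p' (i.succ, i.succ) = 0) ∨
      (∃ p' ∈ X, p' (0, 0) ≠ 0 ∧ ¬ IsSquare (p' (0, 0) / p (0, 0)))

end Cfsg.Agent.H44.SpO
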