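import Mathlib
import Cfsg.Agent.H44.SLnLowA

/-!
# Weighted cyclic shift matrices (helper44)

`cyc ω` has entry `ω i` at position `(i, i+1)` (indices mod `k+2`) and zeros elsewhere.
-/

set_option autoImplicit false

namespace Cfsg.Agent.H44

open Matrix

section RegGenCyc

variable {F : Type*} [Field F] {k : ℕ}

/-- The weighted cyclic shift matrix: entry `ω i` at `(i, i + 1)`. -/
def cyc (ω : Fin (k + 2) → F) : Matrix (Fin (k + 2)) (Fin (k + 2)) F :=
  Matrix.of fun i j => if j = i + 1 then ω i else 0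

theorem cyc_apply (ω : Fin (k + 2) → F) (i j : Fin (k + 2)) :
    cyc ω i j = if j = i + 1 then ω i else 0 := rfl

theorem fin_add_one_ne (i : Fin (k + 2)) : i + 1 ≠ i := by
  intro h
  have := add_eq_left.mp h
  exact absurd this (by simp)

theorem cyc_add (ω ω' : Fin (k + 2) → F) : cyc (ω + ω') = cyc ω + cyc ω' := by
  ext i j
  simp only [cyc_apply, Matrix.add_apply, Pi.add_apply]
  split_ifs <;> simp

theorem cyc_single (i : Fin (k + 2)) (s : F) :
    cyc (Pi.single i s : Fin (k + 2) → F) = Matrix.single i (i + 1) s := by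
  ext a b
  simp only [cyc_apply, Matrix.single_apply, Pi.single_apply]
  by_cases ha : a = i
  · subst ha
    by_cases hb : b = a + 1
    · simp [hb]
    · simp [hb, Ne.symm hb]
  · simp [ha, Ne.symm ha]

theorem single_vecMul_cyc (ω : Fin (k + 2) → F) (i : Fin (k + 2)) :
    (Pi.single i 1 : Fin (k + 2) → F) ᵥ* cyc ω = ω i • Pi.single (i + 1) 1 := by
  rw [Matrix.single_one_vecMul]
  funext j
  simp only [Matrix.row, cyc_apply, Pi.smul_apply, Pi.single_apply, smul_eq_mul]
  split_ifs <;> simp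

theorem cyc_mulVec_single (ω : Fin (k + 2) → F) (i : Fin (k + 2)) :
    cyc ω *ᵥ (Pi.single (i + 1) 1 : Fin (k + 2) → F) = ω i • Pi.single i 1 := by
  rw [Matrix.mulVec_single_one]
  funext j
  change cyc ω j (i + 1) = _
  simp only [cyc_apply, Pi.smul_apply, Pi.single_apply, smul_eq_mul, add_left_inj]
  by_cases h : j = i
  · subst h; simp
  · simp [h, Ne.symm h]

theorem single_mul_cyc_eq_zero (a b : Fin (k + 2)) (s : F) (ω : Fin (k + 2) → F)
    (h : ω b = 0) : Matrix.single a b s * cyc ω = 0 := by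
  ext i j
  rw [Matrix.mul_apply, Matrix.zero_apply]
  apply Finset.sum_eq_zero
  intro l _
  simp only [Matrix.single_apply, cyc_apply]
  by_cases h1 : a = i ∧ b = l
  · obtain ⟨rfl, rfl⟩ := h1
    rw [h]; simp
  · rw [if_neg h1, zero_mul]

theorem cyc_mul_single_eq_zero (a b : Fin (k + 2)) (s : F) (ω : Fin (k + 2) → F)
    (h : ω a = 0) : cyc ω * Matrix.single (a + 1) b s = 0 := by
  ext i j
  rw [Matrix.mul_apply, Matrix.zero_apply]
  apply Finset.sum_eq_zero
  intro l _
  simp only [Matrix.single_apply, cyc_apply]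
  by_cases h1 : a + 1 = l ∧ b = j
  · obtain ⟨rfl, rfl⟩ := h1
    by_cases h2 : a + 1 = i + 1
    · have : a = i := add_right_cancel h2
      subst this
      rw [h]; simp
    · rw [if_neg h2, zero_mul]
  · rw [if_neg h1, mul_zero]

/-- The shift-by-two matrix. -/
def cyc2 (ω : Fin (k + 2) → F) : Matrix (Fin (k + 2)) (Fin (k + 2)) F :=
  Matrix.of fun i j => if j = i + 1 + 1 then ω i else 0

theorem cyc_mul_cyc (a b : Fin (k + 2) → F) :
    cyc a * cyc b = cyc2 (fun i => a i * b (i + 1)) := by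
  ext i j
  rw [Matrix.mul_apply]
  simp only [cyc_apply, cyc2, Matrix.of_apply]
  rw [Finset.sum_eq_single (i + 1)]
  · simp
  · intro l _ hl
    simp [hl]
  · simp

theorem cyc_conj (w ω ω' : Fin (k + 2) → F) (h : ∀ i, w i * ω (i + 1) = ω' i * w (i + 1)) :
    cyc w * (1 + cyc ω) = (1 + cyc ω') * cyc w := by
  rw [mul_add, add_mul, mul_one, one_mul, cyc_mul_cyc, cyc_mul_cyc]
  congr 2
  funext i
  exact h i

theorem cyc_upperTriangular (ω : Fin (k + 2) → F) (h : ω (Fin.last (k + 1)) = 0) :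
    (cyc ω).BlockTriangular id := by
  intro i j hij
  simp only [id] at hij
  rw [cyc_apply]
  split_ifs with hj
  · by_cases hi : i = Fin.last (k + 1)
    · rw [hi, h]
    · exfalso
      have : i < i + 1 := Fin.lt_add_one_iff.mpr (lt_of_le_of_ne (Fin.le_last i) hi)
      rw [← hj] at this
      exact absurd this (not_lt.mpr hij.le)
  · rfl

theorem cyc_diag (ω : Fin (k + 2) → F) (i : Fin (k + 2)) : cyc ω i i = 0 := by
  rw [cyc_apply, if_neg (fin_add_one_ne i).symm]

theorem det_one_add_cyc (ω : Fin (k + 2) → F) (h : ω (Fin.last (k + 1)) = 0) :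
    (1 + cyc ω).det = 1 := by
  have htri : (1 + cyc ω).BlockTriangular id := by
    apply Matrix.BlockTriangular.add _ (cyc_upperTriangular ω h)
    exact Matrix.blockTriangular_one
  rw [Matrix.det_of_upperTriangular htri]
  apply Finset.prod_eq_one
  intro i _
  rw [Matrix.add_apply, Matrix.one_apply_eq, cyc_diag, add_zero]

theorem cyc_isNilpotent (ω : Fin (k + 2) → F) (h : ω (Fin.last (k + 1)) = 0) :
    IsNilpotent (cyc ω) := by
  have hcp : (cyc ω).charpoly = Polynomial.X ^ (k + 2) := by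
    rw [Matrix.charpoly_of_upperTriangular _ (cyc_upperTriangular ω h)]
    simp [cyc_diag]
  refine ⟨k + 2, ?_⟩
  have := Matrix.aeval_self_charpoly (cyc ω)
  rw [hcp] at this
  simpa using this

theorem cyc_pow_row (ω : Fin (k + 2) → F) (hω : ∀ i, i ≠ Fin.last (k + 1) → ω i ≠ 0)
    (j : Fin (k + 2)) :
    ∃ c : F, c ≠ 0 ∧
      (Pi.single (0 : Fin (k + 2)) 1 : Fin (k + 2) → F) ᵥ* (cyc ω) ^ (j : ℕ) =
        c • Pi.single j 1 := by
  induction j using Fin.induction with
  | zero => exact ⟨1, one_ne_zero, by simp⟩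
  | succ i ih =>
    obtain ⟨c, hc, h⟩ := ih
    refine ⟨c * ω i.castSucc, mul_ne_zero hc (hω _ (Fin.castSucc_ne_last i)), ?_⟩
    rw [Fin.val_succ, ← Fin.coe_castSucc i, pow_succ, ← Matrix.vecMul_vecMul, h,
      Matrix.smul_vecMul, single_vecMul_cyc, Fin.coeSucc_eq_succ, smul_smul]

theorem cyc_pow_ne_zero (ω : Fin (k + 2) → F) (hω : ∀ i, i ≠ Fin.last (k + 1) → ω i ≠ 0) :
    (cyc ω) ^ (k + 1) ≠ 0 := by
  intro h0
  obtain ⟨c, hc, h⟩ := cyc_pow_row ω hω (Fin.last (k + 1))
  rw [Fin.val_last, h0, Matrix.vecMul_zero] at h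
  have := congrFun h (Fin.last (k + 1))
  simp at this
  exact hc this.symm

theorem det_cyc (ω : Fin (k + 2) → F) : (cyc ω).det = (∏ i, ω i) * (-1) ^ (k + 1) := by
  have h : cyc ω = Matrix.diagonal ω * (finRotate (k + 2)).permMatrix F := by
    ext i j
    rw [Matrix.diagonal_mul, cyc_apply, Equiv.Perm.permMatrix, PEquiv.toMatrix_apply]
    simp [finRotate_apply, eq_comm]
  rw [h, Matrix.det_mul, Matrix.det_diagonal, Matrix.det_permutation, sign_finRotate]
  simp

end RegGenCyc

end Cfsg.Agent.H44
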