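import Mathlib
import Cfsg.Agent.H44.SLnLowA

/-!
# Subgroups of `SL_n(F)` containing enough elementary transvections (helper44)

`closure_final`: a subgroup of `SL_n(F)`, `n ≥ 3`, that contains all `T_ij(1)` and one
`T_ij(lam)` with `lam` a generator of the multiplicative group, is everything.
-/

set_option autoImplicit false

namespace Cfsg.Agent.H44

open Matrix

section RegGenFinal

variable {F : Type*} [Field F] {n : ℕ}

local notation "Tv" => Matrix.SpecialLinearGroup.transvection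

theorem exists_third (hn : 3 ≤ n) (i j : Fin n) : ∃ l : Fin n, l ≠ i ∧ l ≠ j := by
  by_cases h0 : i.val ≠ 0 ∧ j.val ≠ 0
  · exact ⟨⟨0, by omega⟩, fun h => h0.1 (by rw [← h]), fun h => h0.2 (by rw [← h])⟩
  by_cases h1 : i.val ≠ 1 ∧ j.val ≠ 1
  · exact ⟨⟨1, by omega⟩, fun h => h1.1 (by rw [← h]), fun h => h1.2 (by rw [← h])⟩
  · refine ⟨⟨2, by omega⟩, fun h => ?_, fun h => ?_⟩
    · have : i.val = 2 := by rw [← h]
      omega
    · have : j.val = 2 := by rw [← h]
      omega

theorem transv_neg_mem (H : Subgroup (Matrix.SpecialLinearGroup (Fin n) F)) {i j : Fin n}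
    (hij : i ≠ j) (s : F) (h : Tv hij s ∈ H) : Tv hij (-s) ∈ H := by
  rw [← Matrix.SpecialLinearGroup.transvection_inv]
  exact H.inv_mem h

theorem transv_comm_mem (H : Subgroup (Matrix.SpecialLinearGroup (Fin n) F)) {i j k : Fin n}
    (hij : i ≠ j) (hjk : j ≠ k) (hik : i ≠ k) (a b : F) (ha : Tv hij a ∈ H)
    (hb : Tv hjk b ∈ H) : Tv hik (a * b) ∈ H := by
  rw [← Cfsg.Agent.H45.transvection_comm_rel hij hjk hik a b]
  exact H.mul_mem (H.mul_mem (H.mul_mem ha hb) (transv_neg_mem H hij a ha))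
    (transv_neg_mem H hjk b hb)

theorem transv_spread (hn : 3 ≤ n) (H : Subgroup (Matrix.SpecialLinearGroup (Fin n) F))
    (h1 : ∀ (i j : Fin n) (hij : i ≠ j), Tv hij (1 : F) ∈ H) (s : F)
    {i j : Fin n} (hij : i ≠ j) (hs : Tv hij s ∈ H) :
    ∀ (i' j' : Fin n) (hij' : i' ≠ j'), Tv hij' s ∈ H := by
  have mv1 : ∀ (a b c : Fin n) (hab : a ≠ b) (hac : a ≠ c) (hbc : b ≠ c),
      Tv hab s ∈ H → Tv hac s ∈ H := by
    intro a b c hab hac hbc h
    have := transv_comm_mem H hab hbc hac s 1 h (h1 b c hbc)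
    rwa [mul_one] at this
  have mv2 : ∀ (a b c : Fin n) (hab : a ≠ b) (hca : c ≠ a) (hcb : c ≠ b),
      Tv hab s ∈ H → Tv hcb s ∈ H := by
    intro a b c hab hca hcb h
    have := transv_comm_mem H hca hab hcb 1 s (h1 c a hca) h
    rwa [one_mul] at this
  intro i' j' hij'
  by_cases hi : i' = i
  · subst hi
    by_cases hj : j' = j
    · subst hj; exact hs
    · exact mv1 i' j j' hij hij' (Ne.symm hj) hs
  · by_cases hi2 : i' = j
    · subst hi2
      by_cases hj : j' = i
      · subst hj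
        obtain ⟨l, hl1, hl2⟩ := exists_third hn j' i'
        have h2 := mv1 j' i' l hij (Ne.symm hl1) (Ne.symm hl2) hs
        have h3 := mv2 j' l i' (Ne.symm hl1) hi (Ne.symm hl2) h2
        exact mv1 i' l j' (Ne.symm hl2) hi hl1 h3
      · have h2 := mv1 i i' j' hij (Ne.symm hj) hij' hs
        exact mv2 i j' i' (Ne.symm hj) hi hij' h2
    · have h2 := mv2 i j i' hij hi hi2 hs
      by_cases hj : j' = j
      · subst hj; exact h2
      · exact mv1 i' j j' hi2 hij' (Ne.symm hj) h2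

/-- A subgroup of `SL_n(F)` (`n ≥ 3`) containing all `T_ij(1)` and one `T_ij(lam)`, where every
nonzero element of `F` is a power of `lam`, is the whole group. -/
theorem closure_final (hn : 3 ≤ n) (H : Subgroup (Matrix.SpecialLinearGroup (Fin n) F))
    (h1 : ∀ (i j : Fin n) (hij : i ≠ j), Tv hij (1 : F) ∈ H)
    (lam : F) (hlam : ∀ s : F, s ≠ 0 → ∃ k : ℕ, s = lam ^ k)
    {i0 j0 : Fin n} (h0 : i0 ≠ j0) (hl : Tv h0 lam ∈ H) : H = ⊤ := by
  have hl' := transv_spread hn H h1 lam h0 hl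
  have hpow : ∀ (k : ℕ) (i j : Fin n) (hij : i ≠ j), Tv hij (lam ^ k) ∈ H := by
    intro k
    induction k with
    | zero => intro i j hij; rw [pow_zero]; exact h1 i j hij
    | succ k ih =>
      intro i j hij
      obtain ⟨l, hli, hlj⟩ := exists_third hn i j
      rw [pow_succ]
      exact transv_comm_mem H (Ne.symm hli) hlj hij _ _ (ih i l _) (hl' l j hlj)
  have hall : ∀ (s : F) (i j : Fin n) (hij : i ≠ j), Tv hij s ∈ H := by
    intro s i j hij
    by_cases hs : s = 0
    · subst hs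
      rw [Matrix.SpecialLinearGroup.transvection_coeff_zero]
      exact H.one_mem
    · obtain ⟨k, rfl⟩ := hlam s hs
      exact hpow k i j hij
  rw [eq_top_iff, ← Cfsg.Agent.H45.elemSubgroup_eq_top]
  unfold Cfsg.Agent.H45.elemSubgroup
  rw [Subgroup.closure_le]
  rintro g ⟨i, j, hij, c, rfl⟩
  exact hall c i j hij

end RegGenFinal

end Cfsg.Agent.H44
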