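import Mathlib
import Cfsg.Agent.H44.RegGenFinal
import Cfsg.Agent.H44.RegGenCyc

/-!
# `SL_n(F)` is generated by three conjugate regular unipotents (helper44)
-/

set_option autoImplicit false

namespace Cfsg.Agent.H44

open Matrix

section RegGenHelpers

variable {F : Type*} [Field F] {n : ℕ}

local notation "Tv" => Matrix.SpecialLinearGroup.transvection

theorem SLn_vecMul_inv (g : Matrix.SpecialLinearGroup (Fin n) F) (v : Fin n → F) :
    (v ᵥ* (g : Matrix (Fin n) (Fin n) F)) ᵥ*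
      ((g⁻¹ : Matrix.SpecialLinearGroup (Fin n) F) : Matrix (Fin n) (Fin n) F) = v := by
  rw [Matrix.vecMul_vecMul, ← Matrix.SpecialLinearGroup.coe_mul, mul_inv_cancel,
    Matrix.SpecialLinearGroup.coe_one, Matrix.vecMul_one]

theorem conj_inv_tv (g : Matrix.SpecialLinearGroup (Fin n) F) (v φ v' φ' : Fin n → F)
    (h : φ ⬝ᵥ v = 0) (h' : φ' ⬝ᵥ v' = 0)
    (hv : (g : Matrix (Fin n) (Fin n) F) *ᵥ v' = v)
    (hφ : φ ᵥ* (g : Matrix (Fin n) (Fin n) F) = φ') :
    g⁻¹ * tv v φ h * g = tv v' φ' h' := by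
  rw [tv_conj' g v φ h (tv_conj_dot g v φ h)]
  have e1 : ((g⁻¹ : Matrix.SpecialLinearGroup (Fin n) F) : Matrix (Fin n) (Fin n) F) *ᵥ v = v' := by
    rw [← hv, SLn_mulVec_inv]
  exact tv_congr e1 hφ _

theorem conj_tv (g : Matrix.SpecialLinearGroup (Fin n) F) (v φ v' φ' : Fin n → F)
    (h : φ ⬝ᵥ v = 0) (h' : φ' ⬝ᵥ v' = 0)
    (hv : (g : Matrix (Fin n) (Fin n) F) *ᵥ v = v')
    (hφ : φ' ᵥ* (g : Matrix (Fin n) (Fin n) F) = φ) :
    g * tv v φ h * g⁻¹ = tv v' φ' h' := by
  rw [tv_conj g v φ h]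
  have e1 : φ ᵥ* ((g⁻¹ : Matrix.SpecialLinearGroup (Fin n) F) : Matrix (Fin n) (Fin n) F) = φ' := by
    rw [← hφ, SLn_vecMul_inv]
  exact tv_congr hv e1 _

theorem row_move (H : Subgroup (Matrix.SpecialLinearGroup (Fin n) F))
    (g : Matrix.SpecialLinearGroup (Fin n) F) (hg : g ∈ H) {i j l : Fin n}
    (hij : i ≠ j) (hil : i ≠ l) (s : F)
    (hgi : (g : Matrix (Fin n) (Fin n) F) *ᵥ (Pi.single i 1 : Fin n → F) = Pi.single i 1)
    (hgj : (Pi.single j 1 : Fin n → F) ᵥ* (g : Matrix (Fin n) (Fin n) F) =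
      Pi.single j 1 + Pi.single l 1)
    (h : Tv hij s ∈ H) : Tv hil s ∈ H := by
  have hd : ((Pi.single j 1 : Fin n → F) + Pi.single l 1) ⬝ᵥ
      (s • (Pi.single i 1 : Fin n → F)) = 0 := by
    rw [add_dotProduct, dotProduct_smul, dotProduct_smul, single_dotProduct, single_dotProduct,
      Pi.single_eq_of_ne hij.symm, Pi.single_eq_of_ne hil.symm]
    simp
  have e1 : g⁻¹ * Tv hij s * g =
      tv (s • (Pi.single i 1 : Fin n → F)) (Pi.single j 1 + Pi.single l 1) hd := by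
    rw [← tv_eq_transvection hij s]
    exact conj_inv_tv g _ _ _ _ _ hd (by rw [Matrix.mulVec_smul, hgi]) hgj
  have e2 : tv (s • (Pi.single i 1 : Fin n → F)) (Pi.single j 1 + Pi.single l 1) hd =
      Tv hij s * Tv hil s := by
    rw [← tv_eq_transvection hij s, ← tv_eq_transvection hil s, tv_mul_right]
  have e3 : Tv hil s = (Tv hij s)⁻¹ * (g⁻¹ * Tv hij s * g) := by
    rw [e1, e2]; group
  rw [e3]
  exact H.mul_mem (H.inv_mem h) (H.mul_mem (H.mul_mem (H.inv_mem hg) h) hg)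

theorem col_move (H : Subgroup (Matrix.SpecialLinearGroup (Fin n) F))
    (g : Matrix.SpecialLinearGroup (Fin n) F) (hg : g ∈ H) {i j l : Fin n}
    (hji : j ≠ i) (hli : l ≠ i) (s : F)
    (hgi : (Pi.single i 1 : Fin n → F) ᵥ* (g : Matrix (Fin n) (Fin n) F) = Pi.single i 1)
    (hgj : (g : Matrix (Fin n) (Fin n) F) *ᵥ (Pi.single j 1 : Fin n → F) =
      Pi.single j 1 + Pi.single l 1)
    (h : Tv hji s ∈ H) : Tv hli s ∈ H := by
  have hd : (Pi.single i 1 : Fin n → F) ⬝ᵥ
      (s • (Pi.single j 1 : Fin n → F) + s • (Pi.single l 1 : Fin n → F)) = 0 := by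
    rw [dotProduct_add, dotProduct_smul, dotProduct_smul, single_dotProduct, single_dotProduct,
      Pi.single_eq_of_ne hji.symm, Pi.single_eq_of_ne hli.symm]
    simp
  have e1 : g * Tv hji s * g⁻¹ =
      tv (s • (Pi.single j 1 : Fin n → F) + s • (Pi.single l 1 : Fin n → F))
        (Pi.single i 1) hd := by
    rw [← tv_eq_transvection hji s]
    exact conj_tv g _ _ _ _ _ hd (by rw [Matrix.mulVec_smul, hgj, smul_add]) hgi
  have e2 : tv (s • (Pi.single j 1 : Fin n → F) + s • (Pi.single l 1 : Fin n → F))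
      (Pi.single i 1) hd = Tv hji s * Tv hli s := by
    rw [← tv_eq_transvection hji s, ← tv_eq_transvection hli s, tv_mul_left]
  have e3 : Tv hli s = (Tv hji s)⁻¹ * (g * Tv hji s * g⁻¹) := by
    rw [e1, e2]; group
  rw [e3]
  exact H.mul_mem (H.inv_mem h) (H.mul_mem (H.mul_mem hg h) (H.inv_mem hg))

end RegGenHelpers

section RegGenRowCol

variable {F : Type*} [Field F] {k : ℕ}

theorem cyc_row (g : Matrix.SpecialLinearGroup (Fin (k + 2)) F) (ω : Fin (k + 2) → F)
    (hg : (g : Matrix (Fin (k + 2)) (Fin (k + 2)) F) = 1 + cyc ω) (i : Fin (k + 2)) :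
    (Pi.single i 1 : Fin (k + 2) → F) ᵥ* (g : Matrix (Fin (k + 2)) (Fin (k + 2)) F) =
      Pi.single i 1 + ω i • Pi.single (i + 1) 1 := by
  rw [hg, Matrix.vecMul_add, Matrix.vecMul_one, single_vecMul_cyc]

theorem cyc_col (g : Matrix.SpecialLinearGroup (Fin (k + 2)) F) (ω : Fin (k + 2) → F)
    (hg : (g : Matrix (Fin (k + 2)) (Fin (k + 2)) F) = 1 + cyc ω) (i : Fin (k + 2)) :
    (g : Matrix (Fin (k + 2)) (Fin (k + 2)) F) *ᵥ (Pi.single (i + 1) 1 : Fin (k + 2) → F) =
      Pi.single (i + 1) 1 + ω i • Pi.single i 1 := by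
  rw [hg, Matrix.add_mulVec, Matrix.one_mulVec, cyc_mulVec_single]

end RegGenRowCol

section RegGenIdx

variable {m : ℕ}

/-- The last index. -/
abbrev lastI (m : ℕ) : Fin (m + 1 + 2) := Fin.last (m + 1 + 1)

/-- The penultimate index. -/
abbrev plI (m : ℕ) : Fin (m + 1 + 2) := (Fin.last (m + 1)).castSucc

theorem plI_add_one : plI m + 1 = lastI m := by
  unfold plI lastI
  rw [Fin.coeSucc_eq_succ, Fin.succ_last]

theorem plI_ne_last : plI m ≠ lastI m := Fin.castSucc_ne_last _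

theorem plI_ne_zero : plI m ≠ 0 := by
  intro h
  have := congrArg Fin.val h
  simp [plI] at this

theorem zero_ne_lastI : (0 : Fin (m + 1 + 2)) ≠ lastI m := by
  intro h
  have := congrArg Fin.val h
  simp [lastI] at this

theorem one_ne_lastI : (1 : Fin (m + 1 + 2)) ≠ lastI m := by
  intro h
  have := congrArg Fin.val h
  simp [lastI] at this

theorem zero_ne_oneI : (0 : Fin (m + 1 + 2)) ≠ 1 := by
  intro h
  have := congrArg Fin.val h
  simp at this

theorem lastI_add_one : lastI m + 1 = 0 := Fin.last_add_one _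

theorem add_one_eq_zero_iffI (i : Fin (m + 1 + 2)) : i + 1 = 0 ↔ i = lastI m := by
  constructor
  · intro h
    rw [← lastI_add_one] at h
    exact add_right_cancel h
  · rintro rfl
    exact lastI_add_one

theorem add_one_eq_last_iffI (i : Fin (m + 1 + 2)) : i + 1 = lastI m ↔ i = plI m := by
  constructor
  · intro h
    rw [← plI_add_one] at h
    exact add_right_cancel h
  · rintro rfl
    exact plI_add_one

end RegGenIdx

section RegGenEls

variable {F : Type*} [Field F] {m : ℕ}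

local notation "Tv" => Matrix.SpecialLinearGroup.transvection

/-- Superdiagonal of `u`: `(lam, 1, …, 1)`. -/
def wU (m : ℕ) (lam : F) : Fin (m + 1 + 2) → F :=
  fun i => if i = 0 then lam else if i = lastI m then 0 else 1

/-- Superdiagonal of `y₀`: `(1, …, 1, 0)`. -/
def wY (F : Type*) [Field F] (m : ℕ) : Fin (m + 1 + 2) → F :=
  fun i => if i = lastI m then 0 else if i + 1 = lastI m then 0 else 1

/-- Weights of the signed cycle. -/
def wW (m : ℕ) (c : F) : Fin (m + 1 + 2) → F :=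
  fun i => if i = lastI m then c else 1

theorem wU_last (lam : F) : wU m lam (lastI m) = 0 := by
  simp [wU, (zero_ne_lastI (m := m)).symm]

theorem wU_zero (lam : F) : wU m lam 0 = lam := by
  simp [wU]

theorem wU_pl (lam : F) : wU m lam (plI m) = 1 := by
  simp [wU, plI_ne_zero, plI_ne_last]

theorem wY_last : wY F m (lastI m) = 0 := by
  simp [wY]

theorem wY_pl : wY F m (plI m) = 0 := by
  simp [wY, plI_add_one]

theorem wY_of_ne (i : Fin (m + 1 + 2)) (h1 : i ≠ lastI m) (h2 : i + 1 ≠ lastI m) :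
    wY F m i = 1 := by
  simp [wY, h1, h2]

/-- The sign `(-1)^(n-1)`. -/
def cSign (F : Type*) [Field F] (m : ℕ) : F := (-1) ^ (m + 1 + 1)

theorem cSign_mul_self : cSign F m * cSign F m = 1 := by
  unfold cSign
  rw [← pow_add, ← two_mul, pow_mul]
  simp

theorem cSign_eq_or : cSign F m = 1 ∨ cSign F m = -1 := neg_one_pow_eq_or F _

/-- The regular unipotent `u`. -/
def uEl (m : ℕ) (lam : F) : Matrix.SpecialLinearGroup (Fin (m + 1 + 2)) F :=
  ⟨1 + cyc (wU m lam), det_one_add_cyc _ (wU_last lam)⟩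

theorem uEl_coe (lam : F) :
    ((uEl m lam : Matrix.SpecialLinearGroup (Fin (m + 1 + 2)) F) :
      Matrix (Fin (m + 1 + 2)) (Fin (m + 1 + 2)) F) = 1 + cyc (wU m lam) := rfl

/-- The signed cycle. -/
def wEl (F : Type*) [Field F] (m : ℕ) : Matrix.SpecialLinearGroup (Fin (m + 1 + 2)) F :=
  ⟨cyc (wW m (cSign F m)), by
    rw [det_cyc]
    have h : ∏ i, wW m (cSign F m) i = cSign F m := by
      unfold wW
      rw [Finset.prod_ite_eq' Finset.univ (lastI m) (fun _ => cSign F m)]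
      simp
    rw [h]
    exact cSign_mul_self⟩

theorem wEl_coe :
    ((wEl F m : Matrix.SpecialLinearGroup (Fin (m + 1 + 2)) F) :
      Matrix (Fin (m + 1 + 2)) (Fin (m + 1 + 2)) F) = cyc (wW m (cSign F m)) := rfl

theorem uEl_isNilpotent (lam : F) :
    IsNilpotent (((uEl m lam : Matrix.SpecialLinearGroup (Fin (m + 1 + 2)) F) :
      Matrix (Fin (m + 1 + 2)) (Fin (m + 1 + 2)) F) - 1) := by
  rw [uEl_coe, add_sub_cancel_left]
  exact cyc_isNilpotent _ (wU_last lam)

theorem uEl_pow_ne_zero (lam : F) (hlam : lam ≠ 0) :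
    (((uEl m lam : Matrix.SpecialLinearGroup (Fin (m + 1 + 2)) F) :
      Matrix (Fin (m + 1 + 2)) (Fin (m + 1 + 2)) F) - 1) ^ (m + 1 + 1) ≠ 0 := by
  rw [uEl_coe, add_sub_cancel_left]
  apply cyc_pow_ne_zero
  intro i hi
  unfold wU
  split_ifs
  · exact hlam
  · exact one_ne_zero

/-- `w u w⁻¹ = y₀ · x_{n-1,0}(c lam)` in matrix form. -/
theorem wEl_conj (lam : F) :
    ((wEl F m * uEl m lam * (wEl F m)⁻¹ : Matrix.SpecialLinearGroup (Fin (m + 1 + 2)) F) :
      Matrix (Fin (m + 1 + 2)) (Fin (m + 1 + 2)) F) =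
      1 + cyc (wY F m + Pi.single (lastI m) (cSign F m * lam)) := by
  have h : cyc (wW m (cSign F m)) * (1 + cyc (wU m lam)) =
      (1 + cyc (wY F m + Pi.single (lastI m) (cSign F m * lam))) * cyc (wW m (cSign F m)) := by
    apply cyc_conj
    intro i
    by_cases h1 : i = lastI m
    · subst h1
      simp [wW, wU, wY, lastI_add_one, (zero_ne_lastI (m := m))]
    · by_cases h2 : i + 1 = lastI m
      · simp [wW, wU, wY, h1, h2, (zero_ne_lastI (m := m)).symm]
      · have h3 : i + 1 ≠ 0 := fun h => h1 ((add_one_eq_zero_iffI i).mp h)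
        simp [wW, wU, wY, h1, h2, h3]
  rw [Matrix.SpecialLinearGroup.coe_mul, Matrix.SpecialLinearGroup.coe_mul, wEl_coe, uEl_coe, h,
    mul_assoc, ← wEl_coe, ← Matrix.SpecialLinearGroup.coe_mul, mul_inv_cancel,
    Matrix.SpecialLinearGroup.coe_one, mul_one]

end RegGenEls

section RegGenCore

variable {F : Type*} [Field F] {m : ℕ}

local notation "Tv" => Matrix.SpecialLinearGroup.transvection
local notation "e₀" => (Pi.single (0 : Fin (m + 1 + 2)) (1 : F) : Fin (m + 1 + 2) → F)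
local notation "eL" => (Pi.single (lastI m) (1 : F) : Fin (m + 1 + 2) → F)
local notation "eP" => (Pi.single (plI m) (1 : F) : Fin (m + 1 + 2) → F)

theorem uEl_col_zero (lam : F) :
    ((uEl m lam : Matrix.SpecialLinearGroup (Fin (m + 1 + 2)) F) :
      Matrix (Fin (m + 1 + 2)) (Fin (m + 1 + 2)) F) *ᵥ e₀ = e₀ := by
  have := cyc_col (uEl m lam) _ (uEl_coe lam) (lastI m)
  rw [lastI_add_one, wU_last, zero_smul, add_zero] at this
  exact this

theorem uEl_row_pl (lam : F) :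
    eP ᵥ* ((uEl m lam : Matrix.SpecialLinearGroup (Fin (m + 1 + 2)) F) :
      Matrix (Fin (m + 1 + 2)) (Fin (m + 1 + 2)) F) = eP + eL := by
  have := cyc_row (uEl m lam) _ (uEl_coe lam) (plI m)
  rw [plI_add_one, wU_pl, one_smul] at this
  exact this

/-- Conjugation by `g = x_{0,n-2}(a)`: `g u g⁻¹ = u · x_{0,n-1}(a)`. -/
theorem uEl_conj_g (lam a : F) :
    Tv (plI_ne_zero (m := m)).symm a * uEl m lam * (Tv (plI_ne_zero (m := m)).symm a)⁻¹ =
      uEl m lam * Tv (zero_ne_lastI (m := m)) a := by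
  have h0p : (0 : Fin (m + 1 + 2)) ≠ plI m := plI_ne_zero.symm
  have h0l : (0 : Fin (m + 1 + 2)) ≠ lastI m := zero_ne_lastI
  have hup : (a • eP) ᵥ* ((uEl m lam : Matrix.SpecialLinearGroup (Fin (m + 1 + 2)) F) :
      Matrix (Fin (m + 1 + 2)) (Fin (m + 1 + 2)) F) = a • eP + a • eL := by
    rw [Matrix.smul_vecMul, uEl_row_pl, smul_add]
  have hd : (a • eP + a • eL) ⬝ᵥ e₀ = 0 := by
    rw [add_dotProduct, smul_dotProduct, smul_dotProduct, single_dotProduct, single_dotProduct,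
      Pi.single_eq_of_ne h0p.symm, Pi.single_eq_of_ne h0l.symm]
    simp
  have e1 : (uEl m lam)⁻¹ * Tv h0p a * uEl m lam = tv e₀ (a • eP + a • eL) hd := by
    rw [← tv_eq_transvection' h0p a]
    exact conj_inv_tv (uEl m lam) _ _ _ _ _ hd (uEl_col_zero lam) hup
  have e2 : tv e₀ (a • eP + a • eL) hd = Tv h0l a * Tv h0p a := by
    rw [← tv_eq_transvection' h0p a, ← tv_eq_transvection' h0l a, tv_mul_right]
    exact tv_congr rfl (add_comm _ _) _
  rw [e2] at e1
  have e3 : Tv h0p a * uEl m lam = uEl m lam * (Tv h0l a * Tv h0p a) := by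
    rw [← e1]; group
  rw [e3]; group

/-- Extraction of the lowest root element. -/
theorem step_y (u₃ : Matrix.SpecialLinearGroup (Fin (m + 1 + 2)) F) (γ a : F) (haγ : a * γ = 1)
    (hu₃ : (u₃ : Matrix (Fin (m + 1 + 2)) (Fin (m + 1 + 2)) F) =
      1 + cyc (wY F m + Pi.single (lastI m) γ)) :
    Tv (zero_ne_lastI (m := m)) a * (u₃⁻¹ * Tv (zero_ne_lastI (m := m)) a * u₃) *
      (Tv (zero_ne_lastI (m := m)) a)⁻¹ = Tv (zero_ne_lastI (m := m)).symm (-γ) := by
  have h0l : (0 : Fin (m + 1 + 2)) ≠ lastI m := zero_ne_lastI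
  have d00 : e₀ ⬝ᵥ e₀ = 1 := by simp
  have dll : eL ⬝ᵥ eL = 1 := by simp
  have d0l : e₀ ⬝ᵥ eL = 0 := by
    rw [single_dotProduct, Pi.single_eq_of_ne h0l, mul_zero]
  have dl0 : eL ⬝ᵥ e₀ = 0 := by
    rw [single_dotProduct, Pi.single_eq_of_ne h0l.symm, mul_zero]
  have c0 : (u₃ : Matrix (Fin (m + 1 + 2)) (Fin (m + 1 + 2)) F) *ᵥ e₀ = e₀ + γ • eL := by
    have := cyc_col u₃ _ hu₃ (lastI m)
    rw [lastI_add_one] at this
    rw [this]
    simp [wY_last]
  have cl : (u₃ : Matrix (Fin (m + 1 + 2)) (Fin (m + 1 + 2)) F) *ᵥ eL = eL := by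
    have := cyc_col u₃ _ hu₃ (plI m)
    rw [plI_add_one] at this
    rw [this]
    simp [wY_pl, plI_ne_last]
  have rl : eL ᵥ* (u₃ : Matrix (Fin (m + 1 + 2)) (Fin (m + 1 + 2)) F) = eL + γ • e₀ := by
    have := cyc_row u₃ _ hu₃ (lastI m)
    rw [lastI_add_one] at this
    rw [this]
    simp [wY_last]
  have hd1 : (a • eL + e₀) ⬝ᵥ (e₀ - γ • eL) = 0 := by
    simp only [add_dotProduct, dotProduct_sub, smul_dotProduct, dotProduct_smul, d00, dll, d0l,
      dl0, smul_eq_mul]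
    linear_combination (-1 : F) * haγ
  have e1 : u₃⁻¹ * Tv h0l a * u₃ = tv (e₀ - γ • eL) (a • eL + e₀) hd1 := by
    rw [← tv_eq_transvection' h0l a]
    refine conj_inv_tv u₃ _ _ _ _ _ hd1 ?_ ?_
    · rw [Matrix.mulVec_sub, Matrix.mulVec_smul, c0, cl]
      abel
    · rw [Matrix.smul_vecMul, rl, smul_add, smul_smul, haγ, one_smul]
  have hd2 : e₀ ⬝ᵥ ((-γ) • eL) = 0 := by rw [dotProduct_smul, d0l, smul_zero]
  have e2 : Tv h0l a * tv (e₀ - γ • eL) (a • eL + e₀) hd1 * (Tv h0l a)⁻¹ =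
      tv ((-γ) • eL) e₀ hd2 := by
    refine conj_tv (Tv h0l a) _ _ _ _ _ hd2 ?_ ?_
    · have hs : (a • eL) ⬝ᵥ (e₀ - γ • eL) = -1 := by
        simp only [dotProduct_sub, smul_dotProduct, dotProduct_smul, dll, dl0, smul_eq_mul]
        linear_combination (-1 : F) * haγ
      rw [← tv_eq_transvection' h0l a, tv_mulVec, hs]
      module
    · rw [← tv_eq_transvection' h0l a, vecMul_tv, d00, one_smul]
      exact add_comm _ _
  rw [e1, e2]
  exact tv_eq_transvection h0l.symm (-γ)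

theorem y0_coe (u₃ : Matrix.SpecialLinearGroup (Fin (m + 1 + 2)) F) (γ : F)
    (hu₃ : (u₃ : Matrix (Fin (m + 1 + 2)) (Fin (m + 1 + 2)) F) =
      1 + cyc (wY F m + Pi.single (lastI m) γ)) :
    ((u₃ * (Tv (zero_ne_lastI (m := m)).symm γ)⁻¹ : Matrix.SpecialLinearGroup (Fin (m + 1 + 2)) F) :
      Matrix (Fin (m + 1 + 2)) (Fin (m + 1 + 2)) F) = 1 + cyc (wY F m) := by
  rw [Matrix.SpecialLinearGroup.coe_mul, Matrix.SpecialLinearGroup.transvection_inv,
    Matrix.SpecialLinearGroup.transvection_coe, hu₃, cyc_add, cyc_single, lastI_add_one]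
  have h1 : cyc (wY F m) * Matrix.single (lastI m) (0 : Fin (m + 1 + 2)) (-γ) = 0 := by
    have := cyc_mul_single_eq_zero (plI m) 0 (-γ) (wY F m) wY_pl
    rwa [plI_add_one] at this
  have h2 : Matrix.single (lastI m) (0 : Fin (m + 1 + 2)) γ *
      Matrix.single (lastI m) (0 : Fin (m + 1 + 2)) (-γ) = 0 :=
    Matrix.single_mul_single_of_ne γ (lastI m) 0 (lastI m) zero_ne_lastI (-γ)
  have h3 : Matrix.single (lastI m) (0 : Fin (m + 1 + 2)) γ +
      Matrix.single (lastI m) (0 : Fin (m + 1 + 2)) (-γ) = 0 := by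
    rw [← Matrix.single_add, add_neg_cancel, Matrix.single_zero]
  rw [mul_add, mul_one, add_mul, add_mul, one_mul, h1, h2, add_zero, add_zero]
  have h4 : (1 : Matrix (Fin (m + 1 + 2)) (Fin (m + 1 + 2)) F) + cyc (wY F m) =
      1 + cyc (wY F m) + (Matrix.single (lastI m) (0 : Fin (m + 1 + 2)) γ +
      Matrix.single (lastI m) (0 : Fin (m + 1 + 2)) (-γ)) := by rw [h3, add_zero]
  rw [h4]
  abel

theorem uEl_factor (lam : F) (y₀ : Matrix.SpecialLinearGroup (Fin (m + 1 + 2)) F)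
    (hy₀ : (y₀ : Matrix (Fin (m + 1 + 2)) (Fin (m + 1 + 2)) F) = 1 + cyc (wY F m)) :
    uEl m lam = Tv (plI_ne_last (m := m)) 1 * y₀ * Tv (zero_ne_oneI (m := m)) (lam - 1) := by
  apply Subtype.ext
  rw [Matrix.SpecialLinearGroup.coe_mul, Matrix.SpecialLinearGroup.coe_mul,
    Matrix.SpecialLinearGroup.transvection_coe, Matrix.SpecialLinearGroup.transvection_coe, hy₀,
    uEl_coe]
  have hw : wU m lam = wY F m + Pi.single (plI m) 1 + Pi.single 0 (lam - 1) := by
    funext i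
    simp only [Pi.add_apply, Pi.single_apply]
    by_cases h0 : i = 0
    · subst h0
      rw [wU_zero, wY_of_ne _ zero_ne_lastI (by rw [zero_add]; exact one_ne_lastI)]
      simp [plI_ne_zero.symm]
    · by_cases hl : i = lastI m
      · subst hl
        rw [wU_last, wY_last]
        simp [plI_ne_last.symm, zero_ne_lastI.symm]
      · by_cases hp : i = plI m
        · subst hp
          rw [wU_pl, wY_pl]
          simp [plI_ne_zero]
        · have : i + 1 ≠ lastI m := fun h => hp ((add_one_eq_last_iffI i).mp h)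
          rw [wY_of_ne _ hl this]
          simp [wU, h0, hl, hp]
  have h1 : Matrix.single (plI m) (lastI m) (1 : F) * cyc (wY F m) = 0 :=
    single_mul_cyc_eq_zero _ _ _ _ wY_last
  have h2 : cyc (wY F m) *
      Matrix.single (0 : Fin (m + 1 + 2)) (1 : Fin (m + 1 + 2)) (lam - 1) = 0 := by
    have := cyc_mul_single_eq_zero (lastI m) 1 (lam - 1) (wY F m) wY_last
    rwa [lastI_add_one] at this
  have h3 : Matrix.single (plI m) (lastI m) (1 : F) *
      Matrix.single (0 : Fin (m + 1 + 2)) (1 : Fin (m + 1 + 2)) (lam - 1) = 0 :=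
    Matrix.single_mul_single_of_ne _ _ _ _ zero_ne_lastI.symm _
  rw [hw, cyc_add, cyc_add, cyc_single, cyc_single, plI_add_one, zero_add]
  simp only [add_mul, mul_add, one_mul, mul_one, h1, h2, h3, add_zero, zero_add, zero_mul]
  abel

theorem regGen_core [Fintype F] (H : Subgroup (Matrix.SpecialLinearGroup (Fin (m + 1 + 2)) F))
    (lam : F) (hlam0 : lam ≠ 0) (hlam : ∀ s : F, s ≠ 0 → ∃ k : ℕ, s = lam ^ k)
    (hu : uEl m lam ∈ H)
    (hz : Tv (zero_ne_lastI (m := m)) (cSign F m * lam⁻¹) ∈ H)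
    (u₃ : Matrix.SpecialLinearGroup (Fin (m + 1 + 2)) F)
    (hu₃ : (u₃ : Matrix (Fin (m + 1 + 2)) (Fin (m + 1 + 2)) F) =
      1 + cyc (wY F m + Pi.single (lastI m) (cSign F m * lam)))
    (hu₃H : u₃ ∈ H) : H = ⊤ := by
  have h0l : (0 : Fin (m + 1 + 2)) ≠ lastI m := zero_ne_lastI
  have h01 : (0 : Fin (m + 1 + 2)) ≠ 1 := zero_ne_oneI
  have h1l : (1 : Fin (m + 1 + 2)) ≠ lastI m := one_ne_lastI
  have hpl : plI m ≠ lastI m := plI_ne_last
  have h0p : (0 : Fin (m + 1 + 2)) ≠ plI m := plI_ne_zero.symm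
  have hn3 : 3 ≤ m + 1 + 2 := by omega
  obtain ⟨γ, hγ⟩ : ∃ γ, γ = cSign F m * lam := ⟨_, rfl⟩
  obtain ⟨a, ha⟩ : ∃ a, a = cSign F m * lam⁻¹ := ⟨_, rfl⟩
  rw [← ha] at hz
  rw [← hγ] at hu₃
  have haγ : a * γ = 1 := by
    rw [ha, hγ, mul_mul_mul_comm, cSign_mul_self, inv_mul_cancel₀ hlam0, one_mul]
  have hγ0 : γ ≠ 0 := by
    rintro rfl
    simp at haγ
  -- the lowest root element
  have hy : Tv h0l.symm γ ∈ H := by
    have h := step_y u₃ γ a haγ hu₃
    have h' : Tv h0l.symm (-γ) ∈ H := by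
      rw [← h]
      exact H.mul_mem (H.mul_mem hz (H.mul_mem (H.mul_mem (H.inv_mem hu₃H) hz) hu₃H))
        (H.inv_mem hz)
    have := transv_neg_mem H h0l.symm (-γ) h'
    rwa [neg_neg] at this
  -- the Jordan block on the first `n - 1` coordinates
  obtain ⟨y₀, hy₀H, hy₀⟩ : ∃ y₀ : Matrix.SpecialLinearGroup (Fin (m + 1 + 2)) F, y₀ ∈ H ∧
      (y₀ : Matrix (Fin (m + 1 + 2)) (Fin (m + 1 + 2)) F) = 1 + cyc (wY F m) :=
    ⟨u₃ * (Tv h0l.symm γ)⁻¹, H.mul_mem hu₃H (H.inv_mem hy), y0_coe u₃ γ hu₃⟩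
  have y0_col_last : (y₀ : Matrix (Fin (m + 1 + 2)) (Fin (m + 1 + 2)) F) *ᵥ eL = eL := by
    have := cyc_col y₀ _ hy₀ (plI m)
    rw [plI_add_one, wY_pl, zero_smul, add_zero] at this
    exact this
  have y0_row_last : eL ᵥ* (y₀ : Matrix (Fin (m + 1 + 2)) (Fin (m + 1 + 2)) F) = eL := by
    have := cyc_row y₀ _ hy₀ (lastI m)
    rw [wY_last, zero_smul, add_zero] at this
    exact this
  -- last row elements with parameter `γ`
  have hiv : ∀ (j : Fin (m + 1 + 2)) (hj : lastI m ≠ j), Tv hj γ ∈ H := by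
    intro j
    induction j using Fin.induction with
    | zero => intro hj; exact hy
    | succ i ih =>
      intro hj
      have hcs : lastI m ≠ i.castSucc := (Fin.castSucc_ne_last i).symm
      refine row_move H y₀ hy₀H hcs hj γ y0_col_last ?_ (ih hcs)
      have := cyc_row y₀ _ hy₀ i.castSucc
      rw [Fin.coeSucc_eq_succ, wY_of_ne _ hcs.symm (by rw [Fin.coeSucc_eq_succ]; exact hj.symm),
        one_smul] at this
      exact this
  -- first row elements with parameter `1`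
  have hv : ∀ (j : Fin (m + 1 + 2)) (hj0 : 0 ≠ j) (hjl : lastI m ≠ j), Tv hj0 (1 : F) ∈ H := by
    intro j hj0 hjl
    have := transv_comm_mem H h0l hjl hj0 a γ hz (hiv j hjl)
    rwa [haγ] at this
  have hvi : Tv h0l (1 : F) ∈ H :=
    row_move H (uEl m lam) hu h0p h0l 1 (uEl_col_zero lam) (uEl_row_pl lam)
      (hv (plI m) h0p hpl.symm)
  have hvii : Tv h01 γ ∈ H := by
    have := transv_comm_mem H h0l h1l.symm h01 1 γ hvi (hiv 1 h1l.symm)
    rwa [one_mul] at this
  have hvii' : Tv h01 lam ∈ H := by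
    rcases cSign_eq_or (F := F) (m := m) with h | h
    · rw [hγ, h, one_mul] at hvii
      exact hvii
    · rw [hγ, h, neg_one_mul] at hvii
      have := transv_neg_mem H h01 _ hvii
      rwa [neg_neg] at this
  -- the last simple root element
  have hB : Tv hpl (1 : F) ∈ H := by
    have hT : Tv h01 (lam - 1) ∈ H := by
      rw [sub_eq_add_neg, Matrix.SpecialLinearGroup.transvection_add]
      exact H.mul_mem hvii' (transv_neg_mem H h01 1 (hv 1 h01 h1l.symm))
    have hfact : uEl m lam = Tv hpl 1 * y₀ * Tv h01 (lam - 1) := uEl_factor lam y₀ hy₀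
    have : Tv hpl (1 : F) = uEl m lam * (Tv h01 (lam - 1))⁻¹ * y₀⁻¹ := by
      rw [hfact]; group
    rw [this]
    exact H.mul_mem (H.mul_mem hu (H.inv_mem hT)) (H.inv_mem hy₀H)
  -- last column elements with parameter `1`
  have hix : ∀ (j : Fin (m + 1 + 2)) (hj : j ≠ lastI m), Tv hj (1 : F) ∈ H := by
    intro j
    induction j using Fin.reverseInduction with
    | last => intro hj; exact absurd rfl hj
    | cast i ih =>
      intro hj
      by_cases hi : i.succ = lastI m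
      · have hi' : i = Fin.last (m + 1) := by
          apply Fin.succ_injective
          rw [hi, Fin.succ_last]
        subst hi'
        exact hB
      · refine col_move H y₀ hy₀H hi hj 1 y0_row_last ?_ (ih hi)
        have := cyc_col y₀ _ hy₀ i.castSucc
        rw [Fin.coeSucc_eq_succ, wY_of_ne _ hj (by rw [Fin.coeSucc_eq_succ]; exact hi),
          one_smul] at this
        exact this
  -- last row elements with parameter `1`
  have hmid : ∀ (i j : Fin (m + 1 + 2)) (hij : i ≠ j) (hi : i ≠ lastI m) (hj : lastI m ≠ j),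
      Tv hij γ ∈ H := by
    intro i j hij hi hj
    have := transv_comm_mem H hi hj hij 1 γ (hix i hi) (hiv j hj)
    rwa [one_mul] at this
  have hpow : ∀ (t : ℕ) (j : Fin (m + 1 + 2)) (hj : lastI m ≠ j), Tv hj (γ ^ (t + 1)) ∈ H := by
    intro t
    induction t with
    | zero => intro j hj; rw [zero_add, pow_one]; exact hiv j hj
    | succ t ih =>
      intro j hj
      obtain ⟨l, hl1, hl2⟩ := exists_third hn3 (lastI m) j
      rw [pow_succ]
      exact transv_comm_mem H hl1.symm hl2 hj _ _ (ih l hl1.symm) (hmid l j hl2 hl1 hj)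
  have hx : ∀ (j : Fin (m + 1 + 2)) (hj : lastI m ≠ j), Tv hj (1 : F) ∈ H := by
    intro j hj
    have hq : 1 < Fintype.card F := Fintype.one_lt_card
    have h1 := hpow (Fintype.card F - 2) j hj
    have h2 : Fintype.card F - 2 + 1 = Fintype.card F - 1 := by omega
    rw [h2, FiniteField.pow_card_sub_one_eq_one γ hγ0] at h1
    exact h1
  have hxi : ∀ (i j : Fin (m + 1 + 2)) (hij : i ≠ j), Tv hij (1 : F) ∈ H := by
    intro i j hij
    by_cases hj : j = lastI m
    · subst hj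
      exact hix i hij
    · by_cases hi : i = lastI m
      · subst hi
        exact hx j hij
      · have := transv_comm_mem H hi (Ne.symm hj) hij 1 1 (hix i hi) (hx j (Ne.symm hj))
        rwa [one_mul] at this
  exact closure_final hn3 H hxi lam hlam h01 hvii'

/-- `SL_n(F)`, `n = m + 3`, is generated by three conjugate regular unipotent elements. -/
theorem regGen_main [Fintype F] (m : ℕ) :
    ∃ u g h : Matrix.SpecialLinearGroup (Fin (m + 1 + 2)) F,
      (IsNilpotent ((u : Matrix (Fin (m + 1 + 2)) (Fin (m + 1 + 2)) F) - 1) ∧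
        ((u : Matrix (Fin (m + 1 + 2)) (Fin (m + 1 + 2)) F) - 1) ^ (m + 1 + 2 - 1) ≠ 0) ∧
      Subgroup.closure ({u, g * u * g⁻¹, h * u * h⁻¹} :
        Set (Matrix.SpecialLinearGroup (Fin (m + 1 + 2)) F)) = ⊤ := by
  obtain ⟨x, hx⟩ := IsCyclic.exists_monoid_generator (α := Fˣ)
  obtain ⟨lam, hlamx⟩ : ∃ lam : F, lam = (x : F) := ⟨_, rfl⟩
  have hlam0 : lam ≠ 0 := by rw [hlamx]; exact x.ne_zero
  have hlam : ∀ s : F, s ≠ 0 → ∃ k : ℕ, s = lam ^ k := by
    intro s hs
    obtain ⟨k, hk⟩ := (Submonoid.mem_powers_iff _ _).mp (hx (Units.mk0 s hs))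
    refine ⟨k, ?_⟩
    have := congrArg (fun y : Fˣ => (y : F)) hk
    simp only [Units.val_pow_eq_pow_val, Units.val_mk0] at this
    rw [hlamx, this]
  refine ⟨uEl m lam, Tv (plI_ne_zero (m := m)).symm (cSign F m * lam⁻¹), wEl F m,
    ⟨uEl_isNilpotent lam, ?_⟩, ?_⟩
  · have : m + 1 + 2 - 1 = m + 1 + 1 := by omega
    rw [this]
    exact uEl_pow_ne_zero lam hlam0
  · have hu : uEl m lam ∈ Subgroup.closure ({uEl m lam,
        Tv (plI_ne_zero (m := m)).symm (cSign F m * lam⁻¹) * uEl m lam *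
          (Tv (plI_ne_zero (m := m)).symm (cSign F m * lam⁻¹))⁻¹,
        wEl F m * uEl m lam * (wEl F m)⁻¹} :
        Set (Matrix.SpecialLinearGroup (Fin (m + 1 + 2)) F)) :=
      Subgroup.subset_closure (by simp)
    refine regGen_core _ lam hlam0 hlam hu ?_ (wEl F m * uEl m lam * (wEl F m)⁻¹)
      (wEl_conj lam) (Subgroup.subset_closure (by simp))
    have h2 : uEl m lam * Tv (zero_ne_lastI (m := m)) (cSign F m * lam⁻¹) ∈
        Subgroup.closure ({uEl m lam,
        Tv (plI_ne_zero (m := m)).symm (cSign F m * lam⁻¹) * uEl m lam *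
          (Tv (plI_ne_zero (m := m)).symm (cSign F m * lam⁻¹))⁻¹,
        wEl F m * uEl m lam * (wEl F m)⁻¹} :
        Set (Matrix.SpecialLinearGroup (Fin (m + 1 + 2)) F)) := by
      rw [← uEl_conj_g]
      exact Subgroup.subset_closure (by simp)
    have h3 := Subgroup.mul_mem _ (Subgroup.inv_mem _ hu) h2
    rwa [inv_mul_cancel_left] at h3

end RegGenCore

end Cfsg.Agent.H44
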