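import Mathlib
import Cfsg.Agent.H44.RegGenMain

/-!
# The companion matrix of `(X - 1)^n` as a regular unipotent element (helper44)

`uC F m ∈ SL_n(F)`, `n = m + 4`, has rows `e_i ↦ e_{i+1}` (`i < n - 1`) and last row `cGam`,
the negated low coefficients of `(X - 1)^n`.  It is unipotent with a single Jordan block.
-/

set_option autoImplicit false

namespace Cfsg.Agent.H44

open Matrix

section CompIdx

variable {m : ℕ}

/-- The last index. -/
abbrev kL (m : ℕ) : Fin (m + 2 + 2) := Fin.last (m + 2 + 1)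

/-- Index `0`. -/
abbrev k0 (m : ℕ) : Fin (m + 2 + 2) := ⟨0, by omega⟩

/-- Index `1`. -/
abbrev k1 (m : ℕ) : Fin (m + 2 + 2) := ⟨1, by omega⟩

/-- Index `2`. -/
abbrev k2 (m : ℕ) : Fin (m + 2 + 2) := ⟨2, by omega⟩

/-- Index `3`. -/
abbrev k3 (m : ℕ) : Fin (m + 2 + 2) := ⟨3, by omega⟩

theorem kadd (i : Fin (m + 2 + 2)) (hi : i ≠ kL m) :
    ((i + 1 : Fin (m + 2 + 2)) : ℕ) = i.val + 1 :=
  Fin.val_add_one_of_lt (lt_of_le_of_ne (Fin.le_last i) hi)

theorem kL_add_one : kL m + 1 = k0 m := by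
  apply Fin.ext
  rw [Fin.last_add_one]
  rfl

theorem kadd_ne_zero (i : Fin (m + 2 + 2)) (hi : i ≠ kL m) : i + 1 ≠ k0 m := by
  intro h
  have := congrArg Fin.val h
  rw [kadd i hi] at this
  simp at this

theorem k0_ne_kL : k0 m ≠ kL m := by
  intro h
  have := congrArg Fin.val h
  simp at this

theorem k1_ne_kL : k1 m ≠ kL m := by
  intro h
  have := congrArg Fin.val h
  simp at this

theorem k2_ne_kL : k2 m ≠ kL m := by
  intro h
  have := congrArg Fin.val h
  simp at this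

theorem k0_ne_k1 : k0 m ≠ k1 m := by
  intro h
  have := congrArg Fin.val h
  simp at this

theorem k0_ne_k2 : k0 m ≠ k2 m := by
  intro h
  have := congrArg Fin.val h
  simp at this

theorem k1_ne_k2 : k1 m ≠ k2 m := by
  intro h
  have := congrArg Fin.val h
  simp at this

theorem k0_add_one : k0 m + 1 = k1 m := by
  apply Fin.ext
  rw [kadd _ k0_ne_kL]

theorem k1_add_one : k1 m + 1 = k2 m := by
  apply Fin.ext
  rw [kadd _ k1_ne_kL]

theorem k2_add_one : k2 m + 1 = k3 m := by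
  apply Fin.ext
  rw [kadd _ k2_ne_kL]

end CompIdx

section CompMat

variable {F : Type*} [Field F] {m : ℕ}

/-- The sign `(-1)^(n+1)`, `n = m + 4`. -/
def cE (F : Type*) [Field F] (m : ℕ) : F := (-1) ^ (m + 1)

theorem cE_mul_self : cE F m * cE F m = 1 := by
  unfold cE
  rw [← pow_add, ← two_mul, pow_mul]
  simp

theorem cE_eq_or : cE F m = 1 ∨ cE F m = -1 := neg_one_pow_eq_or F _

theorem cE_ne_zero : cE F m ≠ 0 := by
  intro h
  have := cE_mul_self (F := F) (m := m)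
  rw [h, zero_mul] at this
  exact zero_ne_one this

/-- The polynomial `(X - 1)^n`. -/
noncomputable def cPol (F : Type*) [Field F] (m : ℕ) : Polynomial F :=
  (Polynomial.X + Polynomial.C (-1 : F)) ^ (m + 2 + 2)

/-- The last row of the companion matrix. -/
noncomputable def cGam (F : Type*) [Field F] (m : ℕ) : Fin (m + 2 + 2) → F :=
  fun i => -((cPol F m).coeff i.val)

theorem cGam_zero : cGam F m (k0 m) = cE F m := by
  unfold cGam cPol cE
  rw [Polynomial.coeff_X_add_C_pow]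
  simp only [Nat.sub_zero, Nat.choose_zero_right, Nat.cast_one, mul_one]
  ring

theorem cPol_monic : (cPol F m).Monic := (Polynomial.monic_X_add_C _).pow _

theorem cPol_natDegree : (cPol F m).natDegree = m + 2 + 2 := by
  unfold cPol
  rw [(Polynomial.monic_X_add_C _).natDegree_pow, Polynomial.natDegree_X_add_C, mul_one]

/-- Weights of the cyclic part. -/
def wC (F : Type*) [Field F] (m : ℕ) : Fin (m + 2 + 2) → F :=
  fun i => if i = kL m then cE F m else 1

/-- The shifted last row. -/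
noncomputable def cGam' (F : Type*) [Field F] (m : ℕ) : Fin (m + 2 + 2) → F :=
  fun i => if i = kL m then 0 else cGam F m (i + 1)

/-- The signed cyclic shift. -/
def cycC (F : Type*) [Field F] (m : ℕ) : Matrix.SpecialLinearGroup (Fin (m + 2 + 2)) F :=
  ⟨cyc (wC F m), by
    rw [det_cyc]
    have h : ∏ i, wC F m i = cE F m := by
      unfold wC
      rw [Finset.prod_ite_eq' Finset.univ (kL m) (fun _ => cE F m)]
      simp
    rw [h]
    unfold cE
    rw [← pow_add]
    have : m + 1 + (m + 2 + 1) = 2 * (m + 2) := by ring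
    rw [this, pow_mul]
    simp⟩

/-- The companion matrix of `(X - 1)^n` (rows shifted). -/
noncomputable def uC (F : Type*) [Field F] (m : ℕ) :
    Matrix.SpecialLinearGroup (Fin (m + 2 + 2)) F :=
  tv (Pi.single (kL m) 1) (cGam' F m) (by
    rw [dotProduct_single, mul_one]
    simp [cGam']) * cycC F m

theorem uC_row (i : Fin (m + 2 + 2)) (hi : i ≠ kL m) :
    (Pi.single i 1 : Fin (m + 2 + 2) → F) ᵥ*
      (uC F m : Matrix (Fin (m + 2 + 2)) (Fin (m + 2 + 2)) F) = Pi.single (i + 1) 1 := by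
  unfold uC
  rw [Matrix.SpecialLinearGroup.coe_mul, ← Matrix.vecMul_vecMul, vecMul_tv, single_dotProduct,
    one_mul, Pi.single_eq_of_ne hi, zero_smul, add_zero]
  change _ ᵥ* cyc (wC F m) = _
  rw [single_vecMul_cyc]
  simp [wC, hi]

theorem vecMul_cyc_succ {k : ℕ} (φ ω : Fin (k + 2) → F) (i : Fin (k + 2)) :
    (φ ᵥ* cyc ω) (i + 1) = φ i * ω i := by
  unfold Matrix.vecMul dotProduct
  rw [Finset.sum_eq_single i]
  · simp [cyc_apply]
  · intro b _ hb
    simp [cyc_apply, Ne.symm hb]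
  · simp

theorem uC_row_last :
    (Pi.single (kL m) 1 : Fin (m + 2 + 2) → F) ᵥ*
      (uC F m : Matrix (Fin (m + 2 + 2)) (Fin (m + 2 + 2)) F) = cGam F m := by
  unfold uC
  rw [Matrix.SpecialLinearGroup.coe_mul, ← Matrix.vecMul_vecMul, vecMul_tv, single_dotProduct,
    one_mul, Pi.single_eq_same, one_smul]
  change (_ + _) ᵥ* cyc (wC F m) = _
  rw [Matrix.add_vecMul, single_vecMul_cyc]
  funext j
  obtain ⟨i, rfl⟩ : ∃ i, j = i + 1 := ⟨j - 1, by simp⟩
  rw [Pi.add_apply, vecMul_cyc_succ, Pi.smul_apply, smul_eq_mul]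
  by_cases hi : i = kL m
  · subst hi
    rw [kL_add_one, cGam_zero]
    simp [wC, cGam']
  · have h1 : i + 1 ≠ (0 : Fin (m + 2 + 2)) := fun h => kadd_ne_zero i hi (h.trans rfl)
    simp [wC, cGam', hi, Pi.single_eq_of_ne h1]

theorem uC_col_zero :
    (uC F m : Matrix (Fin (m + 2 + 2)) (Fin (m + 2 + 2)) F) *ᵥ
      (Pi.single (k0 m) 1 : Fin (m + 2 + 2) → F) = cE F m • Pi.single (kL m) 1 := by
  unfold uC
  rw [Matrix.SpecialLinearGroup.coe_mul, ← Matrix.mulVec_mulVec, ← kL_add_one]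
  change _ *ᵥ (cyc (wC F m) *ᵥ _) = _
  rw [cyc_mulVec_single, tv_mulVec]
  simp [wC, cGam']

theorem uC_col (i : Fin (m + 2 + 2)) (hi : i ≠ kL m) :
    (uC F m : Matrix (Fin (m + 2 + 2)) (Fin (m + 2 + 2)) F) *ᵥ
      (Pi.single (i + 1) 1 : Fin (m + 2 + 2) → F) =
      Pi.single i 1 + cGam F m (i + 1) • Pi.single (kL m) 1 := by
  unfold uC
  rw [Matrix.SpecialLinearGroup.coe_mul, ← Matrix.mulVec_mulVec]
  change _ *ᵥ (cyc (wC F m) *ᵥ _) = _
  rw [cyc_mulVec_single, tv_mulVec]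
  simp [wC, hi, cGam']

theorem uC_pow_row (k : ℕ) (hk : k < m + 2 + 2) :
    (Pi.single (k0 m) 1 : Fin (m + 2 + 2) → F) ᵥ*
      ((uC F m : Matrix (Fin (m + 2 + 2)) (Fin (m + 2 + 2)) F) ^ k) =
      Pi.single (⟨k, hk⟩ : Fin (m + 2 + 2)) 1 := by
  induction k with
  | zero => rw [pow_zero, Matrix.vecMul_one]
  | succ k ih =>
    have hne : (⟨k, by omega⟩ : Fin (m + 2 + 2)) ≠ kL m := by
      intro h
      have := congrArg Fin.val h
      simp at this
      omega
    rw [pow_succ, ← Matrix.vecMul_vecMul, ih (by omega), uC_row _ hne]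
    congr 1
    apply Fin.ext
    rw [kadd _ hne]

theorem uC_pow_row_last :
    (Pi.single (k0 m) 1 : Fin (m + 2 + 2) → F) ᵥ*
      ((uC F m : Matrix (Fin (m + 2 + 2)) (Fin (m + 2 + 2)) F) ^ (m + 2 + 2)) = cGam F m := by
  rw [pow_succ, ← Matrix.vecMul_vecMul, uC_pow_row (m + 2 + 1) (by omega)]
  exact uC_row_last

theorem uC_sum_row (c : ℕ → F) :
    (Pi.single (k0 m) 1 : Fin (m + 2 + 2) → F) ᵥ*
      (∑ i ∈ Finset.range (m + 2 + 2),
        c i • (uC F m : Matrix (Fin (m + 2 + 2)) (Fin (m + 2 + 2)) F) ^ i) =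
      fun j => c j.val := by
  rw [Matrix.vecMul_sum, Finset.sum_range]
  funext j
  rw [Finset.sum_apply]
  have h : ∀ i : Fin (m + 2 + 2),
      ((Pi.single (k0 m) 1 : Fin (m + 2 + 2) → F) ᵥ*
        (c i.val • (uC F m : Matrix (Fin (m + 2 + 2)) (Fin (m + 2 + 2)) F) ^ i.val)) j =
      if i = j then c i.val else 0 := by
    intro i
    rw [Matrix.vecMul_smul, uC_pow_row i.val i.isLt]
    by_cases hij : i = j
    · subst hij
      simp
    · simp [hij, Ne.symm hij]
  rw [Finset.sum_congr rfl (fun i _ => h i), Finset.sum_ite_eq' Finset.univ j]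
  simp

theorem uC_sub_one_pow :
    ((uC F m : Matrix (Fin (m + 2 + 2)) (Fin (m + 2 + 2)) F) - 1) ^ (m + 2 + 2) = 0 := by
  obtain ⟨U, hU⟩ : ∃ U, U = (uC F m : Matrix (Fin (m + 2 + 2)) (Fin (m + 2 + 2)) F) := ⟨_, rfl⟩
  rw [← hU]
  have hA : (U - 1) ^ (m + 2 + 2) = Polynomial.aeval U (cPol F m) := by
    unfold cPol
    rw [map_pow, map_add, Polynomial.aeval_X, Polynomial.aeval_C, map_neg, map_one,
      sub_eq_add_neg]
  have hrow0 : (Pi.single (k0 m) 1 : Fin (m + 2 + 2) → F) ᵥ* ((U - 1) ^ (m + 2 + 2)) = 0 := by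
    rw [hA, Polynomial.aeval_eq_sum_range, cPol_natDegree, Finset.sum_range_succ,
      Matrix.vecMul_add, hU, uC_sum_row, Matrix.vecMul_smul, uC_pow_row_last]
    funext j
    have h1 : (cPol F m).coeff (m + 2 + 2) = 1 := by
      have := (cPol_monic (F := F) (m := m)).coeff_natDegree
      rwa [cPol_natDegree] at this
    rw [h1]
    simp [cGam]
  have hcomm : ∀ k : ℕ, Commute ((U - 1) ^ (m + 2 + 2)) (U ^ k) := by
    intro k
    exact (((Commute.refl U).sub_left (Commute.one_left U)).pow_pow _ _)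
  ext i j
  have hrow : (Pi.single i 1 : Fin (m + 2 + 2) → F) ᵥ* ((U - 1) ^ (m + 2 + 2)) = 0 := by
    have h1 := uC_pow_row (F := F) i.val i.isLt
    rw [← hU] at h1
    have h2 : (⟨i.val, i.isLt⟩ : Fin (m + 2 + 2)) = i := rfl
    rw [h2] at h1
    rw [← h1, Matrix.vecMul_vecMul, ← (hcomm i.val).eq, ← Matrix.vecMul_vecMul, hrow0,
      Matrix.zero_vecMul]
  have := congrFun hrow j
  rw [Matrix.single_one_vecMul] at this
  exact this

theorem uC_isNilpotent :
    IsNilpotent ((uC F m : Matrix (Fin (m + 2 + 2)) (Fin (m + 2 + 2)) F) - 1) :=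
  ⟨m + 2 + 2, uC_sub_one_pow⟩

theorem uC_pow_ne_zero :
    ((uC F m : Matrix (Fin (m + 2 + 2)) (Fin (m + 2 + 2)) F) - 1) ^ (m + 2 + 1) ≠ 0 := by
  obtain ⟨U, hU⟩ : ∃ U, U = (uC F m : Matrix (Fin (m + 2 + 2)) (Fin (m + 2 + 2)) F) := ⟨_, rfl⟩
  rw [← hU]
  intro h0
  have hmon : ((Polynomial.X + Polynomial.C (-1 : F)) ^ (m + 2 + 1)).Monic :=
    (Polynomial.monic_X_add_C _).pow _
  have hdeg : ((Polynomial.X + Polynomial.C (-1 : F)) ^ (m + 2 + 1)).natDegree = m + 2 + 1 := by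
    rw [(Polynomial.monic_X_add_C _).natDegree_pow, Polynomial.natDegree_X_add_C, mul_one]
  have hA : (U - 1) ^ (m + 2 + 1) =
      Polynomial.aeval U ((Polynomial.X + Polynomial.C (-1 : F)) ^ (m + 2 + 1)) := by
    rw [map_pow, map_add, Polynomial.aeval_X, Polynomial.aeval_C, map_neg, map_one,
      sub_eq_add_neg]
  have hrow0 := congrArg (fun M => ((Pi.single (k0 m) 1 : Fin (m + 2 + 2) → F) ᵥ* M) (kL m)) h0
  simp only [Matrix.vecMul_zero, Pi.zero_apply] at hrow0
  rw [hA, Polynomial.aeval_eq_sum_range' (n := m + 2 + 2) (by rw [hdeg]; omega), hU,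
    uC_sum_row] at hrow0
  beta_reduce at hrow0
  have h1 := hmon.coeff_natDegree
  rw [hdeg] at h1
  have h2 : ((kL m : Fin (m + 2 + 2)) : ℕ) = m + 2 + 1 := rfl
  rw [h2, h1] at hrow0
  exact one_ne_zero hrow0

end CompMat

end Cfsg.Agent.H44
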