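import Mathlib
import Cfsg.Agent.H44.CompMat
import Cfsg.Agent.H44.RegGenFinal

/-!
# Conjugation rules for the companion regular unipotent element (helper44)

Shift rules `u⁻¹ E_ij(s) u`, the unitriangular calculus on the index chain `L, 0, 1, 2`, and the
extraction of `E_{L,2}(c^3)` from `u` and `x0 = E_01(ε c) E_L0(-c)`.
-/

set_option autoImplicit false

namespace Cfsg.Agent.H44

open Matrix

section TvGeneric

variable {F : Type*} [Field F] {n : ℕ}

local notation "Tv" => Matrix.SpecialLinearGroup.transvection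

theorem Tv_mulVec {i j : Fin n} (hij : i ≠ j) (s : F) (x : Fin n → F) :
    ((Tv hij s : Matrix.SpecialLinearGroup (Fin n) F) : Matrix (Fin n) (Fin n) F) *ᵥ x =
      x + (x j * s) • (Pi.single i 1 : Fin n → F) := by
  rw [← tv_eq_transvection hij s, tv_mulVec, single_dotProduct, one_mul, smul_smul]

theorem vecMul_Tv {i j : Fin n} (hij : i ≠ j) (s : F) (x : Fin n → F) :
    x ᵥ* ((Tv hij s : Matrix.SpecialLinearGroup (Fin n) F) : Matrix (Fin n) (Fin n) F) =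
      x + (x i * s) • (Pi.single j 1 : Fin n → F) := by
  rw [← tv_eq_transvection' hij s, vecMul_tv, dotProduct_single, mul_one, smul_smul]

/-- The additive group of parameters `s` with `E_ij(s) ∈ H`. -/
def tvSub (H : Subgroup (Matrix.SpecialLinearGroup (Fin n) F)) {i j : Fin n} (hij : i ≠ j) :
    AddSubgroup F where
  carrier := {s | Tv hij s ∈ H}
  add_mem' := by
    intro a b ha hb
    rw [Set.mem_setOf_eq, Matrix.SpecialLinearGroup.transvection_add]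
    exact H.mul_mem ha hb
  zero_mem' := by
    rw [Set.mem_setOf_eq, Matrix.SpecialLinearGroup.transvection_coeff_zero]
    exact H.one_mem
  neg_mem' := by
    intro a ha
    rw [Set.mem_setOf_eq, ← Matrix.SpecialLinearGroup.transvection_inv]
    exact H.inv_mem ha

theorem mem_tvSub (H : Subgroup (Matrix.SpecialLinearGroup (Fin n) F)) {i j : Fin n}
    (hij : i ≠ j) (s : F) : s ∈ tvSub H hij ↔ Tv hij s ∈ H := Iff.rfl

theorem tv_intCast_mul_mem (H : Subgroup (Matrix.SpecialLinearGroup (Fin n) F)) {i j : Fin n}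
    (hij : i ≠ j) (s : F) (h : Tv hij s ∈ H) (k : ℤ) : Tv hij ((k : F) * s) ∈ H := by
  have := (tvSub H hij).zsmul_mem ((mem_tvSub H hij s).2 h) k
  rwa [zsmul_eq_mul, mem_tvSub] at this

theorem tv_natCast_mul_mem (H : Subgroup (Matrix.SpecialLinearGroup (Fin n) F)) {i j : Fin n}
    (hij : i ≠ j) (s : F) (h : Tv hij s ∈ H) (k : ℕ) : Tv hij ((k : F) * s) ∈ H := by
  have := (tvSub H hij).nsmul_mem ((mem_tvSub H hij s).2 h) k
  rwa [nsmul_eq_mul, mem_tvSub] at this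

theorem all_tv_top (H : Subgroup (Matrix.SpecialLinearGroup (Fin n) F))
    (hall : ∀ (s : F) (i j : Fin n) (hij : i ≠ j), Tv hij s ∈ H) : H = ⊤ := by
  rw [eq_top_iff, ← Cfsg.Agent.H45.elemSubgroup_eq_top]
  unfold Cfsg.Agent.H45.elemSubgroup
  rw [Subgroup.closure_le]
  rintro g ⟨i, j, hij, c, rfl⟩
  exact hall c i j hij

/-- Column move with a scalar. -/
theorem col_move_smul (H : Subgroup (Matrix.SpecialLinearGroup (Fin n) F))
    (g : Matrix.SpecialLinearGroup (Fin n) F) (hg : g ∈ H) {i j l : Fin n}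
    (hji : j ≠ i) (hli : l ≠ i) (s t : F)
    (hgi : (Pi.single i 1 : Fin n → F) ᵥ* (g : Matrix (Fin n) (Fin n) F) = Pi.single i 1)
    (hgj : (g : Matrix (Fin n) (Fin n) F) *ᵥ (Pi.single j 1 : Fin n → F) =
      Pi.single j 1 + t • Pi.single l 1)
    (h : Tv hji s ∈ H) : Tv hli (t * s) ∈ H := by
  have hd : (Pi.single i 1 : Fin n → F) ⬝ᵥ
      (s • (Pi.single j 1 : Fin n → F) + (t * s) • (Pi.single l 1 : Fin n → F)) = 0 := by
    rw [dotProduct_add, dotProduct_smul, dotProduct_smul, single_dotProduct, single_dotProduct,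
      Pi.single_eq_of_ne hji.symm, Pi.single_eq_of_ne hli.symm]
    simp
  have e1 : g * Tv hji s * g⁻¹ =
      tv (s • (Pi.single j 1 : Fin n → F) + (t * s) • (Pi.single l 1 : Fin n → F))
        (Pi.single i 1) hd := by
    rw [← tv_eq_transvection hji s]
    exact conj_tv g _ _ _ _ _ hd
      (by rw [Matrix.mulVec_smul, hgj, smul_add, smul_smul, mul_comm s t]) hgi
  have e2 : tv (s • (Pi.single j 1 : Fin n → F) + (t * s) • (Pi.single l 1 : Fin n → F))
      (Pi.single i 1) hd = Tv hji s * Tv hli (t * s) := by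
    rw [← tv_eq_transvection hji s, ← tv_eq_transvection hli (t * s), tv_mul_left]
  have e3 : Tv hli (t * s) = (Tv hji s)⁻¹ * (g * Tv hji s * g⁻¹) := by
    rw [e1, e2]; group
  rw [e3]
  exact H.mul_mem (H.inv_mem h) (H.mul_mem (H.mul_mem hg h) (H.inv_mem hg))

end TvGeneric

section CompRel

variable {F : Type*} [Field F] {m : ℕ}

local notation "Tv" => Matrix.SpecialLinearGroup.transvection

/-- `u⁻¹ E_{L,j}(s) u = E_{0,j+1}(ε s)`. -/
theorem uC_conj_last (j j' : Fin (m + 2 + 2)) (hj : j ≠ kL m) (hj' : j + 1 = j')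
    (hLj : kL m ≠ j) (h0j : k0 m ≠ j') (s : F) :
    (uC F m)⁻¹ * Tv hLj s * uC F m = Tv h0j (cE F m * s) := by
  subst hj'
  rw [← tv_eq_transvection hLj s, ← tv_eq_transvection h0j (cE F m * s)]
  refine conj_inv_tv (uC F m) _ _ _ _ _ _ ?_ ?_
  · rw [Matrix.mulVec_smul, uC_col_zero, smul_smul, mul_right_comm, cE_mul_self, one_mul]
  · exact uC_row j hj

/-- `u E_{0,j+1}(s) u⁻¹ = E_{L,j}(ε s)`. -/
theorem uC_conj_last' (j j' : Fin (m + 2 + 2)) (hj : j ≠ kL m) (hj' : j + 1 = j')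
    (hLj : kL m ≠ j) (h0j : k0 m ≠ j') (s : F) :
    uC F m * Tv h0j s * (uC F m)⁻¹ = Tv hLj (cE F m * s) := by
  have h := uC_conj_last j j' hj hj' hLj h0j (cE F m * s)
  rw [← mul_assoc, cE_mul_self, one_mul] at h
  rw [← h]
  group

/-- `u⁻¹ E_{i,j}(s) u = E_{i+1,j+1}(s) E_{0,j+1}(-ε γ_{i+1} s)`. -/
theorem uC_conj_mid (i j i' j' : Fin (m + 2 + 2)) (hi : i ≠ kL m) (hj : j ≠ kL m)
    (hi' : i + 1 = i') (hj' : j + 1 = j') (hij : i ≠ j) (hij' : i' ≠ j') (h0j : k0 m ≠ j')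
    (s : F) :
    (uC F m)⁻¹ * Tv hij s * uC F m =
      Tv hij' s * Tv h0j (-(cE F m * cGam F m i' * s)) := by
  subst hi' hj'
  rw [← tv_eq_transvection hij s, ← tv_eq_transvection hij' s, ← tv_eq_transvection h0j,
    tv_mul_left]
  refine conj_inv_tv (uC F m) _ _ _ _ _ _ ?_ ?_
  · rw [Matrix.mulVec_add, Matrix.mulVec_smul, Matrix.mulVec_smul, uC_col i hi, uC_col_zero,
      smul_add, smul_smul, smul_smul]
    have h0 : -(cE F m * cGam F m (i + 1) * s) * cE F m = -(s * cGam F m (i + 1)) := by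
      linear_combination (-(cGam F m (i + 1) * s)) * cE_mul_self (F := F) (m := m)
    rw [h0, neg_smul, add_neg_cancel_right]
  · exact uC_row j hj

/-- `u E_{i+1,j+1}(s) u⁻¹ = E_{i,j}(s) E_{L,j}(γ_{i+1} s)`. -/
theorem uC_conj_mid' (i j i' j' : Fin (m + 2 + 2)) (hi : i ≠ kL m) (hj : j ≠ kL m)
    (hi' : i + 1 = i') (hj' : j + 1 = j') (hij : i ≠ j) (hij' : i' ≠ j') (hLj : kL m ≠ j)
    (s : F) :
    uC F m * Tv hij' s * (uC F m)⁻¹ = Tv hij s * Tv hLj (cGam F m i' * s) := by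
  subst hi' hj'
  rw [← tv_eq_transvection hij' s, ← tv_eq_transvection hij s, ← tv_eq_transvection hLj,
    tv_mul_left]
  refine conj_tv (uC F m) _ _ _ _ _ _ ?_ ?_
  · rw [Matrix.mulVec_smul, uC_col i hi, smul_add, smul_smul, mul_comm s]
  · exact uC_row j hj

variable (H : Subgroup (Matrix.SpecialLinearGroup (Fin (m + 2 + 2)) F))

theorem mem_shift_last (hu : uC F m ∈ H) (j j' : Fin (m + 2 + 2)) (hj : j ≠ kL m)
    (hj' : j + 1 = j') (hLj : kL m ≠ j) (h0j : k0 m ≠ j') (s : F) (h : Tv hLj s ∈ H) :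
    Tv h0j (cE F m * s) ∈ H := by
  rw [← uC_conj_last j j' hj hj' hLj h0j s]
  exact H.mul_mem (H.mul_mem (H.inv_mem hu) h) hu

theorem mem_shift_last' (hu : uC F m ∈ H) (j j' : Fin (m + 2 + 2)) (hj : j ≠ kL m)
    (hj' : j + 1 = j') (hLj : kL m ≠ j) (h0j : k0 m ≠ j') (s : F) (h : Tv h0j s ∈ H) :
    Tv hLj (cE F m * s) ∈ H := by
  rw [← uC_conj_last' j j' hj hj' hLj h0j s]
  exact H.mul_mem (H.mul_mem hu h) (H.inv_mem hu)

theorem mem_shift_mid (hu : uC F m ∈ H) (i j i' j' : Fin (m + 2 + 2)) (hi : i ≠ kL m)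
    (hj : j ≠ kL m) (hi' : i + 1 = i') (hj' : j + 1 = j') (hij : i ≠ j) (hij' : i' ≠ j')
    (h0j : k0 m ≠ j') (s : F) (h : Tv hij s ∈ H)
    (h' : Tv h0j (cE F m * cGam F m i' * s) ∈ H) : Tv hij' s ∈ H := by
  have e := uC_conj_mid i j i' j' hi hj hi' hj' hij hij' h0j s
  have e2 : Tv hij' s = (uC F m)⁻¹ * Tv hij s * uC F m *
      Tv h0j (cE F m * cGam F m i' * s) := by
    rw [e, mul_assoc, ← Matrix.SpecialLinearGroup.transvection_inv, inv_mul_cancel, mul_one]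
  rw [e2]
  exact H.mul_mem (H.mul_mem (H.mul_mem (H.inv_mem hu) h) hu) h'

theorem mem_shift_mid' (hu : uC F m ∈ H) (i j i' j' : Fin (m + 2 + 2)) (hi : i ≠ kL m)
    (hj : j ≠ kL m) (hi' : i + 1 = i') (hj' : j + 1 = j') (hij : i ≠ j) (hij' : i' ≠ j')
    (hLj : kL m ≠ j) (s : F) (h : Tv hij' s ∈ H)
    (h' : Tv hLj (cGam F m i' * s) ∈ H) : Tv hij s ∈ H := by
  have e := uC_conj_mid' i j i' j' hi hj hi' hj' hij hij' hLj s
  have e2 : Tv hij s = uC F m * Tv hij' s * (uC F m)⁻¹ * (Tv hLj (cGam F m i' * s))⁻¹ := by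
    rw [e, mul_assoc, mul_inv_cancel, mul_one]
  rw [e2]
  exact H.mul_mem (H.mul_mem (H.mul_mem hu h) (H.inv_mem hu)) (H.inv_mem h')

/-- `u⁻¹ (T u T⁻¹) = E_01(ε c) E_L0(-c)` for `T = E_L0(c)`. -/
theorem x0_eq (c : F) :
    (uC F m)⁻¹ * (Tv (k0_ne_kL (m := m)).symm c * uC F m *
      (Tv (k0_ne_kL (m := m)).symm c)⁻¹) =
      Tv (k0_ne_k1 (m := m)) (cE F m * c) * Tv (k0_ne_kL (m := m)).symm (-c) := by
  rw [← uC_conj_last (k0 m) (k1 m) k0_ne_kL k0_add_one (k0_ne_kL (m := m)).symm k0_ne_k1 c,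
    Matrix.SpecialLinearGroup.transvection_inv]
  group

/-- Step 1: from `x0 = E_01(a) E_L0(b) ∈ H` and `E_{0,i}(α) ∈ H` get `E_{L,i}(b α) ∈ H`. -/
theorem mem_step1 (a b : F)
    (hx : Tv (k0_ne_k1 (m := m)) a * Tv (k0_ne_kL (m := m)).symm b ∈ H)
    (i : Fin (m + 2 + 2)) (h0i : k0 m ≠ i) (hLi : kL m ≠ i) (α : F) (h : Tv h0i α ∈ H) :
    Tv hLi (b * α) ∈ H := by
  refine col_move_smul H _ hx h0i hLi α b ?_ ?_ h
  · rw [Matrix.SpecialLinearGroup.coe_mul, ← Matrix.vecMul_vecMul, vecMul_Tv, vecMul_Tv]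
    simp only [Pi.single_eq_of_ne h0i, Pi.single_eq_of_ne hLi, zero_mul, zero_smul, add_zero,
      Pi.add_apply, Pi.zero_apply]
  · rw [Matrix.SpecialLinearGroup.coe_mul, ← Matrix.mulVec_mulVec, Tv_mulVec, Tv_mulVec]
    have h1 : (k1 m) ≠ k0 m := (k0_ne_k1 (m := m)).symm
    have h2 : (k1 m) ≠ kL m := k1_ne_kL
    simp only [Pi.single_eq_same, one_mul, Pi.add_apply, Pi.smul_apply, smul_eq_mul,
      Pi.single_eq_of_ne h1, Pi.single_eq_of_ne h2, mul_zero, add_zero, zero_mul, zero_smul]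

end CompRel

end Cfsg.Agent.H44
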