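import Mathlib
import Cfsg.Agent.H44.CompRel

/-!
# Unitriangular calculus on the index chain `L, 0, 1, 2` (helper44)

`thmA`: a subgroup containing the companion `u` and `x0 = E_01(ε c) E_L0(-c)` contains
`E_{L,2}(c^3)`.
-/

set_option autoImplicit false

namespace Cfsg.Agent.H44

open Matrix

section CompU4

variable {F : Type*} [Field F] {m : ℕ}

local notation "Tv" => Matrix.SpecialLinearGroup.transvection

/-- Matrices `1 + N` with `N` supported on the six positions above the chain `L, 0, 1, 2`. -/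
def M4 (m : ℕ) (x12 x23 x34 x13 x24 x14 : F) : Matrix (Fin (m + 2 + 2)) (Fin (m + 2 + 2)) F :=
  1 + Matrix.single (kL m) (k0 m) x12 + Matrix.single (k0 m) (k1 m) x23 +
    Matrix.single (k1 m) (k2 m) x34 + Matrix.single (kL m) (k1 m) x13 +
    Matrix.single (k0 m) (k2 m) x24 + Matrix.single (kL m) (k2 m) x14

theorem M4_mul (x12 x23 x34 x13 x24 x14 y12 y23 y34 y13 y24 y14 : F) :
    M4 m x12 x23 x34 x13 x24 x14 * M4 m y12 y23 y34 y13 y24 y14 =
      M4 m (x12 + y12) (x23 + y23) (x34 + y34) (x13 + y13 + x12 * y23)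
        (x24 + y24 + x23 * y34) (x14 + y14 + x12 * y24 + x13 * y34) := by
  unfold M4
  have h1 : k0 m ≠ kL m := k0_ne_kL
  have h2 : k0 m ≠ k1 m := k0_ne_k1
  have h3 : k1 m ≠ kL m := k1_ne_kL
  have h4 : k1 m ≠ k0 m := (k0_ne_k1 (m := m)).symm
  have h5 : k2 m ≠ kL m := k2_ne_kL
  have h6 : k2 m ≠ k0 m := (k0_ne_k2 (m := m)).symm
  have h7 : k2 m ≠ k1 m := (k1_ne_k2 (m := m)).symm
  simp only [mul_add, add_mul, mul_one, one_mul, Matrix.single_mul_single_same,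
    Matrix.single_add, Matrix.single_mul_single_of_ne _ _ _ _ h1,
    Matrix.single_mul_single_of_ne _ _ _ _ h2, Matrix.single_mul_single_of_ne _ _ _ _ h3,
    Matrix.single_mul_single_of_ne _ _ _ _ h4, Matrix.single_mul_single_of_ne _ _ _ _ h5,
    Matrix.single_mul_single_of_ne _ _ _ _ h6, Matrix.single_mul_single_of_ne _ _ _ _ h7,
    add_zero, zero_add]
  abel

theorem Tv_L0 (h : kL m ≠ k0 m) (s : F) :
    ((Tv h s : Matrix.SpecialLinearGroup (Fin (m + 2 + 2)) F) :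
      Matrix (Fin (m + 2 + 2)) (Fin (m + 2 + 2)) F) = M4 m s 0 0 0 0 0 := by
  rw [Matrix.SpecialLinearGroup.transvection_coe]
  unfold M4
  simp only [Matrix.single_zero, add_zero]

theorem Tv_01 (h : k0 m ≠ k1 m) (s : F) :
    ((Tv h s : Matrix.SpecialLinearGroup (Fin (m + 2 + 2)) F) :
      Matrix (Fin (m + 2 + 2)) (Fin (m + 2 + 2)) F) = M4 m 0 s 0 0 0 0 := by
  rw [Matrix.SpecialLinearGroup.transvection_coe]
  unfold M4
  simp only [Matrix.single_zero, add_zero]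

theorem Tv_12 (h : k1 m ≠ k2 m) (s : F) :
    ((Tv h s : Matrix.SpecialLinearGroup (Fin (m + 2 + 2)) F) :
      Matrix (Fin (m + 2 + 2)) (Fin (m + 2 + 2)) F) = M4 m 0 0 s 0 0 0 := by
  rw [Matrix.SpecialLinearGroup.transvection_coe]
  unfold M4
  simp only [Matrix.single_zero, add_zero]

theorem Tv_L1 (h : kL m ≠ k1 m) (s : F) :
    ((Tv h s : Matrix.SpecialLinearGroup (Fin (m + 2 + 2)) F) :
      Matrix (Fin (m + 2 + 2)) (Fin (m + 2 + 2)) F) = M4 m 0 0 0 s 0 0 := by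
  rw [Matrix.SpecialLinearGroup.transvection_coe]
  unfold M4
  simp only [Matrix.single_zero, add_zero]

theorem Tv_02 (h : k0 m ≠ k2 m) (s : F) :
    ((Tv h s : Matrix.SpecialLinearGroup (Fin (m + 2 + 2)) F) :
      Matrix (Fin (m + 2 + 2)) (Fin (m + 2 + 2)) F) = M4 m 0 0 0 0 s 0 := by
  rw [Matrix.SpecialLinearGroup.transvection_coe]
  unfold M4
  simp only [Matrix.single_zero, add_zero]

theorem Tv_L2 (h : kL m ≠ k2 m) (s : F) :
    ((Tv h s : Matrix.SpecialLinearGroup (Fin (m + 2 + 2)) F) :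
      Matrix (Fin (m + 2 + 2)) (Fin (m + 2 + 2)) F) = M4 m 0 0 0 0 0 s := by
  rw [Matrix.SpecialLinearGroup.transvection_coe]
  unfold M4
  simp only [Matrix.single_zero, add_zero]

variable (H : Subgroup (Matrix.SpecialLinearGroup (Fin (m + 2 + 2)) F))

/-- The double commutator extraction. -/
theorem core_mem (a b d : F)
    (hx : Tv (k0_ne_k1 (m := m)) a * Tv (k0_ne_kL (m := m)).symm b ∈ H)
    (hp : Tv (k1_ne_k2 (m := m)) a * Tv (k0_ne_k2 (m := m)) d *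
      Tv (k0_ne_kL (m := m)).symm b ∈ H) :
    Tv (k2_ne_kL (m := m)).symm (a ^ 2 * b) ∈ H := by
  obtain ⟨x0, hx0⟩ : ∃ x0, x0 = Tv (k0_ne_k1 (m := m)) a * Tv (k0_ne_kL (m := m)).symm b :=
    ⟨_, rfl⟩
  obtain ⟨p, hp0⟩ : ∃ p, p = Tv (k1_ne_k2 (m := m)) a * Tv (k0_ne_k2 (m := m)) d *
      Tv (k0_ne_kL (m := m)).symm b := ⟨_, rfl⟩
  obtain ⟨y, hy0⟩ : ∃ y, y = Tv (k0_ne_k2 (m := m)) (a ^ 2) *
      Tv (k2_ne_kL (m := m)).symm (b * d + a ^ 2 * b) *
      Tv (k1_ne_kL (m := m)).symm (-(a * b)) := ⟨_, rfl⟩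
  rw [← hx0] at hx
  rw [← hp0] at hp
  have e1 : y * (p * x0) = x0 * p := by
    rw [hy0, hp0, hx0]
    apply Subtype.ext
    simp only [Matrix.SpecialLinearGroup.coe_mul, Tv_L0, Tv_01, Tv_12, Tv_L1, Tv_02, Tv_L2,
      M4_mul]
    congr 1 <;> ring
  have e2 : y * Tv (k2_ne_kL (m := m)).symm (a ^ 2 * b) * x0 = x0 * y := by
    rw [hy0, hx0]
    apply Subtype.ext
    simp only [Matrix.SpecialLinearGroup.coe_mul, Tv_L0, Tv_01, Tv_12, Tv_L1, Tv_02, Tv_L2,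
      M4_mul]
    congr 1 <;> ring
  have hy : y ∈ H := by
    have : y = x0 * p * (p * x0)⁻¹ := by rw [← e1]; group
    rw [this]
    exact H.mul_mem (H.mul_mem hx hp) (H.inv_mem (H.mul_mem hp hx))
  have e3 : Tv (k2_ne_kL (m := m)).symm (a ^ 2 * b) = y⁻¹ * (x0 * y) * x0⁻¹ := by
    rw [← e2]; group
  rw [e3]
  exact H.mul_mem (H.mul_mem (H.inv_mem hy) (H.mul_mem hx hy)) (H.inv_mem hx)

/-- Theorem A: from `u` and `x0 = E_01(ε c) E_L0(-c)` we get `E_{L,2}(c^3)`. -/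
theorem thmA (hu : uC F m ∈ H) (c : F)
    (hx : Tv (k0_ne_k1 (m := m)) (cE F m * c) * Tv (k0_ne_kL (m := m)).symm (-c) ∈ H) :
    Tv (k2_ne_kL (m := m)).symm (c ^ 3) ∈ H := by
  have e1 := uC_conj_mid (F := F) (k0 m) (k1 m) (k1 m) (k2 m) k0_ne_kL k1_ne_kL k0_add_one
    k1_add_one k0_ne_k1 k1_ne_k2 k0_ne_k2 (cE F m * c)
  have e2 := uC_conj_last (F := F) (k0 m) (k1 m) k0_ne_kL k0_add_one (k0_ne_kL (m := m)).symm
    k0_ne_k1 (-c)
  have hx1 : (uC F m)⁻¹ * (Tv (k0_ne_k1 (m := m)) (cE F m * c) *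
      Tv (k0_ne_kL (m := m)).symm (-c)) * uC F m ∈ H :=
    H.mul_mem (H.mul_mem (H.inv_mem hu) hx) hu
  have e3 : (uC F m)⁻¹ * (Tv (k0_ne_k1 (m := m)) (cE F m * c) *
      Tv (k0_ne_kL (m := m)).symm (-c)) * uC F m =
      Tv (k1_ne_k2 (m := m)) (cE F m * c) *
        Tv (k0_ne_k2 (m := m)) (-(cE F m * cGam F m (k1 m) * (cE F m * c))) *
        Tv (k0_ne_k1 (m := m)) (cE F m * -c) := by
    rw [← e1, ← e2]; group
  rw [e3] at hx1
  have hp := H.mul_mem hx1 hx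
  have e4 : Tv (k1_ne_k2 (m := m)) (cE F m * c) *
        Tv (k0_ne_k2 (m := m)) (-(cE F m * cGam F m (k1 m) * (cE F m * c))) *
        Tv (k0_ne_k1 (m := m)) (cE F m * -c) *
      (Tv (k0_ne_k1 (m := m)) (cE F m * c) * Tv (k0_ne_kL (m := m)).symm (-c)) =
      Tv (k1_ne_k2 (m := m)) (cE F m * c) *
        Tv (k0_ne_k2 (m := m)) (-(cE F m * cGam F m (k1 m) * (cE F m * c))) *
        Tv (k0_ne_kL (m := m)).symm (-c) := by
    rw [mul_neg, ← Matrix.SpecialLinearGroup.transvection_inv (k0_ne_k1 (m := m))]; group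
  rw [e4] at hp
  have h5 := core_mem H _ _ _ hx hp
  have h6 := transv_neg_mem H _ _ h5
  have e7 : -((cE F m * c) ^ 2 * -c) = c ^ 3 := by
    linear_combination (c ^ 3) * cE_mul_self (F := F) (m := m)
  rwa [e7] at h6

end CompU4

end Cfsg.Agent.H44
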