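import Mathlib
import Cfsg.Agent.H44.CompU4

/-!
# All `E_ij(1)` from the companion `u` and `x0 = E_01(ε) E_L0(-1)` (helper44)
-/

set_option autoImplicit false

namespace Cfsg.Agent.H44

open Matrix

section ZcSec

variable {F : Type*} [Field F] {m : ℕ}

/-- Integer casts. -/
def Zc (s : F) : Prop := ∃ k : ℤ, s = (k : F)

theorem Zc_one : Zc (1 : F) := ⟨1, by simp⟩

theorem Zc_neg {s : F} (h : Zc s) : Zc (-s) := by
  obtain ⟨k, rfl⟩ := h
  exact ⟨-k, by simp⟩

theorem Zc_mul {s t : F} (hs : Zc s) (ht : Zc t) : Zc (s * t) := by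
  obtain ⟨k, rfl⟩ := hs
  obtain ⟨l, rfl⟩ := ht
  exact ⟨k * l, by simp⟩

theorem Zc_cE : Zc (cE F m) := ⟨(-1) ^ (m + 1), by simp [cE]⟩

theorem Zc_cGam (i : Fin (m + 2 + 2)) : Zc (cGam F m i) := by
  unfold cGam cPol
  rw [Polynomial.coeff_X_add_C_pow]
  exact ⟨-((-1) ^ (m + 2 + 2 - i.val) * ((m + 2 + 2).choose i.val : ℤ)), by push_cast; ring⟩

theorem k0_val : (k0 m).val = 0 := rfl

theorem k1_val : (k1 m).val = 1 := rfl

theorem k2_val : (k2 m).val = 2 := rfl

theorem kL_val : (kL m).val = m + 2 + 1 := rfl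

end ZcSec

section QZGeneric

variable {F : Type*} [Field F] {n : ℕ}

local notation "Tv" => Matrix.SpecialLinearGroup.transvection

/-- All integer multiples of `E_ij(1)` lie in `H`. -/
def QZ (H : Subgroup (Matrix.SpecialLinearGroup (Fin n) F)) (i j : Fin n) : Prop :=
  ∀ (hij : i ≠ j) (s : F), Zc s → Tv hij s ∈ H

theorem QZ_of_one (H : Subgroup (Matrix.SpecialLinearGroup (Fin n) F)) {i j : Fin n}
    (hij : i ≠ j) (h : Tv hij (1 : F) ∈ H) : QZ H i j := by
  intro hij' s hs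
  obtain ⟨k, rfl⟩ := hs
  have := tv_intCast_mul_mem H hij 1 h k
  rwa [mul_one] at this

theorem QZ_of_neg_one (H : Subgroup (Matrix.SpecialLinearGroup (Fin n) F)) {i j : Fin n}
    (hij : i ≠ j) (h : Tv hij (-1 : F) ∈ H) : QZ H i j := by
  apply QZ_of_one H hij
  have := transv_neg_mem H hij _ h
  rwa [neg_neg] at this

theorem QZ_comm (H : Subgroup (Matrix.SpecialLinearGroup (Fin n) F)) {i j k : Fin n}
    (hij : i ≠ j) (hjk : j ≠ k) (hik : i ≠ k) (h1 : QZ H i j) (h2 : QZ H j k) : QZ H i k := by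
  intro hik' s hs
  have := transv_comm_mem H hij hjk hik s 1 (h1 hij s hs) (h2 hjk 1 Zc_one)
  rwa [mul_one] at this

end QZGeneric

section CompThmB

variable {F : Type*} [Field F] {m : ℕ}

local notation "Tv" => Matrix.SpecialLinearGroup.transvection

variable (H : Subgroup (Matrix.SpecialLinearGroup (Fin (m + 2 + 2)) F))

theorem QZ_shift_last (hu : uC F m ∈ H) (j j' : Fin (m + 2 + 2)) (hj : j ≠ kL m)
    (hj' : j + 1 = j') (h : QZ H (kL m) j) : QZ H (k0 m) j' := by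
  intro h0j s hs
  have hLj : kL m ≠ j := Ne.symm hj
  have := mem_shift_last H hu j j' hj hj' hLj h0j (cE F m * s) (h hLj _ (Zc_mul Zc_cE hs))
  rwa [← mul_assoc, cE_mul_self, one_mul] at this

theorem QZ_shift_last' (hu : uC F m ∈ H) (j j' : Fin (m + 2 + 2)) (hj : j ≠ kL m)
    (hj' : j + 1 = j') (h : QZ H (k0 m) j') : QZ H (kL m) j := by
  intro hLj s hs
  have h0j : k0 m ≠ j' := by rw [← hj']; exact (kadd_ne_zero j hj).symm
  have := mem_shift_last' H hu j j' hj hj' hLj h0j (cE F m * s) (h h0j _ (Zc_mul Zc_cE hs))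
  rwa [← mul_assoc, cE_mul_self, one_mul] at this

theorem QZ_shift_mid (hu : uC F m ∈ H) (i j i' j' : Fin (m + 2 + 2)) (hi : i ≠ kL m)
    (hj : j ≠ kL m) (hi' : i + 1 = i') (hj' : j + 1 = j') (hij : i ≠ j)
    (h : QZ H i j) (h0 : QZ H (k0 m) j') : QZ H i' j' := by
  intro hij' s hs
  have h0j : k0 m ≠ j' := by rw [← hj']; exact (kadd_ne_zero j hj).symm
  exact mem_shift_mid H hu i j i' j' hi hj hi' hj' hij hij' h0j s (h hij s hs)
    (h0 h0j _ (Zc_mul (Zc_mul Zc_cE (Zc_cGam i')) hs))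

theorem QZ_shift_mid' (hu : uC F m ∈ H) (i j i' j' : Fin (m + 2 + 2)) (hi : i ≠ kL m)
    (hj : j ≠ kL m) (hi' : i + 1 = i') (hj' : j + 1 = j') (hij' : i' ≠ j')
    (h : QZ H i' j') (hL : QZ H (kL m) j) : QZ H i j := by
  intro hij s hs
  have hLj : kL m ≠ j := Ne.symm hj
  exact mem_shift_mid' H hu i j i' j' hi hj hi' hj' hij hij' hLj s (h hij' s hs)
    (hL hLj _ (Zc_mul (Zc_cGam i') hs))

theorem QZ_step1 (hx : Tv (k0_ne_k1 (m := m)) (cE F m) * Tv (k0_ne_kL (m := m)).symm (-1) ∈ H)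
    (i : Fin (m + 2 + 2)) (h0i : k0 m ≠ i) (hLi : kL m ≠ i) (h : QZ H (k0 m) i) :
    QZ H (kL m) i := by
  intro hLi' s hs
  have := mem_step1 H (cE F m) (-1) hx i h0i hLi (-s) (h h0i _ (Zc_neg hs))
  rwa [neg_one_mul, neg_neg] at this

/-- Theorem B: `u` and `x0(1) = E_01(ε) E_L0(-1)` give all `E_ij(1)`. -/
theorem thmB (hu : uC F m ∈ H)
    (hx : Tv (k0_ne_k1 (m := m)) (cE F m) * Tv (k0_ne_kL (m := m)).symm (-1) ∈ H) :
    ∀ (i j : Fin (m + 2 + 2)) (hij : i ≠ j), Tv hij (1 : F) ∈ H := by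
  have hA : Tv (k2_ne_kL (m := m)).symm ((1 : F) ^ 3) ∈ H := thmA H hu 1 (by rwa [mul_one])
  rw [one_pow] at hA
  have QL2 : QZ H (kL m) (k2 m) := QZ_of_one H _ hA
  have chain1 : ∀ (t : ℕ) (j : Fin (m + 2 + 2)), j.val = t + 2 → j ≠ kL m → QZ H (kL m) j := by
    intro t
    induction t with
    | zero =>
      intro j hj _
      have : j = k2 m := Fin.ext (by rw [hj, k2_val])
      rw [this]; exact QL2
    | succ t ih =>
      intro j hj hjL
      have hjlt : j.val < m + 2 + 1 := by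
        have := j.isLt
        have h2 : j.val ≠ m + 2 + 1 := fun h => hjL (Fin.ext h)
        omega
      obtain ⟨j0, hj0⟩ : ∃ j0 : Fin (m + 2 + 2), j0.val = t + 2 := ⟨⟨t + 2, by omega⟩, rfl⟩
      have hj0L : j0 ≠ kL m := Fin.ne_of_val_ne (by rw [hj0, kL_val]; omega)
      have hj0j : j0 + 1 = j := Fin.ext (by rw [kadd j0 hj0L, hj0, hj])
      have h1 := QZ_shift_last H hu j0 j hj0L hj0j (ih j0 hj0 hj0L)
      have h0j : k0 m ≠ j := Fin.ne_of_val_ne (by rw [hj, k0_val]; omega)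
      exact QZ_step1 H hx j h0j (Ne.symm hjL) h1
  have row0big : ∀ j : Fin (m + 2 + 2), 3 ≤ j.val → QZ H (k0 m) j := by
    intro j hj
    have hjlt := j.isLt
    obtain ⟨j0, hj0⟩ : ∃ j0 : Fin (m + 2 + 2), j0.val = j.val - 1 :=
      ⟨⟨j.val - 1, by omega⟩, rfl⟩
    have hj0L : j0 ≠ kL m := Fin.ne_of_val_ne (by rw [hj0, kL_val]; omega)
    have hj0j : j0 + 1 = j := Fin.ext (by rw [kadd j0 hj0L, hj0]; omega)
    exact QZ_shift_last H hu j0 j hj0L hj0j (chain1 (j.val - 3) j0 (by rw [hj0]; omega) hj0L)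
  have Q0L : QZ H (k0 m) (kL m) := row0big (kL m) (by rw [kL_val]; omega)
  have Q02 : QZ H (k0 m) (k2 m) :=
    QZ_comm H k0_ne_kL (k2_ne_kL (m := m)).symm k0_ne_k2 Q0L QL2
  have QL1 : QZ H (kL m) (k1 m) := QZ_shift_last' H hu (k1 m) (k2 m) k1_ne_kL k1_add_one Q02
  have Q01 : QZ H (k0 m) (k1 m) :=
    QZ_comm H k0_ne_kL (k1_ne_kL (m := m)).symm k0_ne_k1 Q0L QL1
  have QL0 : QZ H (kL m) (k0 m) := by
    apply QZ_of_neg_one H (k0_ne_kL (m := m)).symm
    have h1 := Q01 k0_ne_k1 (cE F m) Zc_cE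
    have e : Tv (k0_ne_kL (m := m)).symm (-1 : F) = (Tv (k0_ne_k1 (m := m)) (cE F m))⁻¹ *
        (Tv (k0_ne_k1 (m := m)) (cE F m) * Tv (k0_ne_kL (m := m)).symm (-1)) := by group
    rw [e]
    exact H.mul_mem (H.inv_mem h1) hx
  have row0 : ∀ j : Fin (m + 2 + 2), j ≠ k0 m → QZ H (k0 m) j := by
    intro j hj
    by_cases h3 : 3 ≤ j.val
    · exact row0big j h3
    · have hj0 : j.val ≠ 0 := fun h => hj (Fin.ext h)
      by_cases h1 : j.val = 1
      · have : j = k1 m := Fin.ext h1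
        rw [this]; exact Q01
      · have : j = k2 m := Fin.ext (by rw [k2_val]; omega)
        rw [this]; exact Q02
  have rowL : ∀ j : Fin (m + 2 + 2), j ≠ kL m → QZ H (kL m) j := by
    intro j hj
    by_cases h2 : 2 ≤ j.val
    · exact chain1 (j.val - 2) j (by omega) hj
    · by_cases h0 : j.val = 0
      · have : j = k0 m := Fin.ext h0
        rw [this]; exact QL0
      · have : j = k1 m := Fin.ext (by rw [k1_val]; omega)
        rw [this]; exact QL1
  have upper : ∀ (t : ℕ) (i j : Fin (m + 2 + 2)), i.val = t → i.val < j.val → QZ H i j := by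
    intro t
    induction t with
    | zero =>
      intro i j hi hij
      have : i = k0 m := Fin.ext hi
      rw [this]
      exact row0 j (Fin.ne_of_val_ne (by rw [k0_val]; omega))
    | succ t ih =>
      intro i j hi hij
      have hjlt := j.isLt
      obtain ⟨i0, hi0⟩ : ∃ i0 : Fin (m + 2 + 2), i0.val = t := ⟨⟨t, by omega⟩, rfl⟩
      obtain ⟨j0, hj0⟩ : ∃ j0 : Fin (m + 2 + 2), j0.val = j.val - 1 :=
        ⟨⟨j.val - 1, by omega⟩, rfl⟩
      have hi0L : i0 ≠ kL m := Fin.ne_of_val_ne (by rw [hi0, kL_val]; omega)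
      have hj0L : j0 ≠ kL m := Fin.ne_of_val_ne (by rw [hj0, kL_val]; omega)
      have hi0i : i0 + 1 = i := Fin.ext (by rw [kadd i0 hi0L, hi0, hi])
      have hj0j : j0 + 1 = j := Fin.ext (by rw [kadd j0 hj0L, hj0]; omega)
      have hij0 : i0 ≠ j0 := Fin.ne_of_val_ne (by rw [hi0, hj0]; omega)
      exact QZ_shift_mid H hu i0 j0 i j hi0L hj0L hi0i hj0j hij0
        (ih i0 j0 hi0 (by rw [hi0, hj0]; omega))
        (row0 j (Fin.ne_of_val_ne (by rw [k0_val]; omega)))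
  have lower : ∀ (t : ℕ) (i j : Fin (m + 2 + 2)), i.val + t = m + 2 + 1 → j.val < i.val →
      QZ H i j := by
    intro t
    induction t with
    | zero =>
      intro i j hi hij
      have : i = kL m := Fin.ext (by rw [kL_val]; omega)
      rw [this]
      exact rowL j (Fin.ne_of_val_ne (by rw [kL_val]; omega))
    | succ t ih =>
      intro i j hi hij
      have hiL : i ≠ kL m := Fin.ne_of_val_ne (by rw [kL_val]; omega)
      have hjL : j ≠ kL m := Fin.ne_of_val_ne (by rw [kL_val]; omega)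
      have hij' : i + 1 ≠ j + 1 := Fin.ne_of_val_ne (by rw [kadd i hiL, kadd j hjL]; omega)
      exact QZ_shift_mid' H hu i j (i + 1) (j + 1) hiL hjL rfl rfl hij'
        (ih (i + 1) (j + 1) (by rw [kadd i hiL]; omega) (by rw [kadd i hiL, kadd j hjL]; omega))
        (rowL j hjL)
  intro i j hij
  rcases Nat.lt_or_gt_of_ne (fun h => hij (Fin.ext h)) with h | h
  · exact upper i.val i j rfl h hij 1 Zc_one
  · exact lower (m + 2 + 1 - i.val) i j (by have := i.isLt; omega) h hij 1 Zc_one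

/-- Over a prime field, the companion `u` and its conjugate by `E_L0(1)` generate `SL_n`. -/
theorem comp_gen_of_prime [Fintype F] (hp : (Fintype.card F).Prime) :
    Subgroup.closure ({uC F m, Tv (k0_ne_kL (m := m)).symm 1 * uC F m *
      (Tv (k0_ne_kL (m := m)).symm 1)⁻¹} :
      Set (Matrix.SpecialLinearGroup (Fin (m + 2 + 2)) F)) = ⊤ := by
  obtain ⟨K, hK⟩ : ∃ K, K = Subgroup.closure ({uC F m, Tv (k0_ne_kL (m := m)).symm 1 *
      uC F m * (Tv (k0_ne_kL (m := m)).symm 1)⁻¹} :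
      Set (Matrix.SpecialLinearGroup (Fin (m + 2 + 2)) F)) := ⟨_, rfl⟩
  rw [← hK]
  have hu : uC F m ∈ K := by rw [hK]; exact Subgroup.subset_closure (by simp)
  have hv : Tv (k0_ne_kL (m := m)).symm 1 * uC F m *
      (Tv (k0_ne_kL (m := m)).symm 1)⁻¹ ∈ K := by
    rw [hK]; exact Subgroup.subset_closure (by simp)
  have hx : Tv (k0_ne_k1 (m := m)) (cE F m) * Tv (k0_ne_kL (m := m)).symm (-1) ∈ K := by
    have e := x0_eq (F := F) (m := m) 1
    rw [mul_one] at e
    rw [← e]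
    exact K.mul_mem (K.inv_mem hu) hv
  have h1 := thmB K hu hx
  apply all_tv_top
  intro s i j hij
  haveI : Fact (Fintype.card F).Prime := ⟨hp⟩
  have hs : s ∈ AddSubgroup.zmultiples (1 : F) :=
    mem_zmultiples_of_prime_card (by rw [Nat.card_eq_fintype_card]) one_ne_zero
  obtain ⟨k, hk⟩ := AddSubgroup.mem_zmultiples_iff.1 hs
  have h2 := tv_intCast_mul_mem K hij 1 (h1 i j hij) k
  rw [← hk, zsmul_eq_mul]
  exact h2

end CompThmB

end Cfsg.Agent.H44
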