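import Mathlib
import Cfsg.Agent.H44.CompThmB

/-!
# `SL_n(F)`, `n ≥ 5`, is generated by the companion `u` and a twisted conjugate (helper44)
-/

set_option autoImplicit false

namespace Cfsg.Agent.H44

open Matrix

section CmpConj

variable {F : Type*} [Field F] {n : ℕ}

theorem cmp_conj_sub_one_pow (G G' M : Matrix (Fin n) (Fin n) F) (h1 : G * G' = 1)
    (h2 : G' * G = 1) (k : ℕ) : (G * M * G' - 1) ^ k = G * (M - 1) ^ k * G' := by
  have e : G * M * G' - 1 = G * (M - 1) * G' := by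
    rw [mul_sub, sub_mul, mul_one, h1]
  induction k with
  | zero => rw [pow_zero, pow_zero, mul_one, h1]
  | succ k ih =>
    rw [pow_succ, ih, e, pow_succ]
    calc G * (M - 1) ^ k * G' * (G * (M - 1) * G')
        = G * (M - 1) ^ k * (G' * G) * (M - 1) * G' := by simp only [mul_assoc]
      _ = G * ((M - 1) ^ k * (M - 1)) * G' := by rw [h2, mul_one, mul_assoc G]

theorem cmp_regunip_conj (G G' M M' : Matrix (Fin n) (Fin n) F) (h1 : G * G' = 1)
    (h2 : G' * G = 1) (hM : M' = G * M * G') (k : ℕ) (hn : IsNilpotent (M - 1))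
    (hk : (M - 1) ^ k ≠ 0) : IsNilpotent (M' - 1) ∧ (M' - 1) ^ k ≠ 0 := by
  constructor
  · obtain ⟨r, hr⟩ := hn
    exact ⟨r, by rw [hM, cmp_conj_sub_one_pow G G' M h1 h2, hr, mul_zero, zero_mul]⟩
  · intro h0
    apply hk
    rw [hM, cmp_conj_sub_one_pow G G' M h1 h2] at h0
    have e : (M - 1) ^ k = G' * (G * (M - 1) ^ k * G') * G := by
      calc (M - 1) ^ k = (G' * G) * (M - 1) ^ k * (G' * G) := by rw [h2, one_mul, mul_one]
        _ = G' * (G * (M - 1) ^ k * G') * G := by simp only [mul_assoc]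
    rw [e, h0, mul_zero, zero_mul]

theorem cmp_regunip_sl_conj (g u : Matrix.SpecialLinearGroup (Fin n) F) (k : ℕ)
    (hn : IsNilpotent ((u : Matrix (Fin n) (Fin n) F) - 1))
    (hk : ((u : Matrix (Fin n) (Fin n) F) - 1) ^ k ≠ 0) :
    IsNilpotent (((g * u * g⁻¹ : Matrix.SpecialLinearGroup (Fin n) F) :
        Matrix (Fin n) (Fin n) F) - 1) ∧
      (((g * u * g⁻¹ : Matrix.SpecialLinearGroup (Fin n) F) :
        Matrix (Fin n) (Fin n) F) - 1) ^ k ≠ 0 := by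
  refine cmp_regunip_conj (g : Matrix (Fin n) (Fin n) F)
    ((g⁻¹ : Matrix.SpecialLinearGroup (Fin n) F) : Matrix (Fin n) (Fin n) F) u _ ?_ ?_ ?_ k hn hk
  · rw [← Matrix.SpecialLinearGroup.coe_mul, mul_inv_cancel, Matrix.SpecialLinearGroup.coe_one]
  · rw [← Matrix.SpecialLinearGroup.coe_mul, inv_mul_cancel, Matrix.SpecialLinearGroup.coe_one]
  · rw [Matrix.SpecialLinearGroup.coe_mul, Matrix.SpecialLinearGroup.coe_mul]

end CmpConj

section Dil

variable {F : Type*} [Field F] {n : ℕ}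

local notation "Tv" => Matrix.SpecialLinearGroup.transvection

/-- The dilation `1 + (t - 1) w φᵀ`. -/
def dil (w φ : Fin n → F) (t : F) : Matrix (Fin n) (Fin n) F :=
  1 + Matrix.vecMulVec ((t - 1) • w) φ

theorem dil_eq (w φ : Fin n → F) (t : F) :
    dil w φ t = 1 + (t - 1) • Matrix.vecMulVec w φ := by
  unfold dil
  rw [Matrix.smul_vecMulVec]

theorem dil_one (w φ : Fin n → F) : dil w φ 1 = 1 := by
  rw [dil_eq, sub_self, zero_smul, add_zero]

theorem dil_mul (w φ : Fin n → F) (h : φ ⬝ᵥ w = 1) (t t' : F) :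
    dil w φ t * dil w φ t' = dil w φ (t * t') := by
  have hP : Matrix.vecMulVec w φ * Matrix.vecMulVec w φ = Matrix.vecMulVec w φ := by
    rw [Matrix.vecMulVec_mul_vecMulVec, h, one_smul]
  rw [dil_eq, dil_eq, dil_eq]
  simp only [mul_add, add_mul, mul_one, one_mul, Matrix.smul_mul, Matrix.mul_smul, hP]
  module

theorem dil_pow (w φ : Fin n → F) (h : φ ⬝ᵥ w = 1) (t : F) (k : ℕ) :
    dil w φ t ^ k = dil w φ (t ^ k) := by
  induction k with
  | zero => rw [pow_zero, pow_zero, dil_one]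
  | succ k ih => rw [pow_succ, ih, dil_mul w φ h, pow_succ]

theorem dil_det (w φ : Fin n → F) (h : φ ⬝ᵥ w = 1) (t : F) : (dil w φ t).det = t := by
  unfold dil
  rw [Matrix.vecMulVec_eq (Fin 1), Matrix.det_one_add_replicateCol_mul_replicateRow,
    dotProduct_smul, h, smul_eq_mul, mul_one]
  ring

theorem dil_mulVec (w φ : Fin n → F) (t : F) (x : Fin n → F) :
    dil w φ t *ᵥ x = x + ((t - 1) * (φ ⬝ᵥ x)) • w := by
  rw [dil_eq, Matrix.add_mulVec, Matrix.one_mulVec, Matrix.smul_mulVec, Matrix.vecMulVec_mulVec]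
  congr 1
  funext i
  simp [mul_comm, mul_assoc]

theorem vecMul_dil (w φ : Fin n → F) (t : F) (x : Fin n → F) :
    x ᵥ* dil w φ t = x + ((t - 1) * (x ⬝ᵥ w)) • φ := by
  rw [dil_eq, Matrix.vecMul_add, Matrix.vecMul_one, Matrix.vecMul_smul, Matrix.vecMul_vecMulVec,
    smul_smul]

theorem dil_comm_Tv (w φ : Fin n → F) {i j : Fin n} (hij : i ≠ j) (s t : F) (h1 : φ i = 0)
    (h2 : w j = 0) :
    Commute (dil w φ t)
      ((Tv hij s : Matrix.SpecialLinearGroup (Fin n) F) : Matrix (Fin n) (Fin n) F) := by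
  have e1 : Matrix.vecMulVec w φ *
      Matrix.vecMulVec (s • (Pi.single i 1 : Fin n → F)) (Pi.single j 1) = 0 := by
    rw [Matrix.vecMulVec_mul_vecMulVec, dotProduct_smul, dotProduct_single, h1, zero_mul,
      smul_zero, zero_smul, Matrix.vecMulVec_zero]
  have e2 : Matrix.vecMulVec (s • (Pi.single i 1 : Fin n → F)) (Pi.single j 1) *
      Matrix.vecMulVec w φ = 0 := by
    rw [Matrix.vecMulVec_mul_vecMulVec, single_dotProduct, h2, mul_zero, zero_smul,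
      Matrix.vecMulVec_zero]
  unfold Commute SemiconjBy
  rw [← tv_eq_transvection hij s, tv_coe, dil_eq]
  simp only [mul_add, add_mul, mul_one, one_mul, Matrix.smul_mul, Matrix.mul_smul, e1, e2,
    smul_zero, add_zero]
  abel

theorem dil_comm_dil (w φ w' φ' : Fin n → F) (h1 : φ ⬝ᵥ w' = 0) (h2 : φ' ⬝ᵥ w = 0)
    (t t' : F) : Commute (dil w φ t) (dil w' φ' t') := by
  have e1 : Matrix.vecMulVec w φ * Matrix.vecMulVec w' φ' = 0 := by
    rw [Matrix.vecMulVec_mul_vecMulVec, h1, zero_smul, Matrix.vecMulVec_zero]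
  have e2 : Matrix.vecMulVec w' φ' * Matrix.vecMulVec w φ = 0 := by
    rw [Matrix.vecMulVec_mul_vecMulVec, h2, zero_smul, Matrix.vecMulVec_zero]
  unfold Commute SemiconjBy
  simp only [dil_eq, mul_add, add_mul, mul_one, one_mul, Matrix.smul_mul, Matrix.mul_smul, e1,
    e2, smul_zero, add_zero]
  abel

end Dil

section CaseB

variable {F : Type*} [Field F] {m : ℕ}

local notation "Tv" => Matrix.SpecialLinearGroup.transvection

theorem k3_val : (k3 m).val = 3 := rfl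

theorem k0_ne_k3 : k0 m ≠ k3 m := Fin.ne_of_val_ne (by rw [k0_val, k3_val]; omega)

theorem k1_ne_k3 : k1 m ≠ k3 m := Fin.ne_of_val_ne (by rw [k1_val, k3_val]; omega)

theorem k2_ne_k3 : k2 m ≠ k3 m := Fin.ne_of_val_ne (by rw [k2_val, k3_val]; omega)

theorem k3_ne_kL (hm : 1 ≤ m) : k3 m ≠ kL m :=
  Fin.ne_of_val_ne (by rw [k3_val, kL_val]; omega)

/-- The vector `e_2 + γ_3 e_L`. -/
noncomputable def wB (F : Type*) [Field F] (m : ℕ) : Fin (m + 2 + 2) → F :=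
  Pi.single (k2 m) 1 + cGam F m (k3 m) • Pi.single (kL m) 1

theorem wB_apply_of_ne (i : Fin (m + 2 + 2)) (h2 : i ≠ k2 m) (hL : i ≠ kL m) :
    wB F m i = 0 := by
  unfold wB
  rw [Pi.add_apply, Pi.smul_apply, Pi.single_eq_of_ne h2, Pi.single_eq_of_ne hL, smul_zero,
    add_zero]

theorem wB_dot : (Pi.single (k2 m) 1 : Fin (m + 2 + 2) → F) ⬝ᵥ wB F m = 1 := by
  rw [single_dotProduct, one_mul]
  unfold wB
  rw [Pi.add_apply, Pi.smul_apply, Pi.single_eq_same, Pi.single_eq_of_ne k2_ne_kL, smul_zero,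
    add_zero]

theorem e3_dot :
    (Pi.single (k3 m) 1 : Fin (m + 2 + 2) → F) ⬝ᵥ Pi.single (k3 m) 1 = 1 := by
  rw [single_dotProduct, one_mul, Pi.single_eq_same]

theorem uC_row2 : (Pi.single (k2 m) 1 : Fin (m + 2 + 2) → F) ᵥ*
    (uC F m : Matrix (Fin (m + 2 + 2)) (Fin (m + 2 + 2)) F) = Pi.single (k3 m) 1 := by
  rw [uC_row _ k2_ne_kL, k2_add_one]

theorem uC_col3 : (uC F m : Matrix (Fin (m + 2 + 2)) (Fin (m + 2 + 2)) F) *ᵥ
    (Pi.single (k3 m) 1 : Fin (m + 2 + 2) → F) = wB F m := by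
  unfold wB
  rw [← k2_add_one, uC_col _ k2_ne_kL]

/-- `R0(t) u = u h3(t)`. -/
theorem dil_uC (t : F) :
    dil (wB F m) (Pi.single (k2 m) 1) t *
      (uC F m : Matrix (Fin (m + 2 + 2)) (Fin (m + 2 + 2)) F) =
      (uC F m : Matrix (Fin (m + 2 + 2)) (Fin (m + 2 + 2)) F) *
        dil (Pi.single (k3 m) 1) (Pi.single (k3 m) 1) t := by
  rw [dil_eq, dil_eq, add_mul, one_mul, mul_add, mul_one, Matrix.smul_mul, Matrix.mul_smul,
    Matrix.vecMulVec_mul, Matrix.mul_vecMulVec, uC_row2, uC_col3]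

/-- The semisimple element `h3(δ) R0(δ⁻¹)`. -/
noncomputable def rhoB (m : ℕ) (δ : F) (hδ : δ ≠ 0) :
    Matrix.SpecialLinearGroup (Fin (m + 2 + 2)) F :=
  ⟨dil (Pi.single (k3 m) 1) (Pi.single (k3 m) 1) δ * dil (wB F m) (Pi.single (k2 m) 1) δ⁻¹, by
    rw [Matrix.det_mul, dil_det _ _ e3_dot, dil_det _ _ wB_dot, mul_inv_cancel₀ hδ]⟩

theorem rhoB_coe (δ : F) (hδ : δ ≠ 0) :
    ((rhoB m δ hδ : Matrix.SpecialLinearGroup (Fin (m + 2 + 2)) F) :
      Matrix (Fin (m + 2 + 2)) (Fin (m + 2 + 2)) F) =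
      dil (Pi.single (k3 m) 1) (Pi.single (k3 m) 1) δ *
        dil (wB F m) (Pi.single (k2 m) 1) δ⁻¹ := rfl

/-- `x' = E_01(ε) E_L0(-1)`. -/
def xB (F : Type*) [Field F] (m : ℕ) : Matrix.SpecialLinearGroup (Fin (m + 2 + 2)) F :=
  Tv (k0_ne_k1 (m := m)) (cE F m) * Tv (k0_ne_kL (m := m)).symm (-1)

theorem xB_coe : ((xB F m : Matrix.SpecialLinearGroup (Fin (m + 2 + 2)) F) :
      Matrix (Fin (m + 2 + 2)) (Fin (m + 2 + 2)) F) =
    ((Tv (k0_ne_k1 (m := m)) (cE F m) : Matrix.SpecialLinearGroup (Fin (m + 2 + 2)) F) :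
      Matrix (Fin (m + 2 + 2)) (Fin (m + 2 + 2)) F) *
    ((Tv (k0_ne_kL (m := m)).symm (-1 : F) : Matrix.SpecialLinearGroup (Fin (m + 2 + 2)) F) :
      Matrix (Fin (m + 2 + 2)) (Fin (m + 2 + 2)) F) := rfl

theorem R0_comm_xB (t : F) : Commute (dil (wB F m) (Pi.single (k2 m) 1) t)
    ((xB F m : Matrix.SpecialLinearGroup (Fin (m + 2 + 2)) F) :
      Matrix (Fin (m + 2 + 2)) (Fin (m + 2 + 2)) F) := by
  rw [xB_coe]
  exact (dil_comm_Tv _ _ _ _ _ (Pi.single_eq_of_ne (k0_ne_k2 (m := m)) _)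
      (wB_apply_of_ne (k1 m) k1_ne_k2 k1_ne_kL)).mul_right
    (dil_comm_Tv _ _ _ _ _ (Pi.single_eq_of_ne (k2_ne_kL (m := m)).symm _)
      (wB_apply_of_ne (k0 m) k0_ne_k2 k0_ne_kL))

theorem h3_comm_xB (hm : 1 ≤ m) (t : F) :
    Commute (dil (Pi.single (k3 m) 1) (Pi.single (k3 m) 1) t)
    ((xB F m : Matrix.SpecialLinearGroup (Fin (m + 2 + 2)) F) :
      Matrix (Fin (m + 2 + 2)) (Fin (m + 2 + 2)) F) := by
  rw [xB_coe]
  exact (dil_comm_Tv _ _ _ _ _ (Pi.single_eq_of_ne (k0_ne_k3 (m := m)) _)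
      (Pi.single_eq_of_ne (k1_ne_k3 (m := m)) _)).mul_right
    (dil_comm_Tv _ _ _ _ _ (Pi.single_eq_of_ne (k3_ne_kL hm).symm _)
      (Pi.single_eq_of_ne (k0_ne_k3 (m := m)) _))

theorem rhoB_comm_xB (hm : 1 ≤ m) (δ : F) (hδ : δ ≠ 0) : Commute (rhoB m δ hδ) (xB F m) := by
  unfold Commute SemiconjBy
  apply Subtype.ext
  rw [Matrix.SpecialLinearGroup.coe_mul, Matrix.SpecialLinearGroup.coe_mul, rhoB_coe]
  exact ((h3_comm_xB hm δ).mul_left (R0_comm_xB δ⁻¹)).eq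

theorem rhoB_pow (hm : 1 ≤ m) (δ : F) (hδ : δ ≠ 0) (k : ℕ) (hk : δ ^ k = 1) :
    rhoB m δ hδ ^ k = 1 := by
  apply Subtype.ext
  rw [Matrix.SpecialLinearGroup.coe_pow, rhoB_coe, Matrix.SpecialLinearGroup.coe_one]
  have c : Commute (dil (Pi.single (k3 m) 1) (Pi.single (k3 m) 1) δ)
      (dil (wB F m) (Pi.single (k2 m) 1) δ⁻¹) := by
    refine dil_comm_dil _ _ _ _ ?_ ?_ _ _
    · rw [single_dotProduct, one_mul]
      exact wB_apply_of_ne (k3 m) (k2_ne_k3 (m := m)).symm (k3_ne_kL hm)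
    · rw [single_dotProduct, one_mul]
      exact Pi.single_eq_of_ne (k2_ne_k3 (m := m)) _
  rw [c.mul_pow, dil_pow _ _ e3_dot, dil_pow _ _ wB_dot, inv_pow, hk, inv_one, dil_one, dil_one,
    mul_one]

theorem rhoB_conj (δ : F) (hδ : δ ≠ 0) :
    rhoB m δ hδ * Tv (k0_ne_k3 (m := m)).symm 1 * (rhoB m δ hδ)⁻¹ =
      Tv (k0_ne_k3 (m := m)).symm δ := by
  rw [← tv_eq_transvection (k0_ne_k3 (m := m)).symm 1,
    ← tv_eq_transvection (k0_ne_k3 (m := m)).symm δ]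
  refine conj_tv _ _ _ _ _ _ _ ?_ ?_
  · rw [one_smul, rhoB_coe, ← Matrix.mulVec_mulVec, dil_mulVec (wB F m), single_dotProduct,
      one_mul, Pi.single_eq_of_ne k2_ne_k3, mul_zero, zero_smul, add_zero, dil_mulVec,
      single_dotProduct, one_mul, Pi.single_eq_same, mul_one]
    module
  · rw [rhoB_coe, ← Matrix.vecMul_vecMul, vecMul_dil (Pi.single (k3 m) 1), single_dotProduct,
      one_mul,
      Pi.single_eq_of_ne k0_ne_k3, mul_zero, zero_smul, add_zero, vecMul_dil,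
      single_dotProduct, one_mul, wB_apply_of_ne (k0 m) k0_ne_k2 k0_ne_kL, mul_zero, zero_smul,
      add_zero]

theorem xB_pow_card [Fintype F] : xB F m ^ (Fintype.card F ^ 2) = 1 := by
  obtain ⟨A, hA⟩ : ∃ A : Matrix (Fin (m + 2 + 2)) (Fin (m + 2 + 2)) F,
      A = Matrix.single (k0 m) (k1 m) (cE F m) + Matrix.single (kL m) (k0 m) (-1) := ⟨_, rfl⟩
  have h1 : k1 m ≠ kL m := k1_ne_kL
  have h2 : k1 m ≠ k0 m := (k0_ne_k1 (m := m)).symm
  have h3 : k0 m ≠ kL m := k0_ne_kL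
  have hx : ((xB F m : Matrix.SpecialLinearGroup (Fin (m + 2 + 2)) F) :
      Matrix (Fin (m + 2 + 2)) (Fin (m + 2 + 2)) F) = 1 + A := by
    rw [xB_coe, Matrix.SpecialLinearGroup.transvection_coe,
      Matrix.SpecialLinearGroup.transvection_coe, hA]
    simp only [mul_add, add_mul, mul_one, one_mul, Matrix.single_mul_single_of_ne _ _ _ _ h1,
      add_zero]
    abel
  have hA3 : A * A * A = 0 := by
    rw [hA]
    simp only [mul_add, add_mul, Matrix.single_mul_single_same,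
      Matrix.single_mul_single_of_ne _ _ _ _ h1, Matrix.single_mul_single_of_ne _ _ _ _ h2,
      Matrix.single_mul_single_of_ne _ _ _ _ h3, add_zero, zero_add, zero_mul, mul_zero]
  obtain ⟨f, hp, hq⟩ := FiniteField.card F (ringChar F)
  haveI : Fact (ringChar F).Prime := ⟨hp⟩
  have h4 : 3 ≤ ringChar F ^ (2 * (f : ℕ)) := by
    have hf := f.pos
    calc 3 ≤ 2 ^ 2 := by norm_num
      _ ≤ ringChar F ^ 2 := Nat.pow_le_pow_left hp.two_le 2
      _ ≤ ringChar F ^ (2 * (f : ℕ)) := Nat.pow_le_pow_right hp.pos (by omega)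
  apply Subtype.ext
  rw [Matrix.SpecialLinearGroup.coe_pow, Matrix.SpecialLinearGroup.coe_one, hx, hq, ← pow_mul,
    mul_comm (f : ℕ) 2, add_pow_char_pow_of_commute (ringChar F) (2 * (f : ℕ))
      (Commute.one_left A), one_pow]
  have e : A ^ (ringChar F ^ (2 * (f : ℕ))) = 0 := by
    obtain ⟨r, hr⟩ := Nat.exists_eq_add_of_le h4
    rw [hr, pow_add, pow_three', hA3, zero_mul]
  rw [e, add_zero]

theorem vB_regunip (δ : F) (hδ : δ ≠ 0) :
    IsNilpotent (((uC F m * rhoB m δ hδ * xB F m :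
        Matrix.SpecialLinearGroup (Fin (m + 2 + 2)) F) :
        Matrix (Fin (m + 2 + 2)) (Fin (m + 2 + 2)) F) - 1) ∧
      (((uC F m * rhoB m δ hδ * xB F m : Matrix.SpecialLinearGroup (Fin (m + 2 + 2)) F) :
        Matrix (Fin (m + 2 + 2)) (Fin (m + 2 + 2)) F) - 1) ^ (m + 2 + 1) ≠ 0 := by
  have e1 : uC F m * xB F m = Tv (k0_ne_kL (m := m)).symm 1 * uC F m *
      (Tv (k0_ne_kL (m := m)).symm 1)⁻¹ := by
    have h := x0_eq (F := F) (m := m) 1
    rw [mul_one] at h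
    unfold xB
    rw [← h]
    group
  have r1 := cmp_regunip_sl_conj (Tv (k0_ne_kL (m := m)).symm (1 : F)) (uC F m) (m + 2 + 1)
    uC_isNilpotent uC_pow_ne_zero
  rw [← e1] at r1
  refine cmp_regunip_conj (dil (wB F m) (Pi.single (k2 m) 1) δ)
    (dil (wB F m) (Pi.single (k2 m) 1) δ⁻¹) _ _ ?_ ?_ ?_ (m + 2 + 1) r1.1 r1.2
  · rw [dil_mul _ _ wB_dot, mul_inv_cancel₀ hδ, dil_one]
  · rw [dil_mul _ _ wB_dot, inv_mul_cancel₀ hδ, dil_one]
  · rw [Matrix.SpecialLinearGroup.coe_mul, Matrix.SpecialLinearGroup.coe_mul,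
      Matrix.SpecialLinearGroup.coe_mul, rhoB_coe]
    have c := (R0_comm_xB (F := F) (m := m) δ⁻¹).eq
    calc (uC F m : Matrix (Fin (m + 2 + 2)) (Fin (m + 2 + 2)) F) *
          (dil (Pi.single (k3 m) 1) (Pi.single (k3 m) 1) δ *
            dil (wB F m) (Pi.single (k2 m) 1) δ⁻¹) *
          (xB F m : Matrix (Fin (m + 2 + 2)) (Fin (m + 2 + 2)) F)
        = ((uC F m : Matrix (Fin (m + 2 + 2)) (Fin (m + 2 + 2)) F) *
            dil (Pi.single (k3 m) 1) (Pi.single (k3 m) 1) δ) *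
          (dil (wB F m) (Pi.single (k2 m) 1) δ⁻¹ *
            (xB F m : Matrix (Fin (m + 2 + 2)) (Fin (m + 2 + 2)) F)) := by
          simp only [mul_assoc]
      _ = (dil (wB F m) (Pi.single (k2 m) 1) δ *
            (uC F m : Matrix (Fin (m + 2 + 2)) (Fin (m + 2 + 2)) F)) *
          ((xB F m : Matrix (Fin (m + 2 + 2)) (Fin (m + 2 + 2)) F) *
            dil (wB F m) (Pi.single (k2 m) 1) δ⁻¹) := by rw [← dil_uC, c]
      _ = dil (wB F m) (Pi.single (k2 m) 1) δ *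
          ((uC F m : Matrix (Fin (m + 2 + 2)) (Fin (m + 2 + 2)) F) *
            (xB F m : Matrix (Fin (m + 2 + 2)) (Fin (m + 2 + 2)) F)) *
          dil (wB F m) (Pi.single (k2 m) 1) δ⁻¹ := by simp only [mul_assoc]

/-- `SL_n(F)`, `n ≥ 5`, is generated by the companion and `u ρ x'`. -/
theorem comp_gen_five [Fintype F] (hm : 1 ≤ m) (δ : F) (hδ0 : δ ≠ 0)
    (hδ : ∀ s : F, s ≠ 0 → ∃ k : ℕ, s = δ ^ k) :
    Subgroup.closure ({uC F m, uC F m * rhoB m δ hδ0 * xB F m} :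
      Set (Matrix.SpecialLinearGroup (Fin (m + 2 + 2)) F)) = ⊤ := by
  obtain ⟨K, hK⟩ : ∃ K, K = Subgroup.closure ({uC F m, uC F m * rhoB m δ hδ0 * xB F m} :
      Set (Matrix.SpecialLinearGroup (Fin (m + 2 + 2)) F)) := ⟨_, rfl⟩
  rw [← hK]
  have hu : uC F m ∈ K := by rw [hK]; exact Subgroup.subset_closure (by simp)
  have hv : uC F m * rhoB m δ hδ0 * xB F m ∈ K := by
    rw [hK]; exact Subgroup.subset_closure (by simp)
  have hy : rhoB m δ hδ0 * xB F m ∈ K := by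
    have e : rhoB m δ hδ0 * xB F m = (uC F m)⁻¹ * (uC F m * rhoB m δ hδ0 * xB F m) := by group
    rw [e]
    exact K.mul_mem (K.inv_mem hu) hv
  have hcomm := rhoB_comm_xB hm δ hδ0
  have hq : 2 ≤ Fintype.card F := Fintype.one_lt_card
  have hδq : δ ^ (Fintype.card F - 1) = 1 := FiniteField.pow_card_sub_one_eq_one δ hδ0
  have hq2 : 1 ≤ Fintype.card F ^ 2 := Nat.one_le_pow _ _ (by omega)
  have hr : rhoB m δ hδ0 ^ (Fintype.card F ^ 2 - 1) = 1 := by
    have e : Fintype.card F ^ 2 - 1 = (Fintype.card F - 1) * (Fintype.card F + 1) := by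
      obtain ⟨q', hq'⟩ : ∃ q', Fintype.card F = q' + 1 := ⟨Fintype.card F - 1, by omega⟩
      rw [hq', Nat.add_sub_cancel]
      apply Nat.sub_eq_of_eq_add
      ring
    rw [e, pow_mul, rhoB_pow hm δ hδ0 _ hδq, one_pow]
  have hxinv : xB F m ^ (Fintype.card F ^ 2 - 1) = (xB F m)⁻¹ := by
    apply eq_inv_of_mul_eq_one_left
    rw [← pow_succ, Nat.sub_add_cancel hq2, xB_pow_card]
  have hxi : (xB F m)⁻¹ ∈ K := by
    have h := K.pow_mem hy (Fintype.card F ^ 2 - 1)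
    rwa [hcomm.mul_pow, hr, one_mul, hxinv] at h
  have hx : xB F m ∈ K := by
    have h := K.inv_mem hxi
    rwa [inv_inv] at h
  have hρ : rhoB m δ hδ0 ∈ K := by
    have e : rhoB m δ hδ0 = rhoB m δ hδ0 * xB F m * (xB F m)⁻¹ := by group
    rw [e]
    exact K.mul_mem hy hxi
  have h1 := thmB K hu hx
  have hl : Tv (k0_ne_k3 (m := m)).symm δ ∈ K := by
    rw [← rhoB_conj δ hδ0]
    exact K.mul_mem (K.mul_mem hρ (h1 _ _ _)) (K.inv_mem hρ)
  exact closure_final (by omega) K h1 δ hδ (k0_ne_k3 (m := m)).symm hl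

end CaseB

end Cfsg.Agent.H44
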