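import Mathlib
import Cfsg.Agent.H44.CompThmB

/-!
# `SL_4(F)` is generated by the companion `u` and its conjugate by `E_L0(c)` (helper44)
-/

set_option autoImplicit false

namespace Cfsg.Agent.H44

open Matrix

section Garbage

variable {F : Type*} [Field F] {m : ℕ}

local notation "Tv" => Matrix.SpecialLinearGroup.transvection

variable (H : Subgroup (Matrix.SpecialLinearGroup (Fin (m + 2 + 2)) F))

theorem garbage_mem (hu : uC F m ∈ H) (α β : F) (h1 : Tv (k0_ne_k1 (m := m)) α ∈ H)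
    (h2 : Tv (k0_ne_kL (m := m)).symm β ∈ H) :
    Tv (k2_ne_kL (m := m)).symm (β * -(cE F m * cGam F m (k1 m) * α)) ∈ H := by
  have e1 := uC_conj_mid (F := F) (k0 m) (k1 m) (k1 m) (k2 m) k0_ne_kL k1_ne_kL k0_add_one
    k1_add_one k0_ne_k1 k1_ne_k2 k0_ne_k2 α
  have hY : Tv (k1_ne_k2 (m := m)) α *
      Tv (k0_ne_k2 (m := m)) (-(cE F m * cGam F m (k1 m) * α)) ∈ H := by
    rw [← e1]
    exact H.mul_mem (H.mul_mem (H.inv_mem hu) h1) hu
  obtain ⟨d, hd⟩ : ∃ d, d = -(cE F m * cGam F m (k1 m) * α) := ⟨_, rfl⟩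
  rw [← hd] at hY ⊢
  have e2 : Tv (k0_ne_kL (m := m)).symm β *
      (Tv (k1_ne_k2 (m := m)) α * Tv (k0_ne_k2 (m := m)) d) =
      Tv (k2_ne_kL (m := m)).symm (β * d) *
        ((Tv (k1_ne_k2 (m := m)) α * Tv (k0_ne_k2 (m := m)) d) *
          Tv (k0_ne_kL (m := m)).symm β) := by
    apply Subtype.ext
    simp only [Matrix.SpecialLinearGroup.coe_mul, Tv_L0, Tv_12, Tv_02, Tv_L2, M4_mul]
    congr 1 <;> ring
  have e3 : Tv (k2_ne_kL (m := m)).symm (β * d) = Tv (k0_ne_kL (m := m)).symm β *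
      (Tv (k1_ne_k2 (m := m)) α * Tv (k0_ne_k2 (m := m)) d) *
      ((Tv (k1_ne_k2 (m := m)) α * Tv (k0_ne_k2 (m := m)) d) *
          Tv (k0_ne_kL (m := m)).symm β)⁻¹ := by
    rw [e2]; group
  rw [e3]
  exact H.mul_mem (H.mul_mem h2 hY) (H.inv_mem (H.mul_mem hY h2))

end Garbage

section CaseC

variable {F : Type*} [Field F]

local notation "Tv" => Matrix.SpecialLinearGroup.transvection

theorem k2_add_one_zero : k2 0 + 1 = kL 0 := by
  apply Fin.ext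
  rw [kadd _ k2_ne_kL]
  rfl

theorem cE_zero : cE F 0 = -1 := by simp [cE]

theorem cGam_one_zero : cGam F 0 (k1 0) = 4 := by
  unfold cGam cPol
  rw [Polynomial.coeff_X_add_C_pow, k1_val]
  norm_num [Nat.choose]

variable (H : Subgroup (Matrix.SpecialLinearGroup (Fin (0 + 2 + 2)) F))

theorem caseC_mulc (hu : uC F 0 ∈ H) (c : F)
    (hx : Tv (k0_ne_k1 (m := 0)) (cE F 0 * c) * Tv (k0_ne_kL (m := 0)).symm (-c) ∈ H)
    (s1 s2 : F) (h1 : Tv (k2_ne_kL (m := 0)).symm s1 ∈ H)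
    (h2 : Tv (k2_ne_kL (m := 0)).symm s2 ∈ H) :
    Tv (k2_ne_kL (m := 0)).symm (c * s1 * s2) ∈ H := by
  have a1 : Tv (k0_ne_kL (m := 0)) (cE F 0 * s1) ∈ H :=
    mem_shift_last H hu (k2 0) (kL 0) k2_ne_kL k2_add_one_zero (k2_ne_kL (m := 0)).symm
      k0_ne_kL s1 h1
  have a2 : Tv (k0_ne_k2 (m := 0)) (cE F 0 * s1 * s2) ∈ H :=
    transv_comm_mem H k0_ne_kL (k2_ne_kL (m := 0)).symm k0_ne_k2 _ _ a1 h2
  have a3 := mem_step1 H (cE F 0 * c) (-c) hx (k2 0) k0_ne_k2 (k2_ne_kL (m := 0)).symm _ a2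
  have e : -c * (cE F 0 * s1 * s2) = c * s1 * s2 := by rw [cE_zero]; ring
  rwa [e] at a3

theorem caseC_01 (hu : uC F 0 ∈ H) (s1 s2 s3 : F)
    (h1 : Tv (k2_ne_kL (m := 0)).symm s1 ∈ H) (h2 : Tv (k2_ne_kL (m := 0)).symm s2 ∈ H)
    (h3 : Tv (k2_ne_kL (m := 0)).symm s3 ∈ H) :
    Tv (k0_ne_k1 (m := 0)) (s1 * s2 * s3) ∈ H := by
  have a1 : Tv (k0_ne_kL (m := 0)) (cE F 0 * s1) ∈ H :=
    mem_shift_last H hu (k2 0) (kL 0) k2_ne_kL k2_add_one_zero (k2_ne_kL (m := 0)).symm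
      k0_ne_kL s1 h1
  have a2 : Tv (k0_ne_k2 (m := 0)) (cE F 0 * s1 * s2) ∈ H :=
    transv_comm_mem H k0_ne_kL (k2_ne_kL (m := 0)).symm k0_ne_k2 _ _ a1 h2
  have a3 : Tv (k1_ne_kL (m := 0)).symm (cE F 0 * (cE F 0 * s1 * s2)) ∈ H :=
    mem_shift_last' H hu (k1 0) (k2 0) k1_ne_kL k1_add_one (k1_ne_kL (m := 0)).symm
      k0_ne_k2 _ a2
  have b1 : Tv (k0_ne_kL (m := 0)) (cE F 0 * s3) ∈ H :=
    mem_shift_last H hu (k2 0) (kL 0) k2_ne_kL k2_add_one_zero (k2_ne_kL (m := 0)).symm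
      k0_ne_kL s3 h3
  have a4 : Tv (k0_ne_k1 (m := 0)) (cE F 0 * s3 * (cE F 0 * (cE F 0 * s1 * s2))) ∈ H :=
    transv_comm_mem H k0_ne_kL (k1_ne_kL (m := 0)).symm k0_ne_k1 _ _ b1 a3
  have a5 := transv_neg_mem H _ _ a4
  have e : -(cE F 0 * s3 * (cE F 0 * (cE F 0 * s1 * s2))) = s1 * s2 * s3 := by
    rw [cE_zero]; ring
  rwa [e] at a5

theorem caseC_L0 (hu : uC F 0 ∈ H) (s1 s2 s3 : F)
    (h1 : Tv (k2_ne_kL (m := 0)).symm s1 ∈ H) (h2 : Tv (k2_ne_kL (m := 0)).symm s2 ∈ H)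
    (h3 : Tv (k2_ne_kL (m := 0)).symm s3 ∈ H) :
    Tv (k0_ne_kL (m := 0)).symm (s1 * s2 * s3) ∈ H := by
  have a1 := caseC_01 H hu s1 s2 s3 h1 h2 h3
  have a2 : Tv (k0_ne_kL (m := 0)).symm (cE F 0 * (s1 * s2 * s3)) ∈ H :=
    mem_shift_last' H hu (k0 0) (k1 0) k0_ne_kL k0_add_one (k0_ne_kL (m := 0)).symm
      k0_ne_k1 _ a1
  have a3 := transv_neg_mem H _ _ a2
  have e : -(cE F 0 * (s1 * s2 * s3)) = s1 * s2 * s3 := by
    rw [cE_zero]; ring
  rwa [e] at a3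

theorem caseC_six (hu : uC F 0 ∈ H) (s1 s2 s3 s4 s5 s6 : F)
    (h1 : Tv (k2_ne_kL (m := 0)).symm s1 ∈ H) (h2 : Tv (k2_ne_kL (m := 0)).symm s2 ∈ H)
    (h3 : Tv (k2_ne_kL (m := 0)).symm s3 ∈ H) (h4 : Tv (k2_ne_kL (m := 0)).symm s4 ∈ H)
    (h5 : Tv (k2_ne_kL (m := 0)).symm s5 ∈ H) (h6 : Tv (k2_ne_kL (m := 0)).symm s6 ∈ H) :
    Tv (k2_ne_kL (m := 0)).symm (4 * (s1 * s2 * s3 * s4 * s5 * s6)) ∈ H := by
  have a1 := caseC_01 H hu s1 s2 s3 h1 h2 h3
  have a2 := caseC_L0 H hu s4 s5 s6 h4 h5 h6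
  have a3 := garbage_mem H hu _ _ a1 a2
  have e : s4 * s5 * s6 * -(cE F 0 * cGam F 0 (k1 0) * (s1 * s2 * s3)) =
      4 * (s1 * s2 * s3 * s4 * s5 * s6) := by
    rw [cE_zero, cGam_one_zero]; ring
  rwa [e] at a3

theorem caseC_all [Fintype F] (hu : uC F 0 ∈ H) (c : F) (hc0 : c ≠ 0)
    (hc : ∀ s : F, s ≠ 0 → ∃ k : ℕ, s = c ^ k)
    (hx : Tv (k0_ne_k1 (m := 0)) (cE F 0 * c) * Tv (k0_ne_kL (m := 0)).symm (-c) ∈ H) :
    ∀ s : F, Tv (k2_ne_kL (m := 0)).symm s ∈ H := by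
  have ex3 : Tv (k2_ne_kL (m := 0)).symm (c ^ 3) ∈ H := thmA H hu c hx
  have exadd : ∀ e1 e2 : ℕ, Tv (k2_ne_kL (m := 0)).symm (c ^ e1) ∈ H →
      Tv (k2_ne_kL (m := 0)).symm (c ^ e2) ∈ H →
      Tv (k2_ne_kL (m := 0)).symm (c ^ (e1 + e2 + 1)) ∈ H := by
    intro e1 e2 h1 h2
    have := caseC_mulc H hu c hx _ _ h1 h2
    have e : c * c ^ e1 * c ^ e2 = c ^ (e1 + e2 + 1) := by ring
    rwa [e] at this
  have ex4 : ∀ e : ℕ, Tv (k2_ne_kL (m := 0)).symm (c ^ e) ∈ H → ∀ k : ℕ,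
      Tv (k2_ne_kL (m := 0)).symm (c ^ (e + 4 * k)) ∈ H := by
    intro e he k
    induction k with
    | zero => simpa using he
    | succ k ih =>
      have := exadd _ _ ih ex3
      have e' : e + 4 * k + 3 + 1 = e + 4 * (k + 1) := by ring
      rwa [e'] at this
  have hq : 2 ≤ Fintype.card F := Fintype.one_lt_card
  have hq1 : c ^ (Fintype.card F - 1) = 1 := FiniteField.pow_card_sub_one_eq_one c hc0
  have key : ∀ s : F, s ≠ 0 → Tv (k2_ne_kL (m := 0)).symm s ∈ H := by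
    by_cases h4 : (4 : F) = 0
    · have h2 : (2 : F) = 0 := by
        have : (2 : F) * 2 = 0 := by rw [← h4]; norm_num
        exact mul_self_eq_zero.1 this
      have hdvd : 2 ∣ Fintype.card F := by
        haveI : Fact (Nat.Prime 2) := ⟨Nat.prime_two⟩
        have ho : addOrderOf (1 : F) = 2 :=
          addOrderOf_eq_prime (by rw [two_nsmul, one_add_one_eq_two, h2]) one_ne_zero
        rw [← ho]
        exact addOrderOf_dvd_card
      have hfrob : ∀ x : F, x ^ (Fintype.card F ^ 2) = x := by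
        intro x
        rw [pow_two, pow_mul, FiniteField.pow_card, FiniteField.pow_card]
      obtain ⟨r, hr⟩ := hdvd
      have hr0 : 1 ≤ r := by omega
      intro s hs
      obtain ⟨j, hj⟩ := hc s hs
      have hK : 1 ≤ (j + 1) * r ^ 2 := Nat.mul_pos (Nat.succ_pos j) (Nat.pow_pos hr0)
      have hexp : (j + 1) * Fintype.card F ^ 2 = 3 + 4 * ((j + 1) * r ^ 2 - 1) + 1 := by
        have h1 : (j + 1) * Fintype.card F ^ 2 = 4 * ((j + 1) * r ^ 2) := by rw [hr]; ring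
        omega
      have e : c * s = c * c ^ (3 + 4 * ((j + 1) * r ^ 2 - 1)) := by
        calc c * s = c ^ (j + 1) := by rw [hj]; ring
          _ = (c ^ (j + 1)) ^ (Fintype.card F ^ 2) := (hfrob _).symm
          _ = c ^ (3 + 4 * ((j + 1) * r ^ 2 - 1) + 1) := by rw [← pow_mul, hexp]
          _ = c * c ^ (3 + 4 * ((j + 1) * r ^ 2 - 1)) := by ring
      have e2 := mul_left_cancel₀ hc0 e
      rw [e2]
      exact ex4 3 ex3 _
    · have hinv : ∀ x : F, Tv (k2_ne_kL (m := 0)).symm (4 * x) ∈ H →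
          Tv (k2_ne_kL (m := 0)).symm x ∈ H := by
        intro x hx4
        have h41 : (4 : F) ^ (Fintype.card F - 1) = 1 :=
          FiniteField.pow_card_sub_one_eq_one 4 h4
        have h5 := tv_natCast_mul_mem H _ _ hx4 (4 ^ (Fintype.card F - 2))
        have e : ((4 ^ (Fintype.card F - 2) : ℕ) : F) * (4 * x) = x := by
          push_cast
          rw [← mul_assoc, ← pow_succ]
          have : Fintype.card F - 2 + 1 = Fintype.card F - 1 := by omega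
          rw [this, h41, one_mul]
        rwa [e] at h5
      have ex6 : ∀ e1 e2 e3 e4 e5 e6 : ℕ, Tv (k2_ne_kL (m := 0)).symm (c ^ e1) ∈ H →
          Tv (k2_ne_kL (m := 0)).symm (c ^ e2) ∈ H →
          Tv (k2_ne_kL (m := 0)).symm (c ^ e3) ∈ H →
          Tv (k2_ne_kL (m := 0)).symm (c ^ e4) ∈ H →
          Tv (k2_ne_kL (m := 0)).symm (c ^ e5) ∈ H →
          Tv (k2_ne_kL (m := 0)).symm (c ^ e6) ∈ H →
          Tv (k2_ne_kL (m := 0)).symm (c ^ (e1 + e2 + e3 + e4 + e5 + e6)) ∈ H := by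
        intro e1 e2 e3 e4 e5 e6 h1 h2 h3 h4' h5 h6
        apply hinv
        have := caseC_six H hu _ _ _ _ _ _ h1 h2 h3 h4' h5 h6
        have e : c ^ e1 * c ^ e2 * c ^ e3 * c ^ e4 * c ^ e5 * c ^ e6 =
            c ^ (e1 + e2 + e3 + e4 + e5 + e6) := by ring
        rwa [e] at this
      have ex18 := ex6 3 3 3 3 3 3 ex3 ex3 ex3 ex3 ex3 ex3
      have ex33 := ex6 3 3 3 3 3 18 ex3 ex3 ex3 ex3 ex3 ex18
      have ex48 := ex6 3 3 3 3 18 18 ex3 ex3 ex3 ex3 ex18 ex18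
      have exbig : ∀ e : ℕ, 48 ≤ e → Tv (k2_ne_kL (m := 0)).symm (c ^ e) ∈ H := by
        intro e he
        have hmod : e % 4 = 0 ∨ e % 4 = 1 ∨ e % 4 = 2 ∨ e % 4 = 3 := by omega
        rcases hmod with h | h | h | h
        · have := ex4 48 ex48 ((e - 48) / 4)
          have e' : 48 + 4 * ((e - 48) / 4) = e := by omega
          rwa [e'] at this
        · have := ex4 33 ex33 ((e - 33) / 4)
          have e' : 33 + 4 * ((e - 33) / 4) = e := by omega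
          rwa [e'] at this
        · have := ex4 18 ex18 ((e - 18) / 4)
          have e' : 18 + 4 * ((e - 18) / 4) = e := by omega
          rwa [e'] at this
        · have := ex4 3 ex3 ((e - 3) / 4)
          have e' : 3 + 4 * ((e - 3) / 4) = e := by omega
          rwa [e'] at this
      intro s hs
      obtain ⟨j, hj⟩ := hc s hs
      have e : s = c ^ (j + (Fintype.card F - 1) * 48) := by
        rw [pow_add, pow_mul, hq1, one_pow, mul_one, hj]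
      rw [e]
      exact exbig _ (by omega)
  intro s
  by_cases hs : s = 0
  · rw [hs, Matrix.SpecialLinearGroup.transvection_coeff_zero]
    exact H.one_mem
  · exact key s hs

/-- `SL_4(F)` is generated by the companion and its conjugate by `E_L0(c)`, `c` a generator. -/
theorem comp_gen_four [Fintype F] (c : F) (hc0 : c ≠ 0)
    (hc : ∀ s : F, s ≠ 0 → ∃ k : ℕ, s = c ^ k) :
    Subgroup.closure ({uC F 0, Tv (k0_ne_kL (m := 0)).symm c * uC F 0 *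
      (Tv (k0_ne_kL (m := 0)).symm c)⁻¹} :
      Set (Matrix.SpecialLinearGroup (Fin (0 + 2 + 2)) F)) = ⊤ := by
  obtain ⟨K, hK⟩ : ∃ K, K = Subgroup.closure ({uC F 0, Tv (k0_ne_kL (m := 0)).symm c *
      uC F 0 * (Tv (k0_ne_kL (m := 0)).symm c)⁻¹} :
      Set (Matrix.SpecialLinearGroup (Fin (0 + 2 + 2)) F)) := ⟨_, rfl⟩
  rw [← hK]
  have hu : uC F 0 ∈ K := by rw [hK]; exact Subgroup.subset_closure (by simp)
  have hv : Tv (k0_ne_kL (m := 0)).symm c * uC F 0 *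
      (Tv (k0_ne_kL (m := 0)).symm c)⁻¹ ∈ K := by
    rw [hK]; exact Subgroup.subset_closure (by simp)
  have hx : Tv (k0_ne_k1 (m := 0)) (cE F 0 * c) * Tv (k0_ne_kL (m := 0)).symm (-c) ∈ K := by
    rw [← x0_eq (F := F) (m := 0) c]
    exact K.mul_mem (K.inv_mem hu) hv
  have all2 := caseC_all K hu c hc0 hc hx
  have all0L : ∀ s : F, Tv (k0_ne_kL (m := 0)) s ∈ K := by
    intro s
    have := mem_shift_last K hu (k2 0) (kL 0) k2_ne_kL k2_add_one_zero (k2_ne_kL (m := 0)).symm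
      k0_ne_kL (cE F 0 * s) (all2 _)
    rwa [← mul_assoc, cE_mul_self, one_mul] at this
  have all02 : ∀ s : F, Tv (k0_ne_k2 (m := 0)) s ∈ K := by
    intro s
    have := transv_comm_mem K k0_ne_kL (k2_ne_kL (m := 0)).symm k0_ne_k2 s 1 (all0L s) (all2 1)
    rwa [mul_one] at this
  have allL1 : ∀ s : F, Tv (k1_ne_kL (m := 0)).symm s ∈ K := by
    intro s
    have := mem_shift_last' K hu (k1 0) (k2 0) k1_ne_kL k1_add_one (k1_ne_kL (m := 0)).symm
      k0_ne_k2 (cE F 0 * s) (all02 _)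
    rwa [← mul_assoc, cE_mul_self, one_mul] at this
  have all01 : ∀ s : F, Tv (k0_ne_k1 (m := 0)) s ∈ K := by
    intro s
    have := transv_comm_mem K k0_ne_kL (k1_ne_kL (m := 0)).symm k0_ne_k1 s 1 (all0L s) (allL1 1)
    rwa [mul_one] at this
  have allL0 : ∀ s : F, Tv (k0_ne_kL (m := 0)).symm s ∈ K := by
    intro s
    have := mem_shift_last' K hu (k0 0) (k1 0) k0_ne_kL k0_add_one (k0_ne_kL (m := 0)).symm
      k0_ne_k1 (cE F 0 * s) (all01 _)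
    rwa [← mul_assoc, cE_mul_self, one_mul] at this
  have hx1 : Tv (k0_ne_k1 (m := 0)) (cE F 0) * Tv (k0_ne_kL (m := 0)).symm (-1) ∈ K :=
    K.mul_mem (all01 _) (allL0 _)
  have h1 := thmB K hu hx1
  exact closure_final (by norm_num) K h1 c hc (k2_ne_kL (m := 0)).symm (all2 c)

end CaseC

end Cfsg.Agent.H44
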