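import Mathlib
import Cfsg.Agent.H44.CompCaseB
import Cfsg.Agent.H44.CompCaseC

/-!
# `SL_n(F)`, `n ≥ 4`, is generated by two regular unipotent elements (helper44)
-/

set_option autoImplicit false

namespace Cfsg.Agent.H44

open Matrix

section CompMain

variable {F : Type*} [Field F]

local notation "Tv" => Matrix.SpecialLinearGroup.transvection

theorem comp_main [Fintype F] (m : ℕ) :
    (∃ u v : Matrix.SpecialLinearGroup (Fin (m + 2 + 2)) F,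
      (IsNilpotent ((u : Matrix (Fin (m + 2 + 2)) (Fin (m + 2 + 2)) F) - 1) ∧
        ((u : Matrix (Fin (m + 2 + 2)) (Fin (m + 2 + 2)) F) - 1) ^ (m + 2 + 2 - 1) ≠ 0) ∧
      (IsNilpotent ((v : Matrix (Fin (m + 2 + 2)) (Fin (m + 2 + 2)) F) - 1) ∧
        ((v : Matrix (Fin (m + 2 + 2)) (Fin (m + 2 + 2)) F) - 1) ^ (m + 2 + 2 - 1) ≠ 0) ∧
      Subgroup.closure ({u, v} : Set (Matrix.SpecialLinearGroup (Fin (m + 2 + 2)) F)) = ⊤) ∧
    ((Fintype.card F).Prime → ∃ u g : Matrix.SpecialLinearGroup (Fin (m + 2 + 2)) F,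
      (IsNilpotent ((u : Matrix (Fin (m + 2 + 2)) (Fin (m + 2 + 2)) F) - 1) ∧
        ((u : Matrix (Fin (m + 2 + 2)) (Fin (m + 2 + 2)) F) - 1) ^ (m + 2 + 2 - 1) ≠ 0) ∧
      Subgroup.closure ({u, g * u * g⁻¹} :
        Set (Matrix.SpecialLinearGroup (Fin (m + 2 + 2)) F)) = ⊤) := by
  have hsub : m + 2 + 2 - 1 = m + 2 + 1 := by omega
  rw [hsub]
  obtain ⟨x, hx⟩ := IsCyclic.exists_monoid_generator (α := Fˣ)
  obtain ⟨lam, hlamx⟩ : ∃ lam : F, lam = (x : F) := ⟨_, rfl⟩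
  have hlam0 : lam ≠ 0 := by rw [hlamx]; exact x.ne_zero
  have hlam : ∀ s : F, s ≠ 0 → ∃ k : ℕ, s = lam ^ k := by
    intro s hs
    obtain ⟨k, hk⟩ := (Submonoid.mem_powers_iff _ _).mp (hx (Units.mk0 s hs))
    refine ⟨k, ?_⟩
    have := congrArg (fun y : Fˣ => (y : F)) hk
    simp only [Units.val_pow_eq_pow_val, Units.val_mk0] at this
    rw [hlamx, this]
  refine ⟨?_, ?_⟩
  · by_cases hm : m = 0
    · subst hm
      exact ⟨uC F 0, Tv (k0_ne_kL (m := 0)).symm lam * uC F 0 *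
          (Tv (k0_ne_kL (m := 0)).symm lam)⁻¹, ⟨uC_isNilpotent, uC_pow_ne_zero⟩,
        cmp_regunip_sl_conj _ _ _ uC_isNilpotent uC_pow_ne_zero,
        comp_gen_four lam hlam0 hlam⟩
    · exact ⟨uC F m, uC F m * rhoB m lam hlam0 * xB F m, ⟨uC_isNilpotent, uC_pow_ne_zero⟩,
        vB_regunip lam hlam0, comp_gen_five (by omega) lam hlam0 hlam⟩
  · intro hp
    exact ⟨uC F m, Tv (k0_ne_kL (m := m)).symm 1, ⟨uC_isNilpotent, uC_pow_ne_zero⟩,
      comp_gen_of_prime hp⟩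

end CompMain

end Cfsg.Agent.H44
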