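import Mathlib
import Cfsg.Agent.H98.PsInstDefs
import Cfsg.Agent.H8.SzCard

/-!
# PS-I-CENT (S3664, helper98's split of PS-INST): Frobenius-fixed elements of `Sz(8)` do not have
order 7 or 13 (trace argument).
-/

set_option autoImplicit false

namespace Cfsg.Agent.H44.Ps

open Cfsg Cfsg.Agent.H8 Cfsg.Agent.H98.Ps Matrix

/-- the matrix of `g13` -/
def G13 : M := szMmat 1 (0 : K) (Cfsg.Agent.H41.F8.ofNat 3) * szWmat K

/-- the matrix of `g7` -/
def G7 : M := szHmat 1 u3

theorem mat_g7 : mat g7 = G7 := rfl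

theorem mat_g13 : mat g13 = G13 := rfl

theorem G7_pow : G7 ^ 7 = 1 := by decide +kernel

theorem G7_ne : G7 ≠ 1 := by decide +kernel

theorem G13_pow : G13 ^ 13 = 1 := by decide +kernel

theorem G13_ne : G13 ≠ 1 := by decide +kernel

theorem key7 : ∀ j : Fin 7, j ≠ 0 →
    Matrix.trace (G7 ^ j.val) * Matrix.trace (G7 ^ j.val) ≠ Matrix.trace (G7 ^ j.val) := by
  decide +kernel

theorem key13 : ∀ j : Fin 13, j ≠ 0 →
    Matrix.trace (G13 ^ j.val) * Matrix.trace (G13 ^ j.val) ≠ Matrix.trace (G13 ^ j.val) := by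
  decide +kernel

theorem orderOf_g7 : orderOf g7 = 7 := by
  haveI : Fact (Nat.Prime 7) := ⟨by norm_num⟩
  apply orderOf_eq_prime
  · apply mat_inj
    rw [mat_pow, mat_one, mat_g7]
    exact G7_pow
  · intro h
    apply G7_ne
    rw [← mat_g7, h, mat_one]

theorem orderOf_g13 : orderOf g13 = 13 := by
  haveI : Fact (Nat.Prime 13) := ⟨by norm_num⟩
  apply orderOf_eq_prime
  · apply mat_inj
    rw [mat_pow, mat_one, mat_g13]
    exact G13_pow
  · intro h
    apply G13_ne
    rw [← mat_g13, h, mat_one]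

theorem card_S : Nat.card S = 29120 := by
  have h := sz_card (F := K) (m := 1) (le_refl 1) hK
  rw [h]
  norm_num

/-- the trace of a Frobenius-fixed element is idempotent -/
theorem trace_idem (s : S) (h : tw s = s) :
    Matrix.trace (mat s) * Matrix.trace (mat s) = Matrix.trace (mat s) := by
  have h1 : fm frob (mat s) = mat s := by rw [← mat_tw, h]
  have h2 : frob (Matrix.trace (mat s)) = Matrix.trace (fm frob (mat s)) := by
    show frob (∑ i, (mat s) i i) = ∑ i, fm frob (mat s) i i
    rw [map_sum]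
    rfl
  rw [h1, frob_apply] at h2
  exact h2

/-- the trace of a conjugate of a power -/
theorem trace_conj (c g : S) (i : ℕ) :
    Matrix.trace (mat (c * g ^ i * c⁻¹)) = Matrix.trace (mat g ^ i) := by
  rw [mat_mul, mat_mul, Matrix.trace_mul_comm, ← mul_assoc, mat_inv_mul, one_mul, mat_pow]

/-- PS-I-CENT -/
theorem cent (hS : StSyl) : StCent := by
  intro s hs
  have hid := trace_idem s hs
  constructor
  · intro h7
    obtain ⟨c, i, hc⟩ := hS S 7 (by norm_num) (by rw [card_S]; norm_num) g7 s orderOf_g7 h7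
    have ht : Matrix.trace (mat s) = Matrix.trace (G7 ^ (i % 7)) := by
      rw [hc, trace_conj, mat_g7, pow_eq_pow_mod i G7_pow]
    have hlt : i % 7 < 7 := Nat.mod_lt _ (by norm_num)
    by_cases h0 : i % 7 = 0
    · have hg : g7 ^ i = 1 := by
        apply mat_inj
        rw [mat_pow, mat_one, mat_g7, pow_eq_pow_mod i G7_pow, h0, pow_zero]
      rw [hg, mul_one, mul_inv_cancel] at hc
      rw [hc, orderOf_one] at h7
      norm_num at h7
    · have hk := key7 ⟨i % 7, hlt⟩ (by
        intro h
        exact h0 (congrArg Fin.val h))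
      rw [ht] at hid
      exact hk hid
  · intro h13
    obtain ⟨c, i, hc⟩ := hS S 13 (by norm_num) (by rw [card_S]; norm_num) g13 s orderOf_g13 h13
    have ht : Matrix.trace (mat s) = Matrix.trace (G13 ^ (i % 13)) := by
      rw [hc, trace_conj, mat_g13, pow_eq_pow_mod i G13_pow]
    have hlt : i % 13 < 13 := Nat.mod_lt _ (by norm_num)
    by_cases h0 : i % 13 = 0
    · have hg : g13 ^ i = 1 := by
        apply mat_inj
        rw [mat_pow, mat_one, mat_g13, pow_eq_pow_mod i G13_pow, h0, pow_zero]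
      rw [hg, mul_one, mul_inv_cancel] at hc
      rw [hc, orderOf_one] at h13
      norm_num at h13
    · have hk := key13 ⟨i % 13, hlt⟩ (by
        intro h
        exact h0 (congrArg Fin.val h))
      rw [ht] at hid
      exact hk hid

example (hS : Cfsg.Agent.H98.Ps.StSyl) : Cfsg.Agent.H98.Ps.StCent := cent hS

end Cfsg.Agent.H44.Ps
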