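import Mathlib
import Cfsg.Prelude.Def_Characters
import Cfsg.Agent.H44.SLnCount
import Cfsg.Agent.H44.SL2Lin

set_option autoImplicit false

namespace Cfsg.Agent.H44

open Matrix
open scoped ComplexConjugate

section SLnWeil

variable {F : Type*} [Field F] [Fintype F] [DecidableEq F] {n : ℕ}

/-- The "Weil-type" class function attached to a weight function `a : F → ℂ`. -/
noncomputable def slW (a : F → ℂ) (g : Matrix.SpecialLinearGroup (Fin n) F) : ℂ :=
  ((Fintype.card F : ℂ) - 1)⁻¹ * ∑ c : F, a c * (eigCount g c : ℂ)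

theorem sum_slW (hn : 2 ≤ n) (a : F → ℂ) (ha : a 0 = 0) :
    ∑ g : Matrix.SpecialLinearGroup (Fin n) F, slW a g =
      (Fintype.card (Matrix.SpecialLinearGroup (Fin n) F) : ℂ) *
        (((Fintype.card F : ℂ) - 1)⁻¹ * ∑ c : F, a c) := by
  simp only [slW]
  rw [← Finset.mul_sum, Finset.sum_comm]
  have h : ∀ c : F, ∑ g : Matrix.SpecialLinearGroup (Fin n) F, a c * (eigCount g c : ℂ) =
      a c * (Fintype.card (Matrix.SpecialLinearGroup (Fin n) F) : ℂ) := by
    intro c
    by_cases hc : c = 0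
    · subst hc; simp [ha]
    · rw [← Finset.mul_sum, ← Nat.cast_sum, sum_eigCount hn c hc]
  rw [Finset.sum_congr rfl (fun c _ => h c), ← Finset.sum_mul]
  ring

theorem sum_slW_mul (hn : 3 ≤ n) (a b : F → ℂ) (ha : a 0 = 0) (hb : b 0 = 0) :
    ∑ g : Matrix.SpecialLinearGroup (Fin n) F, slW a g * slW b g =
      (Fintype.card (Matrix.SpecialLinearGroup (Fin n) F) : ℂ) *
        (((Fintype.card F : ℂ) - 1)⁻¹ * ∑ c : F, a c * b c +
          (((Fintype.card F : ℂ) - 1)⁻¹ * ∑ c : F, a c) *
            (((Fintype.card F : ℂ) - 1)⁻¹ * ∑ c : F, b c)) := by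
  have hq := card_sub_one_ne_zero (F := F)
  have h1 : ∀ g : Matrix.SpecialLinearGroup (Fin n) F, slW a g * slW b g =
      ((Fintype.card F : ℂ) - 1)⁻¹ * ((Fintype.card F : ℂ) - 1)⁻¹ *
        ∑ c : F, ∑ d : F, a c * b d * ((eigCount g c * eigCount g d : ℕ) : ℂ) := by
    intro g
    simp only [slW]
    rw [mul_mul_mul_comm, Finset.sum_mul_sum]
    congr 1
    apply Finset.sum_congr rfl; intro c _
    apply Finset.sum_congr rfl; intro d _
    push_cast; ring
  rw [Finset.sum_congr rfl (fun g _ => h1 g), ← Finset.mul_sum, Finset.sum_comm]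
  have h2 : ∀ c : F, ∑ g : Matrix.SpecialLinearGroup (Fin n) F, ∑ d : F,
      a c * b d * ((eigCount g c * eigCount g d : ℕ) : ℂ) =
      (Fintype.card (Matrix.SpecialLinearGroup (Fin n) F) : ℂ) *
        (((Fintype.card F : ℂ) - 1) * (a c * b c) + a c * ∑ d : F, b d) := by
    intro c
    rw [Finset.sum_comm]
    have h3 : ∀ d : F, ∑ g : Matrix.SpecialLinearGroup (Fin n) F,
        a c * b d * ((eigCount g c * eigCount g d : ℕ) : ℂ) =
        (Fintype.card (Matrix.SpecialLinearGroup (Fin n) F) : ℂ) *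
          (((Fintype.card F : ℂ) - 1) * (if c = d then a c * b d else 0) + a c * b d) := by
      intro d
      by_cases hc : c = 0
      · subst hc; simp [ha]
      by_cases hd : d = 0
      · subst hd; simp [hb]
      rw [← Finset.mul_sum, ← Nat.cast_sum, sum_eigCount_mul hn c d hc hd]
      push_cast
      rw [Nat.cast_sub Fintype.card_pos, Nat.cast_one]
      by_cases hcd : c = d
      · simp only [if_pos hcd]; ring
      · simp only [if_neg hcd]; ring
    rw [Finset.sum_congr rfl (fun d _ => h3 d), ← Finset.mul_sum, Finset.sum_add_distrib,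
      ← Finset.mul_sum, ← Finset.mul_sum, Finset.sum_ite_eq Finset.univ c, if_pos (Finset.mem_univ c)]
  rw [Finset.sum_congr rfl (fun c _ => h2 c), ← Finset.mul_sum, Finset.sum_add_distrib,
    ← Finset.mul_sum, ← Finset.sum_mul]
  field_simp

theorem conj_slW (a : F → ℂ) (g : Matrix.SpecialLinearGroup (Fin n) F) :
    conj (slW a g) = slW (fun c => conj (a c)) g := by
  simp only [slW, map_mul, map_inv₀, map_sub, map_sum, map_one, map_natCast]

open Classical in
theorem mulChar_orth_F (α β : MulChar F ℂ) :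
    ∑ c : F, α c * conj (β c) = if α = β then ((Fintype.card F : ℂ) - 1) else 0 := by
  have h1 : ∀ a : F, α a * conj (β a) = (α * β⁻¹) a := by
    intro a
    rw [MulChar.mul_apply, ← MulChar.star_apply']
    rfl
  rw [Finset.sum_congr rfl (fun a _ => h1 a)]
  by_cases h : α = β
  · rw [if_pos h, h, mul_inv_cancel]
    have h2 := MulChar.sum_one_eq_card_units (R := F) (R' := ℂ)
    rw [h2, Fintype.card_units, Nat.cast_sub Fintype.card_pos, Nat.cast_one]
  · rw [if_neg h]
    apply MulChar.sum_eq_zero_of_ne_one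
    intro h'
    exact h (mul_inv_eq_one.mp h')

open Classical in
theorem mulChar_sum_F (α : MulChar F ℂ) :
    ∑ c : F, α c = if α = 1 then ((Fintype.card F : ℂ) - 1) else 0 := by
  by_cases h : α = 1
  · rw [if_pos h, h]
    have h2 := MulChar.sum_one_eq_card_units (R := F) (R' := ℂ)
    rw [h2, Fintype.card_units, Nat.cast_sub Fintype.card_pos, Nat.cast_one]
  · rw [if_neg h]
    exact MulChar.sum_eq_zero_of_ne_one h

open Classical in
theorem mulChar_sum_conj_F (α : MulChar F ℂ) :
    ∑ c : F, conj (α c) = if α = 1 then ((Fintype.card F : ℂ) - 1) else 0 := by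
  rw [← map_sum, mulChar_sum_F]
  split_ifs <;> simp

theorem card_SLn_ne_zero :
    (Fintype.card (Matrix.SpecialLinearGroup (Fin n) F) : ℂ) ≠ 0 := by
  have : Fintype.card (Matrix.SpecialLinearGroup (Fin n) F) ≠ 0 := Fintype.card_ne_zero
  exact_mod_cast this

theorem inv_mul_ite_self (x : ℂ) (hx : x ≠ 0) (p : Prop) [Decidable p] :
    x⁻¹ * (if p then x else 0) = if p then 1 else 0 := by
  split_ifs
  · exact inv_mul_cancel₀ hx
  · exact mul_zero _

open Classical in
theorem classInner_slW (hn : 3 ≤ n) (α β : MulChar F ℂ) :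
    Cfsg.classInner (slW (n := n) (α : F → ℂ)) (slW (β : F → ℂ)) =
      (if α = β then 1 else 0) + (if α = 1 then 1 else 0) * (if β = 1 then 1 else 0) := by
  have hq := card_sub_one_ne_zero (F := F)
  have hG := card_SLn_ne_zero (F := F) (n := n)
  unfold Cfsg.classInner
  simp only [conj_slW]
  rw [sum_slW_mul hn _ _ (MulChar.map_zero α) (by simp [MulChar.map_zero]), mulChar_orth_F,
    mulChar_sum_F, mulChar_sum_conj_F, Nat.card_eq_fintype_card]
  rw [inv_mul_ite_self _ hq, inv_mul_ite_self _ hq, inv_mul_ite_self _ hq, ← mul_assoc,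
    inv_mul_cancel₀ hG, one_mul]

open Classical in
theorem classInner_slW_one (hn : 2 ≤ n) (α : MulChar F ℂ) :
    Cfsg.classInner (slW (n := n) (α : F → ℂ)) (fun _ => (1 : ℂ)) = if α = 1 then 1 else 0 := by
  have hq := card_sub_one_ne_zero (F := F)
  have hG := card_SLn_ne_zero (F := F) (n := n)
  unfold Cfsg.classInner
  simp only [map_one, mul_one]
  rw [sum_slW hn _ (MulChar.map_zero α), mulChar_sum_F, Nat.card_eq_fintype_card]
  rw [inv_mul_ite_self _ hq, ← mul_assoc, inv_mul_cancel₀ hG, one_mul]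

end SLnWeil

end Cfsg.Agent.H44
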