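import Mathlib
import Cfsg.Prelude.Def_Characters
import Cfsg.Agent.H44.SLnWeil
import Cfsg.Agent.H20.Basic
import Cfsg.Agent.H4.Chars

set_option autoImplicit false

namespace Cfsg.Agent.H44

open Matrix
open scoped ComplexConjugate

section SLnInd

variable {F : Type*} [Field F] [Fintype F] [DecidableEq F] {n : ℕ} (i0 : Fin n)

theorem single_one_ne_zero : (Pi.single i0 (1 : F) : Fin n → F) ≠ 0 := by
  intro h
  have := congrFun h i0
  simp at this

/-- The stabilizer of the line spanned by `e_{i0}`. -/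
def lineStab (F : Type*) [Field F] [Fintype F] [DecidableEq F] (n : ℕ) (i0 : Fin n) :
    Subgroup (Matrix.SpecialLinearGroup (Fin n) F) where
  carrier := {g | ∃ c : F, (g : Matrix (Fin n) (Fin n) F) *ᵥ (Pi.single i0 1) =
    c • (Pi.single i0 1 : Fin n → F)}
  mul_mem' := by
    rintro g h ⟨c, hc⟩ ⟨d, hd⟩
    exact ⟨d * c, by rw [SLn_mulVec_mul, hd, Matrix.mulVec_smul, hc, smul_smul]⟩
  one_mem' := ⟨1, by rw [SLn_mulVec_one, one_smul]⟩
  inv_mem' := by
    rintro g ⟨c, hc⟩
    have hc0 : c ≠ 0 := by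
      rintro rfl
      rw [zero_smul] at hc
      exact single_one_ne_zero i0 ((SLn_mulVec_eq_zero_iff g _).mp hc)
    refine ⟨c⁻¹, ?_⟩
    apply SLn_mulVec_injective g
    show (g : Matrix (Fin n) (Fin n) F) *ᵥ
      (((g⁻¹ : Matrix.SpecialLinearGroup (Fin n) F) : Matrix (Fin n) (Fin n) F) *ᵥ
        (Pi.single i0 1)) =
      (g : Matrix (Fin n) (Fin n) F) *ᵥ (c⁻¹ • (Pi.single i0 1 : Fin n → F))
    rw [SLn_mulVec_inv', Matrix.mulVec_smul, hc, smul_smul, inv_mul_cancel₀ hc0, one_smul]

theorem mem_lineStab (g : Matrix.SpecialLinearGroup (Fin n) F) :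
    g ∈ lineStab F n i0 ↔ ∃ c : F, (g : Matrix (Fin n) (Fin n) F) *ᵥ (Pi.single i0 1) =
      c • (Pi.single i0 1 : Fin n → F) := Iff.rfl

theorem lineStab_entry (g : Matrix.SpecialLinearGroup (Fin n) F) (c : F)
    (h : (g : Matrix (Fin n) (Fin n) F) *ᵥ (Pi.single i0 1) =
      c • (Pi.single i0 1 : Fin n → F)) :
    (g : Matrix (Fin n) (Fin n) F) i0 i0 = c := by
  have := congrFun h i0
  simpa using this

/-- The linear character `p ↦ α(p₀₀)` of the line stabilizer. -/
noncomputable def lineChar (α : MulChar F ℂ) : lineStab F n i0 →* ℂ where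
  toFun p := α (((p : Matrix.SpecialLinearGroup (Fin n) F) : Matrix (Fin n) (Fin n) F) i0 i0)
  map_one' := by simp
  map_mul' := by
    intro p p'
    obtain ⟨c, hc⟩ := p.2
    obtain ⟨d, hd⟩ := p'.2
    have h1 := lineStab_entry i0 _ _ hc
    have h2 := lineStab_entry i0 _ _ hd
    have h3 : (((p * p' : lineStab F n i0) : Matrix.SpecialLinearGroup (Fin n) F) :
        Matrix (Fin n) (Fin n) F) *ᵥ (Pi.single i0 1) =
        (c * d) • (Pi.single i0 1 : Fin n → F) := by
      rw [Subgroup.coe_mul, SLn_mulVec_mul, hd, Matrix.mulVec_smul, hc, smul_smul, mul_comm]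
    rw [lineStab_entry i0 _ _ h3, h1, h2, map_mul]

theorem lineChar_apply (α : MulChar F ℂ) (p : lineStab F n i0) :
    lineChar i0 α p =
      α (((p : Matrix.SpecialLinearGroup (Fin n) F) : Matrix (Fin n) (Fin n) F) i0 i0) := rfl

theorem extendByZero_lineChar (α : MulChar F ℂ) (g x : Matrix.SpecialLinearGroup (Fin n) F) :
    Cfsg.extendByZero (lineStab F n i0) (lineChar i0 α) (x⁻¹ * g * x) =
      ∑ c : F, if (g : Matrix (Fin n) (Fin n) F) *ᵥ
        ((x : Matrix (Fin n) (Fin n) F) *ᵥ (Pi.single i0 1)) =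
        c • ((x : Matrix (Fin n) (Fin n) F) *ᵥ (Pi.single i0 1)) then α c else 0 := by
  have hxe : (x : Matrix (Fin n) (Fin n) F) *ᵥ (Pi.single i0 (1 : F)) ≠ 0 := fun h0 =>
    single_one_ne_zero i0 ((SLn_mulVec_eq_zero_iff x _).mp h0)
  by_cases hmem : x⁻¹ * g * x ∈ lineStab F n i0
  · have hmem' := hmem
    obtain ⟨c, hc⟩ := hmem'
    rw [Cfsg.Agent.H20.extendByZero_apply_mem' _ _ _ hmem, lineChar_apply]
    simp only
    rw [lineStab_entry i0 _ _ hc]
    have hg : (g : Matrix (Fin n) (Fin n) F) *ᵥ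
        ((x : Matrix (Fin n) (Fin n) F) *ᵥ (Pi.single i0 1)) =
        c • ((x : Matrix (Fin n) (Fin n) F) *ᵥ (Pi.single i0 1)) := by
      rw [SLn_mulVec_mul, SLn_mulVec_mul] at hc
      have := congrArg (fun y => (x : Matrix (Fin n) (Fin n) F) *ᵥ y) hc
      simp only [SLn_mulVec_inv', Matrix.mulVec_smul] at this
      exact this
    rw [hg, Finset.sum_eq_single c]
    · rw [if_pos rfl]
    · intro c' _ hne
      rw [if_neg]
      intro h
      exact hne (smul_left_injective F hxe h).symm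
    · intro h; exact absurd (Finset.mem_univ c) h
  · rw [Cfsg.Agent.H20.extendByZero_apply_not_mem _ _ _ hmem]
    symm
    apply Finset.sum_eq_zero
    intro c _
    rw [if_neg]
    intro h
    apply hmem
    refine ⟨c, ?_⟩
    rw [SLn_mulVec_mul, SLn_mulVec_mul, h, Matrix.mulVec_smul, SLn_mulVec_inv]

theorem fiber_card (hn : 2 ≤ n) (v : Fin n → F) (hv : v ≠ 0) :
    (Finset.univ.filter (fun x : Matrix.SpecialLinearGroup (Fin n) F =>
      (x : Matrix (Fin n) (Fin n) F) *ᵥ (Pi.single i0 1) = v)).card =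
    (Finset.univ.filter (fun x : Matrix.SpecialLinearGroup (Fin n) F =>
      (x : Matrix (Fin n) (Fin n) F) *ᵥ (Pi.single i0 1) = Pi.single i0 1)).card := by
  obtain ⟨h, hh⟩ := Cfsg.Agent.H45.SL_transitive hn (Pi.single i0 1) v (single_one_ne_zero i0) hv
  symm
  refine Finset.card_bij' (fun x _ => h * x) (fun x _ => h⁻¹ * x) ?_ ?_ ?_ ?_
  · intro x hx
    simp only [Finset.mem_filter, Finset.mem_univ, true_and] at hx ⊢
    rw [SLn_mulVec_mul, hx, hh]
  · intro x hx
    simp only [Finset.mem_filter, Finset.mem_univ, true_and] at hx ⊢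
    rw [SLn_mulVec_mul, hx, ← hh, SLn_mulVec_inv]
  · intro x _; simp
  · intro x _; simp

theorem card_lineStab (hn : 2 ≤ n) :
    Nat.card (lineStab F n i0) = (Fintype.card F - 1) *
      (Finset.univ.filter (fun x : Matrix.SpecialLinearGroup (Fin n) F =>
        (x : Matrix (Fin n) (Fin n) F) *ᵥ (Pi.single i0 1) = Pi.single i0 1)).card := by
  classical
  have hcard : Nat.card (lineStab F n i0) =
      (Finset.univ.filter (fun x : Matrix.SpecialLinearGroup (Fin n) F =>
        x ∈ lineStab F n i0)).card := by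
    rw [Nat.card_eq_fintype_card]
    exact Fintype.card_of_subtype _ (by intro x; simp)
  rw [hcard]
  rw [Finset.card_eq_sum_card_fiberwise
    (f := fun x : Matrix.SpecialLinearGroup (Fin n) F => (x : Matrix (Fin n) (Fin n) F) i0 i0)
    (t := Finset.univ.filter (fun a : F => a ≠ 0)) ?_]
  · have hfib : ∀ b ∈ Finset.univ.filter (fun a : F => a ≠ 0),
        ((Finset.univ.filter (fun x : Matrix.SpecialLinearGroup (Fin n) F =>
          x ∈ lineStab F n i0)).filter
          (fun x : Matrix.SpecialLinearGroup (Fin n) F =>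
            (x : Matrix (Fin n) (Fin n) F) i0 i0 = b)).card =
        (Finset.univ.filter (fun x : Matrix.SpecialLinearGroup (Fin n) F =>
          (x : Matrix (Fin n) (Fin n) F) *ᵥ (Pi.single i0 1) = Pi.single i0 1)).card := by
      intro b hb
      simp only [Finset.mem_filter, Finset.mem_univ, true_and] at hb
      rw [← fiber_card i0 hn (b • Pi.single i0 1) (smul_ne_zero hb (single_one_ne_zero i0))]
      congr 1
      rw [Finset.filter_filter]
      apply Finset.filter_congr
      intro x _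
      constructor
      · rintro ⟨⟨c, hc⟩, hb'⟩
        rw [lineStab_entry i0 x c hc] at hb'
        rw [← hb']
        exact hc
      · intro h
        exact ⟨⟨b, h⟩, lineStab_entry i0 x b h⟩
    rw [Finset.sum_congr rfl hfib, Finset.sum_const, card_nzF, smul_eq_mul]
  · intro x hx
    rw [Finset.mem_coe] at hx ⊢
    simp only [Finset.mem_filter, Finset.mem_univ, true_and] at hx ⊢
    obtain ⟨c, hc⟩ := hx
    rw [lineStab_entry i0 x c hc]
    rintro rfl
    rw [zero_smul] at hc
    exact single_one_ne_zero i0 ((SLn_mulVec_eq_zero_iff x _).mp hc)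

theorem indFun_lineChar (hn : 2 ≤ n) (α : MulChar F ℂ) :
    Cfsg.indFun (lineStab F n i0) (lineChar i0 α) = slW (n := n) (α : F → ℂ) := by
  funext g
  unfold Cfsg.indFun
  simp only [extendByZero_lineChar]
  rw [card_lineStab i0 hn]
  have h1 : ∑ x : Matrix.SpecialLinearGroup (Fin n) F, ∑ c : F,
      (if (g : Matrix (Fin n) (Fin n) F) *ᵥ
        ((x : Matrix (Fin n) (Fin n) F) *ᵥ (Pi.single i0 1)) =
        c • ((x : Matrix (Fin n) (Fin n) F) *ᵥ (Pi.single i0 1)) then α c else 0) =
      ((Finset.univ.filter (fun x : Matrix.SpecialLinearGroup (Fin n) F =>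
        (x : Matrix (Fin n) (Fin n) F) *ᵥ (Pi.single i0 1) = Pi.single i0 1)).card : ℂ) *
        ∑ c : F, α c * (eigCount g c : ℂ) := by
    rw [← Finset.sum_fiberwise_of_maps_to (s := Finset.univ) (t := nzVec F n)
      (g := fun x : Matrix.SpecialLinearGroup (Fin n) F =>
        (x : Matrix (Fin n) (Fin n) F) *ᵥ (Pi.single i0 (1 : F))) ?_]
    · have h2 : ∀ v ∈ nzVec F n,
          ∑ x ∈ Finset.univ.filter (fun x : Matrix.SpecialLinearGroup (Fin n) F =>
            (x : Matrix (Fin n) (Fin n) F) *ᵥ (Pi.single i0 (1 : F)) = v), ∑ c : F,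
            (if (g : Matrix (Fin n) (Fin n) F) *ᵥ
              ((x : Matrix (Fin n) (Fin n) F) *ᵥ (Pi.single i0 1)) =
              c • ((x : Matrix (Fin n) (Fin n) F) *ᵥ (Pi.single i0 1)) then α c else 0) =
          ((Finset.univ.filter (fun x : Matrix.SpecialLinearGroup (Fin n) F =>
            (x : Matrix (Fin n) (Fin n) F) *ᵥ (Pi.single i0 1) = Pi.single i0 1)).card : ℂ) *
            ∑ c : F, (if (g : Matrix (Fin n) (Fin n) F) *ᵥ v = c • v then α c else 0) := by
        intro v hv
        rw [mem_nzVec] at hv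
        rw [← fiber_card i0 hn v hv, ← nsmul_eq_mul, ← Finset.sum_const]
        apply Finset.sum_congr rfl
        intro x hx
        simp only [Finset.mem_filter, Finset.mem_univ, true_and] at hx
        rw [hx]
      rw [Finset.sum_congr rfl h2, ← Finset.mul_sum, Finset.sum_comm]
      congr 1
      apply Finset.sum_congr rfl
      intro c _
      rw [eigCount, Finset.card_filter, Nat.cast_sum, Finset.mul_sum]
      apply Finset.sum_congr rfl
      intro v _
      split_ifs <;> simp
    · intro x _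
      rw [mem_nzVec]
      exact fun h0 => single_one_ne_zero i0 ((SLn_mulVec_eq_zero_iff x _).mp h0)
  rw [h1, slW]
  have hs : ((Finset.univ.filter (fun x : Matrix.SpecialLinearGroup (Fin n) F =>
      (x : Matrix (Fin n) (Fin n) F) *ᵥ (Pi.single i0 1) = Pi.single i0 1)).card : ℂ) ≠ 0 := by
    have : (Finset.univ.filter (fun x : Matrix.SpecialLinearGroup (Fin n) F =>
      (x : Matrix (Fin n) (Fin n) F) *ᵥ (Pi.single i0 1) = Pi.single i0 1)).card ≠ 0 := by
      rw [Finset.card_ne_zero]
      exact ⟨1, by rw [Finset.mem_filter]; exact ⟨Finset.mem_univ _, SLn_mulVec_one _⟩⟩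
    exact_mod_cast this
  have hq := card_sub_one_ne_zero (F := F)
  rw [Nat.cast_mul, Nat.cast_sub Fintype.card_pos, Nat.cast_one]
  field_simp

theorem isCharacter_slW (hn : 2 ≤ n) (α : MulChar F ℂ) :
    Cfsg.IsCharacter (Matrix.SpecialLinearGroup (Fin n) F) (slW (n := n) (α : F → ℂ)) := by
  have hn0 : 0 < n := by omega
  rw [← indFun_lineChar (⟨0, hn0⟩ : Fin n) hn α]
  exact Cfsg.Agent.H4.isCharacter_indFun _ _ (isCharacter_monoidHom _)

end SLnInd

end Cfsg.Agent.H44
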