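import Mathlib
import Cfsg.Prelude.Def_Characters
import Cfsg.Agent.H44.SLnInd
import Cfsg.Agent.H4.TwoTrans

set_option autoImplicit false

namespace Cfsg.Agent.H44

open Matrix
open scoped ComplexConjugate

section SLnPerm

variable {F : Type*} [Field F] [Fintype F] [DecidableEq F] {n : ℕ}

open Classical in
/-- The principal character if `α = 1`, and zero otherwise. -/
noncomputable def slJ (n : ℕ) (α : MulChar F ℂ) : Matrix.SpecialLinearGroup (Fin n) F → ℂ :=
  if α = 1 then (fun _ => (1 : ℂ)) else 0

theorem slJ_pos (α : MulChar F ℂ) (h : α = 1) :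
    slJ n α = fun _ : Matrix.SpecialLinearGroup (Fin n) F => (1 : ℂ) := by
  unfold slJ
  rw [if_pos h]

theorem slJ_neg (α : MulChar F ℂ) (h : ¬ α = 1) :
    slJ n α = (0 : Matrix.SpecialLinearGroup (Fin n) F → ℂ) := by
  unfold slJ
  rw [if_neg h]

/-- The irreducible constituents of the permutation character on nonzero vectors other than
the principal character. -/
noncomputable def slIrr (α : MulChar F ℂ) : Matrix.SpecialLinearGroup (Fin n) F → ℂ :=
  slW (n := n) (α : F → ℂ) - slJ n α

open Classical in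
theorem slIrr_apply (α : MulChar F ℂ) (g : Matrix.SpecialLinearGroup (Fin n) F) :
    slIrr α g = slW (n := n) (α : F → ℂ) g - (if α = 1 then 1 else 0) := by
  unfold slIrr
  by_cases h : α = 1
  · rw [slJ_pos α h, if_pos h]; rfl
  · rw [slJ_neg α h, if_neg h]; rfl

theorem classInner_one_one_SLn :
    Cfsg.classInner (fun _ : Matrix.SpecialLinearGroup (Fin n) F => (1 : ℂ)) (fun _ => 1) = 1 := by
  have hG := card_SLn_ne_zero (F := F) (n := n)
  unfold Cfsg.classInner
  simp only [map_one, mul_one, Finset.sum_const, Finset.card_univ, nsmul_eq_mul,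
    Nat.card_eq_fintype_card]
  exact inv_mul_cancel₀ hG

open Classical in
theorem classInner_slW_J (hn : 2 ≤ n) (α β : MulChar F ℂ) :
    Cfsg.classInner (slW (n := n) (α : F → ℂ)) (slJ n β) =
      (if α = 1 then 1 else 0) * (if β = 1 then 1 else 0) := by
  by_cases h : β = 1
  · rw [slJ_pos β h, if_pos h, mul_one, classInner_slW_one hn]
  · rw [slJ_neg β h, if_neg h, mul_zero, Cfsg.Agent.H4.classInner_zero_right]

open Classical in
theorem classInner_J_slW (hn : 2 ≤ n) (α β : MulChar F ℂ) :
    Cfsg.classInner (slJ n α) (slW (n := n) (β : F → ℂ)) =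
      (if α = 1 then 1 else 0) * (if β = 1 then 1 else 0) := by
  rw [← Cfsg.Agent.H4.classInner_conj_symm, classInner_slW_J hn]
  split_ifs <;> simp

open Classical in
theorem classInner_J_J (α β : MulChar F ℂ) :
    Cfsg.classInner (slJ n α) (slJ n β) =
      (if α = 1 then 1 else 0) * (if β = 1 then 1 else 0) := by
  by_cases h : β = 1
  · by_cases h' : α = 1
    · rw [slJ_pos β h, if_pos h, slJ_pos α h', if_pos h', mul_one, classInner_one_one_SLn]
    · rw [slJ_neg α h', if_neg h', zero_mul, Cfsg.Agent.H4.classInner_zero_left]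
  · rw [slJ_neg β h, if_neg h, mul_zero, Cfsg.Agent.H4.classInner_zero_right]

open Classical in
theorem classInner_slIrr (hn : 3 ≤ n) (α β : MulChar F ℂ) :
    Cfsg.classInner (slIrr (n := n) α) (slIrr β) = if α = β then 1 else 0 := by
  unfold slIrr
  rw [Cfsg.Agent.H4.classInner_sub_left, Cfsg.Agent.H4.classInner_sub_right,
    Cfsg.Agent.H4.classInner_sub_right, classInner_slW hn, classInner_slW_J (by omega),
    classInner_J_slW (by omega), classInner_J_J]
  ring

theorem isIrrCharacter_slIrr (hn : 3 ≤ n) (α : MulChar F ℂ) :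
    Cfsg.IsIrrCharacter (Matrix.SpecialLinearGroup (Fin n) F) (slIrr α) := by
  classical
  apply Cfsg.Agent.H4.isIrrCharacter_of_norm_one
  · unfold slIrr
    by_cases h : α = 1
    · rw [slJ_pos α h]
      exact Cfsg.Agent.H4.isCharacter_sub_irr (isCharacter_slW (by omega) α)
        ⟨fun _ => 1, Cfsg.Agent.H4.isIrrCharacter_one⟩
        (by
          show Cfsg.classInner (slW (n := n) (α : F → ℂ)) (fun _ => (1 : ℂ)) ≠ 0
          rw [classInner_slW_one (by omega), if_pos h]
          exact one_ne_zero)
    · rw [slJ_neg α h, sub_zero]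
      exact isCharacter_slW (by omega) α
  · rw [classInner_slIrr hn, if_pos rfl]

theorem slIrr_injective (hn : 3 ≤ n) :
    Function.Injective (slIrr (F := F) (n := n)) := by
  classical
  intro α β h
  by_contra hne
  have h1 := classInner_slIrr hn α β
  rw [← h, classInner_slIrr hn, if_pos rfl, if_neg hne] at h1
  exact one_ne_zero h1

theorem sum_slW_mulChar [Fintype (MulChar F ℂ)] (g : Matrix.SpecialLinearGroup (Fin n) F) :
    ∑ α : MulChar F ℂ, slW (α : F → ℂ) g = (eigCount g 1 : ℂ) := by
  have hq := card_sub_one_ne_zero (F := F)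
  simp only [slW]
  rw [← Finset.mul_sum, Finset.sum_comm]
  simp only [← Finset.sum_mul, sum_mulChar_apply, ite_mul, zero_mul, Finset.sum_ite_eq',
    Finset.mem_univ, if_true]
  field_simp

theorem sum_slIrr [Fintype (MulChar F ℂ)] (g : Matrix.SpecialLinearGroup (Fin n) F) :
    ∑ α : MulChar F ℂ, slIrr α g = (eigCount g 1 : ℂ) - 1 := by
  classical
  simp only [slIrr_apply, Finset.sum_sub_distrib, sum_slW_mulChar, Finset.sum_ite_eq',
    Finset.mem_univ, if_true]

theorem eigCount_one_eq (g : Matrix.SpecialLinearGroup (Fin n) F) :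
    eigCount g 1 = Nat.card {v : Fin n → F //
      v ≠ 0 ∧ (g : Matrix (Fin n) (Fin n) F).mulVec v = v} := by
  classical
  rw [Nat.card_eq_fintype_card]
  symm
  apply Fintype.card_of_subtype
  intro v
  simp [nzVec]

/-- The permutation character of `SL_n(F)` (`n ≥ 3`) on the nonzero vectors is `1` plus
`q - 1` distinct irreducible characters. -/
theorem SLn_perm_character (n : ℕ) (hn : 3 ≤ n) :
    ∃ χ : Fin (Fintype.card F - 1) → (Matrix.SpecialLinearGroup (Fin n) F → ℂ),
      (∀ i, Cfsg.IsIrrCharacter (Matrix.SpecialLinearGroup (Fin n) F) (χ i)) ∧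
      Function.Injective χ ∧
      ∀ g : Matrix.SpecialLinearGroup (Fin n) F,
        (Nat.card {v : Fin n → F //
          v ≠ 0 ∧ (g : Matrix (Fin n) (Fin n) F).mulVec v = v} : ℂ) = 1 + ∑ i, χ i g := by
  classical
  letI : Fintype (MulChar F ℂ) := Fintype.ofFinite _
  have hcard : Fintype.card (MulChar F ℂ) = Fintype.card F - 1 := card_mulChar
  let e : Fin (Fintype.card F - 1) ≃ MulChar F ℂ := (Fintype.equivFinOfCardEq hcard).symm
  refine ⟨fun i => slIrr (e i), fun i => isIrrCharacter_slIrr hn (e i), ?_, ?_⟩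
  · intro i j hij
    exact e.injective (slIrr_injective hn hij)
  · intro g
    rw [Equiv.sum_comp e (fun α => slIrr α g), sum_slIrr, ← eigCount_one_eq]
    ring

end SLnPerm

end Cfsg.Agent.H44
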