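import Mathlib
import Cfsg.Prelude.Def_Characters
import Cfsg.Agent.H44.SLnPerm

/-!
# Existence of an irreducible representation of `SL_n(q)` of degree `(q^n - q)/(q - 1)`
-/

set_option autoImplicit false

namespace Cfsg.Agent.H44

open Matrix

section SLnMinEx

variable {F : Type*} [Field F] [Fintype F] [DecidableEq F] {n : ℕ}

theorem eigCount_one_elt (c : F) :
    eigCount (1 : Matrix.SpecialLinearGroup (Fin n) F) c =
      if c = 1 then (nzVec F n).card else 0 := by
  unfold eigCount
  split_ifs with h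
  · subst h
    congr 1
    apply Finset.filter_true_of_mem
    intro v _
    simp
  · rw [Finset.card_eq_zero, Finset.filter_eq_empty_iff]
    intro v hv hcv
    rw [mem_nzVec] at hv
    simp only [Matrix.SpecialLinearGroup.coe_one, Matrix.one_mulVec] at hcv
    have h2 : (1 - c) • v = 0 := by rw [sub_smul, one_smul, ← hcv, sub_self]
    rcases smul_eq_zero.mp h2 with h3 | h3
    · exact h (sub_eq_zero.mp h3).symm
    · exact hv h3

theorem card_nzVec' : (nzVec F n).card = Fintype.card F ^ n - 1 := by
  unfold nzVec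
  rw [Finset.filter_ne', Finset.card_erase_of_mem (Finset.mem_univ _), Finset.card_univ]
  simp

theorem slIrr_one_one :
    slIrr (1 : MulChar F ℂ) (1 : Matrix.SpecialLinearGroup (Fin n) F) =
      ((Fintype.card F : ℂ) - 1)⁻¹ * ((Fintype.card F : ℂ) ^ n - 1) - 1 := by
  classical
  rw [slIrr_apply, if_pos rfl]
  unfold slW
  simp only [eigCount_one_elt]
  rw [Finset.sum_eq_single (1 : F)]
  · rw [if_pos rfl, card_nzVec']
    have h1 : 1 ≤ Fintype.card F ^ n := Nat.one_le_pow _ _ Fintype.card_pos
    rw [Nat.cast_sub h1]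
    simp
  · intro c _ hc
    rw [if_neg hc]
    simp
  · intro h
    exact absurd (Finset.mem_univ _) h

theorem geom_B_aux (q m : ℕ) (hq : 1 ≤ q) :
    (q - 1) * (∑ j ∈ Finset.range m, q ^ (j + 1)) + q = q ^ (m + 1) := by
  obtain ⟨r, rfl⟩ : ∃ r, q = r + 1 := ⟨q - 1, by omega⟩
  induction m with
  | zero => simp
  | succ m ih =>
    rw [Finset.sum_range_succ, mul_add, add_right_comm, ih]
    simp only [Nat.add_sub_cancel]
    ring

theorem exists_irr_minDeg (hn : 3 ≤ n) :
    ∃ ρ : Representation ℂ (Matrix.SpecialLinearGroup (Fin n) F)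
      (Fin ((Fintype.card F ^ n - Fintype.card F) / (Fintype.card F - 1)) → ℂ),
      ρ.IsIrreducible := by
  obtain ⟨k, ρ, hirr, hchar⟩ := isIrrCharacter_slIrr (F := F) hn 1
  have hq : 2 ≤ Fintype.card F := Fintype.one_lt_card
  have h1 : ρ.character 1 = (k : ℂ) := by
    rw [Representation.char_one]
    simp
  rw [hchar, slIrr_one_one] at h1
  have hq1 : ((Fintype.card F : ℂ) - 1) ≠ 0 := by
    have : (Fintype.card F : ℂ) ≠ 1 := by
      have : Fintype.card F ≠ 1 := by omega
      exact_mod_cast this
    exact sub_ne_zero.mpr this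
  have h2 : ((k : ℂ) + 1) * ((Fintype.card F : ℂ) - 1) = (Fintype.card F : ℂ) ^ n - 1 := by
    rw [← h1]
    field_simp
    ring
  have h3 : (k + 1) * (Fintype.card F - 1) + 1 = Fintype.card F ^ n := by
    have h4 : (((k + 1) * (Fintype.card F - 1) + 1 : ℕ) : ℂ) = ((Fintype.card F ^ n : ℕ) : ℂ) := by
      push_cast
      rw [Nat.cast_sub (by omega)]
      push_cast
      rw [h2]
      ring
    exact_mod_cast h4
  have h5 : k = (Fintype.card F ^ n - Fintype.card F) / (Fintype.card F - 1) := by
    symm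
    apply Nat.div_eq_of_eq_mul_left (by omega)
    rw [← h3]
    have : (k + 1) * (Fintype.card F - 1) = k * (Fintype.card F - 1) + (Fintype.card F - 1) := by
      ring
    omega
  subst h5
  exact ⟨ρ, hirr⟩

end SLnMinEx

end Cfsg.Agent.H44
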