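import Mathlib
import Cfsg.Agent.H44.SLnMinEx

/-!
# Arithmetic for the minimal degree of `SL_n(q)`
-/

set_option autoImplicit false

namespace Cfsg.Agent.H44

section Arith

theorem geomM (r k : ℕ) : r * (∑ j ∈ Finset.range k, (r + 1) ^ j) + 1 = (r + 1) ^ k := by
  induction k with
  | zero => simp
  | succ k ih =>
    rw [Finset.sum_range_succ, mul_add, add_right_comm, ih]
    ring

theorem excl_E1 (q N D T : ℕ) (hq : 2 ≤ q)
    (hT : T * (q - 1) = (q ^ (N + 3) - 1) * (q ^ (N + 2) - 1))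
    (hD : D ∣ T * q ^ (N + 2)) (hDB : D + 1 = ∑ j ∈ Finset.range (N + 2), q ^ (j + 1)) :
    False := by
  obtain ⟨r, rfl⟩ : ∃ r, q = r + 1 := ⟨q - 1, by omega⟩
  have hr : 1 ≤ r := by omega
  set M := ∑ j ∈ Finset.range (N + 2), (r + 1) ^ j with hMdef
  have hB : ∑ j ∈ Finset.range (N + 2), (r + 1) ^ (j + 1) = (r + 1) * M := by
    rw [hMdef, Finset.mul_sum]
    apply Finset.sum_congr rfl
    intro j _
    ring
  rw [hB] at hDB
  have hM : r * M + 1 = (r + 1) ^ (N + 2) := geomM r (N + 2)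
  have hBn := geom_B_aux (r + 1) (N + 2) (by omega)
  rw [hB] at hBn
  simp only [Nat.add_sub_cancel] at hBn hT
  have h3 : (r + 1) ^ (N + 3) - 1 = r * ((r + 1) * M + 1) := by
    have : (r + 1) ^ (N + 3) = r * ((r + 1) * M) + (r + 1) := hBn.symm
    rw [this]
    have : r * ((r + 1) * M) + (r + 1) - 1 = r * ((r + 1) * M) + r := by omega
    rw [this]
    ring
  have h2 : (r + 1) ^ (N + 2) - 1 = r * M := by omega
  rw [h3, h2] at hT
  have hT' : T = ((r + 1) * M + 1) * (r * M) := by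
    have : T * r = ((r + 1) * M + 1) * (r * M) * r := by rw [hT]; ring
    exact Nat.eq_of_mul_eq_mul_right (by omega) this
  have hcop1 : Nat.Coprime D ((r + 1) * M) := by
    rw [← hDB]
    exact (Nat.coprime_self_add_right).mpr (Nat.coprime_one_right D)
  have hcopq : Nat.Coprime D (r + 1) := Nat.Coprime.coprime_mul_right_right hcop1
  have hcopM : Nat.Coprime D M := Nat.Coprime.coprime_mul_left_right hcop1
  have hd1 : D ∣ T := (Nat.Coprime.pow_right (N + 2) hcopq).dvd_of_dvd_mul_right hD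
  rw [hT'] at hd1
  have hd2 : D ∣ ((r + 1) * M + 1) * r := by
    have : ((r + 1) * M + 1) * (r * M) = ((r + 1) * M + 1) * r * M := by ring
    rw [this] at hd1
    exact hcopM.dvd_of_dvd_mul_right hd1
  have hd3 : D ∣ 2 * r := by
    have : ((r + 1) * M + 1) * r = D * r + 2 * r := by
      rw [← hDB]
      ring
    rw [this] at hd2
    exact (Nat.dvd_add_right (dvd_mul_right D r)).mp hd2
  have hle : D ≤ 2 * r := Nat.le_of_dvd (by omega) hd3
  have hMge : r + 2 ≤ M := by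
    rw [hMdef, Finset.sum_range_succ']
    have h0 : ∑ k ∈ Finset.range (N + 1), (r + 1) ^ (k + 1) ≥ (r + 1) := by
      rw [Finset.sum_range_succ']
      simp
    simp only [pow_zero]
    omega
  have : (r + 1) * (r + 2) ≤ (r + 1) * M := Nat.mul_le_mul_left _ hMge
  nlinarith

theorem strong_step_arith (q N D a T : ℕ) (hq : 2 ≤ q)
    (ha : ∑ j ∈ Finset.range (N + 2), q ^ (j + 1) ≤ a) (hDa : D = a + (q ^ (N + 3) - 1))
    (hT : T * (q - 1) = (q ^ (N + 4) - 1) * (q ^ (N + 3) - 1))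
    (hD : D ∣ T * q ^ (N + 3)) : ∑ j ∈ Finset.range (N + 3), q ^ (j + 1) ≤ D := by
  by_contra h
  have hpos : 1 ≤ q ^ (N + 3) := Nat.one_le_pow _ _ (by omega)
  have h1 : D + 1 = ∑ j ∈ Finset.range (N + 1 + 2), q ^ (j + 1) := by
    have e : N + 1 + 2 = N + 3 := rfl
    rw [e]
    rw [Finset.sum_range_succ] at h ⊢
    have e2 : q ^ (N + 2 + 1) = q ^ (N + 3) := rfl
    omega
  exact excl_E1 q (N + 1) D T hq hT hD h1

theorem base_3 (q D T : ℕ) (hq : 2 ≤ q) (hq2 : q ≠ 2) (hq4 : q ≠ 4) (hq10 : q ≠ 10)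
    (hW : ∑ j ∈ Finset.range 2, (q ^ (j + 1) - 1) ≤ D)
    (hT : T * (q - 1) = (q ^ 3 - 1) * (q ^ 2 - 1)) (hD : D ∣ T * q ^ 2) :
    ∑ j ∈ Finset.range 2, q ^ (j + 1) ≤ D := by
  by_contra hlt
  have hcases : D + 1 = ∑ j ∈ Finset.range (0 + 2), q ^ (j + 1) ∨
      D + 2 = ∑ j ∈ Finset.range 2, q ^ (j + 1) := by
    simp only [Finset.sum_range_succ, Finset.sum_range_zero, zero_add, pow_one] at hW hlt ⊢
    have h1 : 1 ≤ q ^ 2 := Nat.one_le_pow _ _ (by omega)
    omega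
  rcases hcases with h | h
  · exact excl_E1 q 0 D T hq hT hD h
  · obtain ⟨r, rfl⟩ : ∃ r, q = r + 1 := ⟨q - 1, by omega⟩
    have hr : 1 ≤ r := by omega
    simp only [Finset.sum_range_succ, Finset.sum_range_zero, zero_add, pow_one] at h
    have hDr : D = r * (r + 3) := by
      have : (r + 1) + (r + 1) ^ (1 + 1) = r * (r + 3) + 2 := by ring
      omega
    simp only [Nat.add_sub_cancel] at hT
    have h3 : (r + 1) ^ 3 - 1 = r * (r ^ 2 + 3 * r + 3) := by
      have : (r + 1) ^ 3 = r * (r ^ 2 + 3 * r + 3) + 1 := by ring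
      omega
    have h2 : (r + 1) ^ 2 - 1 = r * (r + 2) := by
      have : (r + 1) ^ 2 = r * (r + 2) + 1 := by ring
      omega
    rw [h3, h2] at hT
    have hT' : T = (r ^ 2 + 3 * r + 3) * (r * (r + 2)) := by
      have : T * r = (r ^ 2 + 3 * r + 3) * (r * (r + 2)) * r := by rw [hT]; ring
      exact Nat.eq_of_mul_eq_mul_right (by omega) this
    rw [hDr, hT'] at hD
    have hd1 : (r + 3) ∣ (r ^ 2 + 3 * r + 3) * (r + 2) * (r + 1) ^ 2 := by
      have : (r ^ 2 + 3 * r + 3) * (r * (r + 2)) * (r + 1) ^ 2 =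
          r * ((r ^ 2 + 3 * r + 3) * (r + 2) * (r + 1) ^ 2) := by ring
      rw [this] at hD
      exact (Nat.mul_dvd_mul_iff_left (by omega)).mp hD
    have hd2 : (r + 3) ∣ (r ^ 2 + 3 * r + 3) * (r + 2) * (r + 1) ^ 2 + 12 :=
      ⟨r ^ 4 + 4 * r ^ 3 + 8 * r ^ 2 + 5 * r + 6, by ring⟩
    have hd3 : (r + 3) ∣ 12 := (Nat.dvd_add_right hd1).mp hd2
    have hle : r + 3 ≤ 12 := Nat.le_of_dvd (by norm_num) hd3
    have hr9 : r ≤ 9 := by omega
    interval_cases r <;> omega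

theorem base_44 (D T : ℕ) (hW : ∑ j ∈ Finset.range 3, (4 ^ (j + 1) - 1) ≤ D)
    (hT : T * (4 - 1) = (4 ^ 4 - 1) * (4 ^ 3 - 1)) (hD : D ∣ T * 4 ^ 3) :
    ∑ j ∈ Finset.range 3, 4 ^ (j + 1) ≤ D := by
  norm_num [Finset.sum_range_succ] at hW hT ⊢
  have hT' : T = 5355 := by omega
  subst hT'
  by_contra hlt
  have hD' : D ≤ 83 := by omega
  interval_cases D <;> omega

theorem base_52 (D T : ℕ) (hW : ∑ j ∈ Finset.range 4, (2 ^ (j + 1) - 1) ≤ D)
    (hT : T * (2 - 1) = (2 ^ 5 - 1) * (2 ^ 4 - 1)) (hD : D ∣ T * 2 ^ 4) :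
    ∑ j ∈ Finset.range 4, 2 ^ (j + 1) ≤ D := by
  norm_num [Finset.sum_range_succ] at hW hT ⊢
  subst hT
  by_contra hlt
  have hD' : D ≤ 29 := by omega
  interval_cases D <;> omega

end Arith

end Cfsg.Agent.H44
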