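import Mathlib
import Cfsg.Agent.H44.SLnLowA

/-!
# A weak lower bound for representations of `SL_n(q)` with a `ψ`-vector
-/

set_option autoImplicit false

namespace Cfsg.Agent.H44

open Matrix Module

section Dg

variable {F : Type*} [Field F] {n : ℕ}

/-- A diagonal element of `SL_n`. -/
def dg (d : Fin n → Fˣ) (h : ∏ i, d i = 1) : Matrix.SpecialLinearGroup (Fin n) F :=
  ⟨Matrix.diagonal (fun i => (d i : F)), by
    rw [Matrix.det_diagonal, ← Units.coe_prod, h, Units.val_one]⟩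

theorem dg_coe (d : Fin n → Fˣ) (h : ∏ i, d i = 1) :
    ((dg d h : Matrix.SpecialLinearGroup (Fin n) F) : Matrix (Fin n) (Fin n) F) =
      Matrix.diagonal (fun i => (d i : F)) := rfl

theorem dg_inv (d : Fin n → Fˣ) (h : ∏ i, d i = 1) :
    (dg d h)⁻¹ = dg (fun i => (d i)⁻¹) (by rw [Finset.prod_inv_distrib, h, inv_one]) := by
  apply inv_eq_of_mul_eq_one_right
  apply Subtype.ext
  rw [Matrix.SpecialLinearGroup.coe_mul, dg_coe, dg_coe, Matrix.diagonal_mul_diagonal,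
    Matrix.SpecialLinearGroup.coe_one]
  have : (fun i => ((d i : F)) * (((d i)⁻¹ : Fˣ) : F)) = fun _ => 1 := by
    funext i
    simp
  rw [this, Matrix.diagonal_one]

theorem lastRow_dg {m : ℕ} (d : Fin (m + 1 + 1) → Fˣ) (h : ∏ i, d i = 1) :
    (Pi.single (Fin.last (m + 1)) 1 : Fin (m + 1 + 1) → F) ᵥ*
      ((dg d h : Matrix.SpecialLinearGroup (Fin (m + 1 + 1)) F) :
        Matrix (Fin (m + 1 + 1)) (Fin (m + 1 + 1)) F) =
      (d (Fin.last (m + 1)) : F) • Pi.single (Fin.last (m + 1)) 1 := by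
  funext j
  rw [dg_coe, Matrix.vecMul_diagonal, Pi.smul_apply, smul_eq_mul]
  by_cases hj : j = Fin.last (m + 1)
  · subst hj
    simp
  · simp [Pi.single_eq_of_ne hj]

theorem dg_conj_transvection (d : Fin n → Fˣ) (h : ∏ i, d i = 1) {i j : Fin n} (hij : i ≠ j)
    (s : F) :
    dg d h * Matrix.SpecialLinearGroup.transvection hij s * (dg d h)⁻¹ =
      Matrix.SpecialLinearGroup.transvection hij ((d i : F) * s * ((d j : F))⁻¹) := by
  rw [dg_inv]
  apply Subtype.ext
  rw [Matrix.SpecialLinearGroup.coe_mul, Matrix.SpecialLinearGroup.coe_mul, dg_coe, dg_coe,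
    Matrix.SpecialLinearGroup.transvection_coe, Matrix.SpecialLinearGroup.transvection_coe]
  ext a b
  rw [Matrix.mul_diagonal, Matrix.diagonal_mul, Matrix.add_apply, Matrix.add_apply,
    Matrix.single_apply, Matrix.single_apply, Matrix.one_apply]
  by_cases hab : a = b
  · subst hab
    have : ¬ (i = a ∧ j = a) := fun ⟨h1, h2⟩ => hij (h1.trans h2.symm)
    simp [this]
  · by_cases h1 : i = a ∧ j = b
    · obtain ⟨rfl, rfl⟩ := h1
      simp [hab]
    · simp [hab, h1]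

theorem lastRow_transvection {m : ℕ} {i j : Fin (m + 1 + 1)} (hij : i ≠ j)
    (hi : i ≠ Fin.last (m + 1)) (s : F) :
    (Pi.single (Fin.last (m + 1)) 1 : Fin (m + 1 + 1) → F) ᵥ*
      ((Matrix.SpecialLinearGroup.transvection hij s : Matrix.SpecialLinearGroup (Fin (m + 1 + 1)) F) :
        Matrix (Fin (m + 1 + 1)) (Fin (m + 1 + 1)) F) = Pi.single (Fin.last (m + 1)) 1 := by
  rw [← tv_eq_transvection hij s]
  apply single_vecMul_tv
  simp [Pi.single_eq_of_ne hi.symm]

end Dg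

section Weak

variable {F : Type*} [Field F] [Fintype F] [DecidableEq F]

theorem finrank_ge_fixC_add {m : ℕ} {V : Type*} [AddCommGroup V] [Module ℂ V]
    [FiniteDimensional ℂ V] (hm : 3 ≤ m + 1 + 1)
    (ρ : Representation ℂ (Matrix.SpecialLinearGroup (Fin (m + 1 + 1)) F) V) (ψ : AddChar F ℂ)
    (hψ : ψ ≠ 1) (w : V) (hw : w ≠ 0) (hwl : w ∈ lamR ρ ψ) :
    finrank ℂ (fixC ρ) + (Fintype.card F ^ (m + 1) - 1) ≤ finrank ℂ V := by
  have h := (finrank_decomp hm ρ ψ hψ).1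
  have hb : 1 ≤ finrank ℂ (lamR ρ ψ) := by
    have : Nontrivial (lamR ρ ψ) := ⟨⟨⟨w, hwl⟩, 0, fun h => hw (congrArg Subtype.val h)⟩⟩
    exact Module.finrank_pos
  rw [h]
  have := Nat.mul_le_mul_left (Fintype.card F ^ (m + 1) - 1) hb
  omega

theorem mem_stab_fixC {m : ℕ} {V : Type*} [AddCommGroup V] [Module ℂ V]
    (ρ : Representation ℂ (Matrix.SpecialLinearGroup (Fin (m + 1 + 1)) F) V)
    (g : Matrix.SpecialLinearGroup (Fin (m + 1 + 1)) F) (c c' : F)
    (hg : (Pi.single (Fin.last (m + 1)) 1 : Fin (m + 1 + 1) → F) ᵥ*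
      (g : Matrix (Fin (m + 1 + 1)) (Fin (m + 1 + 1)) F) = c • Pi.single (Fin.last (m + 1)) 1)
    (hg' : (Pi.single (Fin.last (m + 1)) 1 : Fin (m + 1 + 1) → F) ᵥ*
      ((g⁻¹ : Matrix.SpecialLinearGroup (Fin (m + 1 + 1)) F) :
        Matrix (Fin (m + 1 + 1)) (Fin (m + 1 + 1)) F) = c' • Pi.single (Fin.last (m + 1)) 1) :
    g ∈ stabSub ρ (fixC ρ) :=
  ⟨fixC_stable ρ g c hg, fixC_stable ρ g⁻¹ c' hg'⟩

/-- The torus element `diag(c, 1, c⁻¹)` of `SL₃`. -/
def dsBase (u : Fˣ) : Fin (0 + 1 + 1 + 1) → Fˣ :=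
  fun i => if (i : ℕ) = 0 then u else if (i : ℕ) = 1 then 1 else u⁻¹

theorem dsBase_prod (u : Fˣ) : ∏ i, dsBase u i = 1 := by
  simp [Fin.prod_univ_succ, dsBase]

theorem finrank_fixC_ge_base {V : Type*} [AddCommGroup V] [Module ℂ V] [FiniteDimensional ℂ V]
    (ρ : Representation ℂ (Matrix.SpecialLinearGroup (Fin (0 + 1 + 1 + 1)) F) V) (ψ : AddChar F ℂ)
    (hψ : ψ ≠ 1) (w : V) (hw : w ≠ 0) (hpsi : IsPsiVec ρ ψ w) :
    Fintype.card F - 1 ≤ finrank ℂ (fixC ρ) := by
  have h01 : (0 : Fin (0 + 1 + 1 + 1)) ≠ 1 := by decide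
  have h0l : (0 : Fin (0 + 1 + 1 + 1)) ≠ Fin.last (0 + 1 + 1) := by decide
  have hwC : w ∈ fixC ρ := hpsi.mem_fixC (by norm_num)
  have hmem : ∀ s : F, Matrix.SpecialLinearGroup.transvection h01 s ∈ stabSub ρ (fixC ρ) := by
    intro s
    apply mem_stab_fixC ρ _ 1 1
    · rw [one_smul]
      exact lastRow_transvection h01 h0l s
    · rw [one_smul, Matrix.SpecialLinearGroup.transvection_inv]
      exact lastRow_transvection h01 h0l (-s)
  have hdmem : ∀ u : Fˣ, dg (dsBase u) (dsBase_prod u) ∈ stabSub ρ (fixC ρ) := by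
    intro u
    apply mem_stab_fixC ρ _ _ _ (lastRow_dg _ _)
    rw [dg_inv]
    exact lastRow_dg _ _
  set σ := stabRep ρ (fixC ρ) with hσ
  let x : F → stabSub ρ (fixC ρ) := fun s => ⟨Matrix.SpecialLinearGroup.transvection h01 s, hmem s⟩
  have hx0 : x 0 = 1 := by
    apply Subtype.ext
    exact Matrix.SpecialLinearGroup.transvection_coeff_zero h01
  have hxadd : ∀ a b, x (a + b) = x a * x b := by
    intro a b
    apply Subtype.ext
    exact Matrix.SpecialLinearGroup.transvection_add h01 a b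
  have hT0 : (fun s : F => σ (x s)) 0 = 1 := by
    show σ (x 0) = 1
    rw [hx0, map_one]
  have hTadd : ∀ a b : F, (fun s : F => σ (x s)) (a + b) =
      (fun s : F => σ (x s)) a * (fun s : F => σ (x s)) b := by
    intro a b
    show σ (x (a + b)) = σ (x a) * σ (x b)
    rw [hxadd, map_mul]
  have hτ : ∀ s : F, s ≠ 0 →
      LinearMap.trace ℂ (fixC ρ) ((fun s : F => σ (x s)) s) = σ.character (x 1) := by
    intro s hs
    have h1 : x s = (⟨dg (dsBase (Units.mk0 s hs)) (dsBase_prod _), hdmem _⟩ : stabSub ρ (fixC ρ)) *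
        x 1 * (⟨dg (dsBase (Units.mk0 s hs)) (dsBase_prod _), hdmem _⟩ : stabSub ρ (fixC ρ))⁻¹ := by
      apply Subtype.ext
      show Matrix.SpecialLinearGroup.transvection h01 s =
        dg (dsBase (Units.mk0 s hs)) (dsBase_prod _) * Matrix.SpecialLinearGroup.transvection h01 1 *
          (dg (dsBase (Units.mk0 s hs)) (dsBase_prod _))⁻¹
      rw [dg_conj_transvection]
      congr 1
      simp [dsBase]
    show σ.character (x s) = σ.character (x 1)
    rw [h1, Representation.char_conj]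
  have ha := mult_fix (fun s : F => σ (x s)) hT0 hTadd _ hτ
  have hb := mult_nontriv (fun s : F => σ (x s)) hT0 hTadd _ hτ ψ hψ
  have hnum := (mult_numeric _ _ _ _ _ Fintype.card_pos ha hb).1
  have hb1 : 1 ≤ finrank ℂ (eigSub (fun s : F => σ (x s)) ψ) := by
    have hmemw : (⟨w, hwC⟩ : fixC ρ) ∈ eigSub (fun s : F => σ (x s)) ψ := by
      intro s
      apply Subtype.ext
      show ρ (Matrix.SpecialLinearGroup.transvection h01 s) w = ψ s • w
      have h2 := hpsi 0 1 (by decide) s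
      rw [if_pos (by decide)] at h2
      exact h2
    have : Nontrivial (eigSub (fun s : F => σ (x s)) ψ) :=
      ⟨⟨⟨⟨w, hwC⟩, hmemw⟩, 0, fun h => hw (congrArg
        (fun z : eigSub (fun s : F => σ (x s)) ψ => ((z : fixC ρ) : V)) h)⟩⟩
    exact Module.finrank_pos
  rw [hnum]
  have := Nat.mul_le_mul_left (Fintype.card F - 1) hb1
  omega

universe u

theorem weak_bound (N : ℕ) : ∀ {V : Type u} [AddCommGroup V] [Module ℂ V] [FiniteDimensional ℂ V]
    (ρ : Representation ℂ (Matrix.SpecialLinearGroup (Fin (N + 1 + 1 + 1)) F) V) (ψ : AddChar F ℂ)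
    (_ : ψ ≠ 1) (w : V) (_ : w ≠ 0) (_ : IsPsiVec ρ ψ w),
    ∑ j ∈ Finset.range (N + 2), (Fintype.card F ^ (j + 1) - 1) ≤ finrank ℂ V := by
  induction N with
  | zero =>
    intro V _ _ _ ρ ψ hψ w hw hpsi
    have h1 := finrank_fixC_ge_base ρ ψ hψ w hw hpsi
    have h2 := finrank_ge_fixC_add (m := 0 + 1) (by norm_num) ρ ψ hψ w hw hpsi.mem_lamR
    simp only [Finset.sum_range_succ, Finset.sum_range_zero, zero_add, pow_one]
    simp only [zero_add] at h2
    omega
  | succ N ih =>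
    intro V _ _ _ ρ ψ hψ w hw hpsi
    have hwC := hpsi.mem_fixC (by omega)
    have h1 := ih (resC ρ) ψ hψ ⟨w, hwC⟩ (by intro h; exact hw (congrArg Subtype.val h))
      (hpsi.resC hwC)
    have h2 := finrank_ge_fixC_add (m := N + 1 + 1) (by omega) ρ ψ hψ w hw hpsi.mem_lamR
    rw [Finset.sum_range_succ]
    have h3 : Fintype.card F ^ (N + 2 + 1) = Fintype.card F ^ (N + 1 + 1 + 1) := rfl
    omega

end Weak

end Cfsg.Agent.H44
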