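import Mathlib
import Cfsg.Agent.H44.SLnLowB
import Cfsg.Agent.H44.SLnArith
import Cfsg.Agent.H4.Burnside

/-!
# The strong lower bound for irreducible representations of `SL_n(q)` with a `ψ`-vector
-/

set_option autoImplicit false

namespace Cfsg.Agent.H44

open Matrix Module

section Strong

variable {F : Type*} [Field F] [Fintype F] [DecidableEq F]

theorem card_ne_ten : Fintype.card F ≠ 10 := by
  intro h
  have hpp := Fintype.isPrimePow_card_of_field (α := F)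
  rw [h, isPrimePow_nat_iff] at hpp
  obtain ⟨p, k, hp, hk, hpk⟩ := hpp
  have h2 : p = 2 := by
    have : 2 ∣ p ^ k := by rw [hpk]; norm_num
    exact ((Nat.prime_dvd_prime_iff_eq Nat.prime_two hp).mp
      (Nat.Prime.dvd_of_dvd_pow Nat.prime_two this)).symm
  have h5 : p = 5 := by
    have : 5 ∣ p ^ k := by rw [hpk]; norm_num
    exact ((Nat.prime_dvd_prime_iff_eq (by norm_num) hp).mp
      (Nat.Prime.dvd_of_dvd_pow (by norm_num) this)).symm
  omega

theorem finrank_dvd_of_lam_one {m : ℕ} {V : Type*} [AddCommGroup V] [Module ℂ V]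
    [FiniteDimensional ℂ V] (hm : 3 ≤ m + 1 + 1)
    (ρ : Representation ℂ (Matrix.SpecialLinearGroup (Fin (m + 1 + 1)) F) V)
    (hirr : ρ.IsIrreducible) (ψ : AddChar F ℂ) (hψ : ψ ≠ 1)
    (hb : finrank ℂ (lamR ρ ψ) = 1) (T : ℕ)
    (hT : T * (Fintype.card F - 1) =
      (Fintype.card F ^ (m + 1 + 1) - 1) * (Fintype.card F ^ (m + 1) - 1)) :
    finrank ℂ V ∣ T * Fintype.card F ^ (m + 1) := by
  haveI := hirr
  obtain ⟨hdec, hchar⟩ := finrank_decomp hm ρ ψ hψ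
  rw [hb, mul_one] at hdec
  rw [hb] at hchar
  have hq : 2 ≤ Fintype.card F := Fintype.one_lt_card
  have hQ : 1 ≤ Fintype.card F ^ (m + 1) := Nat.one_le_pow _ _ (by omega)
  have hcc := card_conj_std (F := F) hm
  have hTeq : (Finset.univ.filter (fun x : Matrix.SpecialLinearGroup (Fin (m + 1 + 1)) F =>
      IsConj (stdTv F (m + 1 + 1) hm) x)).card = T := by
    have e : m + 1 + 1 - 1 = m + 1 := rfl
    rw [e, ← hT] at hcc
    exact Nat.eq_of_mul_eq_mul_right (by omega) hcc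
  have hint := Cfsg.Agent.H4.central_character_isIntegral ρ (stdTv F (m + 1 + 1) hm)
  rw [← Cfsg.Agent.H4.card_filter_isConj, hTeq, hchar] at hint
  have hDpos : 0 < finrank ℂ V := Cfsg.Agent.H4.finrank_pos_of_irreducible ρ
  have hval : (T : ℂ) * ((finrank ℂ (fixC ρ) : ℂ) - ((1 : ℕ) : ℂ)) / (finrank ℂ V : ℂ) =
      (((T : ℚ) * ((finrank ℂ (fixC ρ) : ℚ) - 1) / (finrank ℂ V : ℚ) : ℚ) : ℂ) := by
    push_cast
    ring
  rw [hval] at hint
  obtain ⟨z, hz⟩ := Cfsg.Agent.H4.exists_int_of_isIntegral_ratCast _ hint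
  have hD0 : (finrank ℂ V : ℚ) ≠ 0 := by exact_mod_cast hDpos.ne'
  have hz2 : (z : ℚ) * (finrank ℂ V : ℚ) = (T : ℚ) * ((finrank ℂ (fixC ρ) : ℚ) - 1) := by
    rw [hz]
    field_simp
  have hz3 : z * (finrank ℂ V : ℤ) = (T : ℤ) * ((finrank ℂ (fixC ρ) : ℤ) - 1) := by
    exact_mod_cast hz2
  have h1 : (finrank ℂ (fixC ρ) : ℤ) - 1 =
      (finrank ℂ V : ℤ) - ((Fintype.card F ^ (m + 1) : ℕ) : ℤ) := by
    omega
  rw [h1] at hz3
  have h2 : (finrank ℂ V : ℤ) ∣ ((T * Fintype.card F ^ (m + 1) : ℕ) : ℤ) := by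
    refine ⟨(T : ℤ) - z, ?_⟩
    push_cast
    push_cast at hz3
    linear_combination hz3
  exact_mod_cast h2

/-- The pairs for which the strong bound is proved by the `ψ`-vector method. -/
def Good (n q : ℕ) : Prop := (n = 3 ∧ q ≠ 2 ∧ q ≠ 4) ∨ (n = 4 ∧ q ≠ 2) ∨ 5 ≤ n

/-- The set of eigen-conditions defining `ψ`-vectors. -/
def psiSet (m : ℕ) (ψ : AddChar F ℂ) :
    Set (Matrix.SpecialLinearGroup (Fin (m + 1 + 1)) F × ℂ) :=
  {p | ∃ (i k : Fin (m + 1 + 1)) (hik : i < k) (s : F),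
    p = (Matrix.SpecialLinearGroup.transvection hik.ne s, if (k : ℕ) = 1 then ψ s else 1)}

theorem isPsiVec_iff_psiSet {m : ℕ} {V : Type*} [AddCommGroup V] [Module ℂ V]
    (ρ : Representation ℂ (Matrix.SpecialLinearGroup (Fin (m + 1 + 1)) F) V) (ψ : AddChar F ℂ)
    (w : V) : IsPsiVec ρ ψ w ↔ ∀ p ∈ psiSet m ψ, ρ p.1 w = p.2 • w := by
  constructor
  · rintro h p ⟨i, k, hik, s, rfl⟩
    exact h i k hik s
  · intro h i k hik s
    exact h (_, _) ⟨i, k, hik, s, rfl⟩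

theorem strong_common {m : ℕ} {V : Type*} [AddCommGroup V] [Module ℂ V]
    [FiniteDimensional ℂ V] (hm : 3 ≤ m + 1 + 1)
    (ρ : Representation ℂ (Matrix.SpecialLinearGroup (Fin (m + 1 + 1)) F) V)
    (hirr : ρ.IsIrreducible) (ψ : AddChar F ℂ) (hψ : ψ ≠ 1)
    (hb : finrank ℂ (lamR ρ ψ) ≤ 1) (w : V) (hw : w ≠ 0) (hwl : w ∈ lamR ρ ψ) :
    finrank ℂ V = finrank ℂ (fixC ρ) + (Fintype.card F ^ (m + 1) - 1) ∧
    ∀ T : ℕ, T * (Fintype.card F - 1) =
      (Fintype.card F ^ (m + 1 + 1) - 1) * (Fintype.card F ^ (m + 1) - 1) →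
      finrank ℂ V ∣ T * Fintype.card F ^ (m + 1) := by
  have hb1 : finrank ℂ (lamR ρ ψ) = 1 := by
    have : Nontrivial (lamR ρ ψ) := ⟨⟨⟨w, hwl⟩, 0, fun h => hw (congrArg Subtype.val h)⟩⟩
    have : 0 < finrank ℂ (lamR ρ ψ) := Module.finrank_pos
    omega
  refine ⟨?_, fun T hT => finrank_dvd_of_lam_one hm ρ hirr ψ hψ hb1 T hT⟩
  have h := (finrank_decomp hm ρ ψ hψ).1
  rw [hb1, mul_one] at h
  exact h

universe u

theorem strong_bound (N : ℕ) : ∀ {V : Type u} [AddCommGroup V] [Module ℂ V]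
    [FiniteDimensional ℂ V]
    (ρ : Representation ℂ (Matrix.SpecialLinearGroup (Fin (N + 1 + 1 + 1)) F) V)
    (_ : ρ.IsIrreducible) (ψ : AddChar F ℂ) (_ : ψ ≠ 1) (_ : Good (N + 3) (Fintype.card F))
    (_ : finrank ℂ (lamR ρ ψ) ≤ 1) (w : V) (_ : w ≠ 0) (_ : IsPsiVec ρ ψ w),
    ∑ j ∈ Finset.range (N + 2), Fintype.card F ^ (j + 1) ≤ finrank ℂ V := by
  have hq : 2 ≤ Fintype.card F := Fintype.one_lt_card
  induction N with
  | zero =>
    intro V _ _ _ ρ hirr ψ hψ hgood hb w hw hpsi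
    obtain ⟨hdec, hdvd⟩ := strong_common (m := 0 + 1) (by norm_num) ρ hirr ψ hψ hb w hw
      hpsi.mem_lamR
    have hW := weak_bound 0 ρ ψ hψ w hw hpsi
    have hq24 : Fintype.card F ≠ 2 ∧ Fintype.card F ≠ 4 := by
      unfold Good at hgood
      omega
    obtain ⟨T, hT⟩ : ∃ T, T * (Fintype.card F - 1) =
        (Fintype.card F ^ (0 + 1 + 1 + 1) - 1) * (Fintype.card F ^ (0 + 1 + 1) - 1) :=
      ⟨_, card_conj_std (F := F) (n := 0 + 1 + 1 + 1) (by norm_num)⟩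
    exact base_3 _ _ T hq hq24.1 hq24.2 card_ne_ten hW hT (hdvd T hT)
  | succ N ih =>
    intro V _ _ _ ρ hirr ψ hψ hgood hb w hw hpsi
    obtain ⟨hdec, hdvd⟩ := strong_common (m := N + 1 + 1) (by omega) ρ hirr ψ hψ hb w hw
      hpsi.mem_lamR
    obtain ⟨T, hT⟩ : ∃ T, T * (Fintype.card F - 1) =
        (Fintype.card F ^ (N + 1 + 1 + 1 + 1) - 1) * (Fintype.card F ^ (N + 1 + 1 + 1) - 1) :=
      ⟨_, card_conj_std (F := F) (n := N + 1 + 1 + 1 + 1) (by omega)⟩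
    have hD := hdvd T hT
    by_cases hg : Good (N + 3) (Fintype.card F)
    · have hwC := hpsi.mem_fixC (by omega)
      have hpsiC := hpsi.resC hwC
      obtain ⟨U, hUirr, w', hw'U, hw'0, hw'S⟩ := exists_irr_sub_eig (resC ρ) (psiSet (N + 1) ψ)
        ⟨w, hwC⟩ (fun h => hw (congrArg Subtype.val h)) ((isPsiVec_iff_psiSet _ _ _).mp hpsiC)
      have hpsiU : IsPsiVec U.toRepresentation ψ (⟨w', hw'U⟩ : U.toSubmodule) := by
        rw [isPsiVec_iff_psiSet]
        intro p hp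
        apply Subtype.ext
        exact hw'S p hp
      have hbU : finrank ℂ (lamR U.toRepresentation ψ) ≤ 1 :=
        (finrank_lamR_sub_le ρ ψ U).trans hb
      have h1 := ih U.toRepresentation hUirr ψ hψ hg hbU ⟨w', hw'U⟩
        (fun h => hw'0 (congrArg Subtype.val h)) hpsiU
      have h2 : finrank ℂ U.toSubmodule ≤ finrank ℂ (fixC ρ) := Submodule.finrank_le _
      exact strong_step_arith _ N _ _ T hq (h1.trans h2) hdec hT hD
    · have hW := weak_bound (N + 1) ρ ψ hψ w hw hpsi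
      have hcases : (N = 0 ∧ Fintype.card F = 4) ∨ (N = 1 ∧ Fintype.card F = 2) := by
        unfold Good at hg hgood
        omega
      rcases hcases with ⟨rfl, h4⟩ | ⟨rfl, h2⟩
      · rw [h4] at hW hT hD ⊢
        exact base_44 _ T hW hT hD
      · rw [h2] at hW hT hD ⊢
        exact base_52 _ T hW hT hD

end Strong

end Cfsg.Agent.H44
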