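import Mathlib
import Cfsg.Agent.H44.SLnLowC

/-!
# The minimal degree of `SL_n(q)`: the lower bound
-/

set_option autoImplicit false

namespace Cfsg.Agent.H44

open Matrix Module

section Top

variable {F : Type*} [Field F] {m : ℕ} {V : Type*} [AddCommGroup V] [Module ℂ V]

theorem lamR_stable (ρ : Representation ℂ (Matrix.SpecialLinearGroup (Fin (m + 1 + 1)) F) V)
    (ψ : AddChar F ℂ) (g : Matrix.SpecialLinearGroup (Fin (m + 1 + 1)) F) (c : F) (hc : c ≠ 0)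
    (h0 : ((g⁻¹ : Matrix.SpecialLinearGroup (Fin (m + 1 + 1)) F) :
        Matrix (Fin (m + 1 + 1)) (Fin (m + 1 + 1)) F) *ᵥ (Pi.single 0 1 : Fin (m + 1 + 1) → F) =
      c⁻¹ • Pi.single 0 1)
    (h1 : ∀ φ : Fin (m + 1 + 1) → F,
      (φ ᵥ* (g : Matrix (Fin (m + 1 + 1)) (Fin (m + 1 + 1)) F)) 1 = c * φ 1) :
    ∀ w ∈ lamR ρ ψ, ρ g w ∈ lamR ρ ψ := by
  intro w hw φ
  show ρ (xr φ) (ρ g w) = lamChar ψ φ • ρ g w
  have hdot : (Fin.cons 0 φ : Fin (m + 1 + 1) → F) ⬝ᵥ (Pi.single 0 1 : Fin (m + 1 + 1) → F) = 0 := by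
    rw [dotProduct_single, Fin.cons_zero, zero_mul]
  have hc1 := tv_conj' g (Pi.single 0 1) (Fin.cons 0 φ) hdot (tv_conj_dot g _ _ hdot)
  have hd2 := tv_conj_dot g (Pi.single 0 1) (Fin.cons 0 φ) hdot
  rw [h0] at hd2
  have hd3 : (c⁻¹ • ((Fin.cons 0 φ : Fin (m + 1 + 1) → F) ᵥ*
      (g : Matrix (Fin (m + 1 + 1)) (Fin (m + 1 + 1)) F))) ⬝ᵥ
      (Pi.single 0 1 : Fin (m + 1 + 1) → F) = 0 := by
    rw [smul_dotProduct, ← dotProduct_smul]
    exact hd2
  have hd4 : (c⁻¹ • ((Fin.cons 0 φ : Fin (m + 1 + 1) → F) ᵥ*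
      (g : Matrix (Fin (m + 1 + 1)) (Fin (m + 1 + 1)) F))) 0 = 0 := by
    rw [dotProduct_single, mul_one] at hd3
    exact hd3
  have hconj : g⁻¹ * xr φ * g = xr (Fin.tail (c⁻¹ • ((Fin.cons 0 φ : Fin (m + 1 + 1) → F) ᵥ*
      (g : Matrix (Fin (m + 1 + 1)) (Fin (m + 1 + 1)) F)))) := by
    have h5 : g⁻¹ * xr φ * g = _ := hc1
    rw [h5, tv_congr h0 rfl, tv_smul_left c⁻¹ _ _ _ hd3]
    unfold xr
    apply tv_congr rfl
    conv_lhs => rw [← Fin.cons_self_tail (c⁻¹ • ((Fin.cons 0 φ : Fin (m + 1 + 1) → F) ᵥ*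
      (g : Matrix (Fin (m + 1 + 1)) (Fin (m + 1 + 1)) F)))]
    rw [hd4]
  have h6 : xr φ * g = g * xr (Fin.tail (c⁻¹ • ((Fin.cons 0 φ : Fin (m + 1 + 1) → F) ᵥ*
      (g : Matrix (Fin (m + 1 + 1)) (Fin (m + 1 + 1)) F)))) := by
    rw [← hconj]
    group
  rw [← Module.End.mul_apply, ← map_mul, h6, map_mul, Module.End.mul_apply]
  have h7 : ρ (xr (Fin.tail (c⁻¹ • ((Fin.cons 0 φ : Fin (m + 1 + 1) → F) ᵥ*
      (g : Matrix (Fin (m + 1 + 1)) (Fin (m + 1 + 1)) F))))) w =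
      lamChar ψ (Fin.tail (c⁻¹ • ((Fin.cons 0 φ : Fin (m + 1 + 1) → F) ᵥ*
      (g : Matrix (Fin (m + 1 + 1)) (Fin (m + 1 + 1)) F)))) • w := hw _
  rw [h7, map_smul]
  congr 1
  rw [lamChar_apply, lamChar_apply]
  congr 1
  show (c⁻¹ • ((Fin.cons 0 φ : Fin (m + 1 + 1) → F) ᵥ*
      (g : Matrix (Fin (m + 1 + 1)) (Fin (m + 1 + 1)) F))) (Fin.succ 0) = φ 0
  rw [Pi.smul_apply, smul_eq_mul]
  have h8 := h1 (Fin.cons 0 φ)
  have h9 : (Fin.succ 0 : Fin (m + 1 + 1)) = 1 := rfl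
  rw [h9, h8, ← mul_assoc, inv_mul_cancel₀ hc, one_mul]
  exact Fin.cons_succ _ _ 0

theorem lamR_stable_transv (ρ : Representation ℂ (Matrix.SpecialLinearGroup (Fin (m + 1 + 1)) F) V)
    (ψ : AddChar F ℂ) {a b : Fin (m + 1 + 1)} (hab : a ≠ b) (hb0 : b ≠ 0) (hb1 : b ≠ 1) (s : F) :
    ∀ w ∈ lamR ρ ψ, ρ (Matrix.SpecialLinearGroup.transvection hab s) w ∈ lamR ρ ψ := by
  apply lamR_stable ρ ψ _ 1 one_ne_zero
  · rw [Matrix.SpecialLinearGroup.transvection_inv, ← tv_eq_transvection hab (-s), tv_mulVec,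
      inv_one, one_smul, single_dotProduct, one_mul, Pi.single_eq_of_ne hb0, zero_smul, add_zero]
  · intro φ
    rw [← tv_eq_transvection hab s, vecMul_tv, one_mul, Pi.add_apply, Pi.smul_apply,
      Pi.single_eq_of_ne hb1.symm, smul_zero, add_zero]

theorem lamR_stable_dg (ρ : Representation ℂ (Matrix.SpecialLinearGroup (Fin (m + 1 + 1)) F) V)
    (ψ : AddChar F ℂ) (d : Fin (m + 1 + 1) → Fˣ) (hd : ∏ i, d i = 1) (h10 : d 1 = d 0) :
    ∀ w ∈ lamR ρ ψ, ρ (dg d hd) w ∈ lamR ρ ψ := by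
  apply lamR_stable ρ ψ _ (d 0 : F) (Units.ne_zero _)
  · rw [dg_inv, dg_coe]
    funext i
    rw [Matrix.mulVec_diagonal, Pi.smul_apply, smul_eq_mul]
    by_cases hi : i = 0
    · subst hi
      simp
    · simp [Pi.single_eq_of_ne hi]
  · intro φ
    rw [dg_coe, Matrix.vecMul_diagonal, h10, mul_comm]

theorem exists_smul_of_mem_lamR
    (ρ : Representation ℂ (Matrix.SpecialLinearGroup (Fin (m + 1 + 1)) F) V)
    (ψ : AddChar F ℂ) (hb1 : finrank ℂ (lamR ρ ψ) = 1) (w : V) (hw : w ∈ lamR ρ ψ) (hw0 : w ≠ 0)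
    (v : V) (hv : v ∈ lamR ρ ψ) : ∃ c : ℂ, v = c • w := by
  obtain ⟨c, hc⟩ := (finrank_eq_one_iff_of_nonzero' (⟨w, hw⟩ : lamR ρ ψ)
    (fun h => hw0 (congrArg Subtype.val h))).mp hb1 ⟨v, hv⟩
  exact ⟨c, (congrArg Subtype.val hc).symm⟩

end Top

section Psi

variable {F : Type*} [Field F] [Fintype F] [DecidableEq F]

theorem exists_unit_pow_ne_one (e : ℕ) (he : ¬ (Fintype.card F - 1) ∣ e) :
    ∃ u : Fˣ, u ^ e ≠ 1 := by
  obtain ⟨g, hg⟩ := IsCyclic.exists_ofOrder_eq_natCard (α := Fˣ)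
  refine ⟨g, fun h => he ?_⟩
  have h1 := orderOf_dvd_of_pow_eq_one h
  rw [hg, Nat.card_eq_fintype_card, Fintype.card_units] at h1
  exact h1

/-- The torus element `diag(u, u, u⁻²)` of `SL₃`. -/
def dA (u : Fˣ) : Fin (0 + 1 + 1 + 1) → Fˣ :=
  fun j => if (j : ℕ) = 2 then (u ^ 2)⁻¹ else u

theorem dA_prod (u : Fˣ) : ∏ i, dA u i = 1 := by
  simp [Fin.prod_univ_succ, dA]
  group

/-- The torus element `diag(1, 1, u, u⁻¹)` of `SL₄`. -/
def dB (u : Fˣ) : Fin (1 + 1 + 1 + 1) → Fˣ :=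
  fun j => if (j : ℕ) = 2 then u else if (j : ℕ) = 3 then u⁻¹ else 1

theorem dB_prod (u : Fˣ) : ∏ i, dB u i = 1 := by
  simp [Fin.prod_univ_succ, dB]

theorem psi_of_lam (N : ℕ) {V : Type*} [AddCommGroup V] [Module ℂ V]
    (ρ : Representation ℂ (Matrix.SpecialLinearGroup (Fin (N + 1 + 1 + 1)) F) V)
    (ψ : AddChar F ℂ) (hb1 : finrank ℂ (lamR ρ ψ) = 1) (w : V) (hw : w ∈ lamR ρ ψ) (hw0 : w ≠ 0)
    (hex : ¬ (N = 0 ∧ Fintype.card F = 2) ∧ ¬ (N = 0 ∧ Fintype.card F = 4) ∧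
      ¬ (N = 1 ∧ Fintype.card F = 2) ∧ ¬ (N = 1 ∧ Fintype.card F = 3)) :
    IsPsiVec ρ ψ w := by
  have hq : 2 ≤ Fintype.card F := Fintype.one_lt_card
  have hT : ∀ {a b : Fin (N + 1 + 1 + 1)} (hab : a ≠ b), b ≠ 0 → b ≠ 1 → ∀ s : F,
      ∃ c : ℂ, ρ (Matrix.SpecialLinearGroup.transvection hab s) w = c • w :=
    fun hab hb0 hb1' s => exists_smul_of_mem_lamR ρ ψ hb1 w hw hw0 _
      (lamR_stable_transv ρ ψ hab hb0 hb1' s w hw)
  have hDg : ∀ (d : Fin (N + 1 + 1 + 1) → Fˣ) (hd : ∏ i, d i = 1), d 1 = d 0 →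
      ∃ c : ℂ, ρ (dg d hd) w = c • w :=
    fun d hd h10 => exists_smul_of_mem_lamR ρ ψ hb1 w hw hw0 _
      (lamR_stable_dg ρ ψ d hd h10 w hw)
  have hcomm : ∀ {i j k : Fin (N + 1 + 1 + 1)} (hij : i ≠ j) (hjk : j ≠ k) (hik : i ≠ k),
      j ≠ 0 → j ≠ 1 → k ≠ 0 → k ≠ 1 → ∀ s : F,
      ρ (Matrix.SpecialLinearGroup.transvection hik s) w = w := by
    intro i j k hij hjk hik hj0 hj1 hk0 hk1 s
    obtain ⟨c, hc⟩ := hT hij hj0 hj1 s
    obtain ⟨d, hd⟩ := hT hjk hk0 hk1 1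
    have h := comm_smul_fix ρ _ _ w hw0 c d hc hd
    rw [Matrix.SpecialLinearGroup.transvection_inv, Matrix.SpecialLinearGroup.transvection_inv,
      Cfsg.Agent.H45.transvection_comm_rel hij hjk hik s 1, mul_one] at h
    exact h
  have htorus : ∀ (d : Fin (N + 1 + 1 + 1) → Fˣ) (hd : ∏ i, d i = 1), d 1 = d 0 →
      ∀ {i k : Fin (N + 1 + 1 + 1)} (hik : i ≠ k), k ≠ 0 → k ≠ 1 →
      (d i : F) * (d k : F)⁻¹ ≠ 1 → ∀ s : F,
      ρ (Matrix.SpecialLinearGroup.transvection hik s) w = w := by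
    intro d hd h10 i k hik hk0 hk1 hne s
    obtain ⟨c, hc⟩ := hDg d hd h10
    have he : (d i : F) * (d k : F)⁻¹ - 1 ≠ 0 := sub_ne_zero.mpr hne
    obtain ⟨c', hc'⟩ := hT hik hk0 hk1 (s / ((d i : F) * (d k : F)⁻¹ - 1))
    have h := comm_smul_fix ρ _ _ w hw0 c c' hc hc'
    rw [dg_conj_transvection, Matrix.SpecialLinearGroup.transvection_inv,
      ← Matrix.SpecialLinearGroup.transvection_add] at h
    have h2 : (d i : F) * (s / ((d i : F) * (d k : F)⁻¹ - 1)) * (d k : F)⁻¹ +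
        -(s / ((d i : F) * (d k : F)⁻¹ - 1)) = s := by
      have h3 : (d i : F) * (s / ((d i : F) * (d k : F)⁻¹ - 1)) * (d k : F)⁻¹ +
          -(s / ((d i : F) * (d k : F)⁻¹ - 1)) =
          (s / ((d i : F) * (d k : F)⁻¹ - 1)) * ((d i : F) * (d k : F)⁻¹ - 1) := by ring
      rw [h3, div_mul_cancel₀ _ he]
    rw [h2] at h
    exact h
  intro i k hik s
  by_cases hi0 : i = 0
  · subst hi0
    obtain ⟨j, rfl⟩ : ∃ j : Fin (N + 1 + 1), k = j.succ :=
      ⟨k.pred (ne_of_gt hik), (Fin.succ_pred _ _).symm⟩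
    have h1 := (mem_lamR_iff ρ ψ w).mp hw j s
    have h2 : ((j.succ : Fin (N + 1 + 1 + 1)) : ℕ) = 1 ↔ j = 0 := by
      rw [Fin.val_succ, Fin.ext_iff]
      simp
    simp only [h2]
    exact h1
  · have hi1 : 1 ≤ (i : ℕ) := by
      rcases Nat.eq_zero_or_pos (i : ℕ) with h | h
      · exact absurd (Fin.ext h) hi0
      · exact h
    have hik' : (i : ℕ) < (k : ℕ) := hik
    have hk0 : k ≠ 0 := by
      intro h
      rw [h] at hik'
      simp at hik'
    have hk1 : k ≠ 1 := by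
      intro h
      rw [h] at hik'
      simp at hik'
      omega
    have hkv : ¬ (k : ℕ) = 1 := by omega
    rw [if_neg hkv, one_smul]
    have hklt : (k : ℕ) < N + 1 + 1 + 1 := k.2
    rcases N with _ | _ | N
    · -- n = 3
      have hiv : (i : ℕ) = 1 := by omega
      have hkv2 : (k : ℕ) = 2 := by omega
      obtain ⟨u, hu⟩ := exists_unit_pow_ne_one (F := F) 3 (by
        intro hdvd
        have := Nat.le_of_dvd (by norm_num) hdvd
        have h3 : Fintype.card F - 1 = 1 ∨ Fintype.card F - 1 = 3 := by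
          have : Fintype.card F - 1 ∣ 3 := hdvd
          have hp : Nat.Prime 3 := by norm_num
          exact (Nat.dvd_prime hp).mp this
        omega)
      apply htorus (dA u) (dA_prod u) (by simp [dA]) (ne_of_lt hik) hk0 hk1
      intro h
      apply hu
      apply Units.ext
      simp only [dA, hiv, hkv2] at h
      push_cast at h ⊢
      rw [← h]
      simp
      ring
    · -- n = 4
      by_cases hi2 : (i : ℕ) = 2
      · have hkv3 : (k : ℕ) = 3 := by omega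
        obtain ⟨u, hu⟩ := exists_unit_pow_ne_one (F := F) 2 (by
          intro hdvd
          have h3 : Fintype.card F - 1 = 1 ∨ Fintype.card F - 1 = 2 := by
            have hp : Nat.Prime 2 := by norm_num
            exact (Nat.dvd_prime hp).mp hdvd
          omega)
        apply htorus (dB u) (dB_prod u) (by simp [dB]) (ne_of_lt hik) hk0 hk1
        intro h
        apply hu
        apply Units.ext
        simp only [dB, hi2, hkv3] at h
        push_cast at h ⊢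
        rw [← h]
        simp
        ring
      · have hiv : (i : ℕ) = 1 := by omega
        by_cases hk2 : (k : ℕ) = 2
        · have hj : ∀ x : Fin (0 + 1 + 1 + 1 + 1), (x : ℕ) = 3 →
              ρ (Matrix.SpecialLinearGroup.transvection (ne_of_lt hik) s) w = w := by
            intro j hj
            exact hcomm (j := j) (fun h => by rw [h] at hiv; omega)
              (fun h => by rw [h] at hj; omega) (ne_of_lt hik)
              (fun h => by rw [h] at hj; simp at hj) (fun h => by rw [h] at hj; simp at hj)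
              hk0 hk1 s
          exact hj ⟨3, by omega⟩ rfl
        · have hj : ∀ x : Fin (0 + 1 + 1 + 1 + 1), (x : ℕ) = 2 →
              ρ (Matrix.SpecialLinearGroup.transvection (ne_of_lt hik) s) w = w := by
            intro j hj
            exact hcomm (j := j) (fun h => by rw [h] at hiv; omega)
              (fun h => by rw [h] at hj; omega) (ne_of_lt hik)
              (fun h => by rw [h] at hj; simp at hj) (fun h => by rw [h] at hj; simp at hj)
              hk0 hk1 s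
          exact hj ⟨2, by omega⟩ rfl
    · -- n ≥ 5
      have hj : ∀ x : Fin (N + 1 + 1 + 1 + 1 + 1), 2 ≤ (x : ℕ) → (x : ℕ) ≠ (i : ℕ) →
          (x : ℕ) ≠ (k : ℕ) →
          ρ (Matrix.SpecialLinearGroup.transvection (ne_of_lt hik) s) w = w := by
        intro j hj2 hji hjk
        exact hcomm (j := j) (fun h => hji (by rw [h])) (fun h => hjk (by rw [h]))
          (ne_of_lt hik)
          (fun h => by rw [h] at hj2; simp at hj2) (fun h => by rw [h] at hj2; simp at hj2)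
          hk0 hk1 s
      by_cases h2 : (i : ℕ) ≠ 2 ∧ (k : ℕ) ≠ 2
      · exact hj ⟨2, by omega⟩ (by simp) (by simp; omega) (by simp; omega)
      · by_cases h3 : (i : ℕ) ≠ 3 ∧ (k : ℕ) ≠ 3
        · exact hj ⟨3, by omega⟩ (by simp) (by simp; omega) (by simp; omega)
        · exact hj ⟨4, by omega⟩ (by simp) (by simp; omega) (by simp; omega)

end Psi

section Final

universe u

variable {F : Type*} [Field F] [Fintype F] [DecidableEq F]

theorem transvection_isConj_std {n : ℕ} (hn : 3 ≤ n) {i j : Fin n} (hij : i ≠ j) (s : F)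
    (hs : s ≠ 0) : IsConj (Matrix.SpecialLinearGroup.transvection hij s) (stdTv F n hn) := by
  rw [← tv_eq_transvection hij s]
  apply tv_isConj_std
  · intro h
    have := congrFun h i
    simp [hs] at this
  · intro h
    have := congrFun h j
    simp at this

theorem rep_trivial_of_fixC_top (N : ℕ) {V : Type*} [AddCommGroup V] [Module ℂ V]
    (ρ : Representation ℂ (Matrix.SpecialLinearGroup (Fin (N + 1 + 1 + 1)) F) V)
    (h : fixC ρ = ⊤) : ∀ g, ρ g = 1 := by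
  have hn : 3 ≤ N + 1 + 1 + 1 := by omega
  have h0 : ρ (Matrix.SpecialLinearGroup.transvection
      (Fin.castSucc_lt_last (0 : Fin (N + 1 + 1))).ne (1 : F)) = 1 := by
    apply LinearMap.ext
    intro v
    have hv : v ∈ fixC ρ := by rw [h]; exact Submodule.mem_top
    exact (mem_fixC_iff ρ v).mp hv 0 1
  have hstd : ρ (stdTv F (N + 1 + 1 + 1) hn) = 1 := by
    obtain ⟨c, hc⟩ := isConj_iff.mp (transvection_isConj_std hn
      (Fin.castSucc_lt_last (0 : Fin (N + 1 + 1))).ne (1 : F) one_ne_zero)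
    rw [← hc, map_mul, map_mul, h0, mul_one, ← map_mul, mul_inv_cancel, map_one]
  have htr : ∀ {i j : Fin (N + 1 + 1 + 1)} (hij : i ≠ j) (s : F),
      ρ (Matrix.SpecialLinearGroup.transvection hij s) = 1 := by
    intro i j hij s
    by_cases hs : s = 0
    · rw [hs, Matrix.SpecialLinearGroup.transvection_coeff_zero, map_one]
    · obtain ⟨c, hc⟩ := isConj_iff.mp (transvection_isConj_std hn hij s hs).symm
      rw [← hc, map_mul, map_mul, hstd, mul_one, ← map_mul, mul_inv_cancel, map_one]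
  intro g
  have hg : g ∈ Cfsg.Agent.H45.elemSubgroup (Fin (N + 1 + 1 + 1)) F := by
    rw [Cfsg.Agent.H45.elemSubgroup_eq_top]
    exact Subgroup.mem_top g
  unfold Cfsg.Agent.H45.elemSubgroup at hg
  induction hg using Subgroup.closure_induction with
  | mem x hx =>
    obtain ⟨i, j, hij, c, rfl⟩ := hx
    exact htr hij c
  | one => exact map_one ρ
  | mul x y _ _ hx hy => rw [map_mul, hx, hy, mul_one]
  | inv x _ hx =>
    have h1 : ρ x⁻¹ * ρ x = 1 := by rw [← map_mul, inv_mul_cancel, map_one]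
    rw [hx, mul_one] at h1
    exact h1

theorem two_mul_ge (q N : ℕ) (hq : 2 ≤ q) :
    ∑ j ∈ Finset.range (N + 2), q ^ (j + 1) + 2 ≤ 2 * q ^ (N + 2) := by
  obtain ⟨r, rfl⟩ : ∃ r, q = r + 1 := ⟨q - 1, by omega⟩
  have hr : 1 ≤ r := by omega
  have hB := geom_B_aux (r + 1) (N + 2) (by omega)
  simp only [Nat.add_sub_cancel] at hB
  rw [pow_succ] at hB
  have hQ : 1 ≤ (r + 1) ^ (N + 2) := Nat.one_le_pow _ _ (by omega)
  by_contra hc
  push Not at hc
  have h3 : r * (2 * (r + 1) ^ (N + 2)) ≤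
      r * (∑ j ∈ Finset.range (N + 2), (r + 1) ^ (j + 1) + 1) :=
    Nat.mul_le_mul_left r (by omega)
  have h4 : 1 * (r + 1) ^ (N + 2) ≤ r * (r + 1) ^ (N + 2) := Nat.mul_le_mul_right _ hr
  nlinarith

theorem minDeg_eq_sum (q N : ℕ) (hq : 2 ≤ q) :
    (q ^ (N + 1 + 1 + 1) - q) / (q - 1) = ∑ j ∈ Finset.range (N + 2), q ^ (j + 1) := by
  have hB := geom_B_aux q (N + 2) (by omega)
  apply Nat.div_eq_of_eq_mul_right (by omega)
  have e : q ^ (N + 2 + 1) = q ^ (N + 1 + 1 + 1) := rfl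
  rw [← e, ← hB]
  omega

theorem min_degree_lower (N : ℕ) {V : Type u} [AddCommGroup V] [Module ℂ V]
    [FiniteDimensional ℂ V]
    (ρ : Representation ℂ (Matrix.SpecialLinearGroup (Fin (N + 1 + 1 + 1)) F) V)
    (hirr : ρ.IsIrreducible) (hk : 2 ≤ finrank ℂ V)
    (hex : ¬ (N = 0 ∧ Fintype.card F = 2) ∧ ¬ (N = 0 ∧ Fintype.card F = 4) ∧
      ¬ (N = 1 ∧ Fintype.card F = 2) ∧ ¬ (N = 1 ∧ Fintype.card F = 3)) :
    ∑ j ∈ Finset.range (N + 2), Fintype.card F ^ (j + 1) ≤ finrank ℂ V := by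
  have hq : 2 ≤ Fintype.card F := Fintype.one_lt_card
  obtain ⟨ψ, hψ1⟩ := (AddChar.exists_apply_ne_zero (α := F) (a := 1)).mpr one_ne_zero
  have hψ : ψ ≠ 1 := AddChar.ne_one_iff.mpr ⟨1, hψ1⟩
  obtain ⟨hdec, -⟩ := finrank_decomp (m := N + 1) (by omega) ρ ψ hψ
  rcases Nat.lt_or_ge (finrank ℂ (lamR ρ ψ)) 2 with hb | hb
  · rcases Nat.eq_zero_or_pos (finrank ℂ (lamR ρ ψ)) with hb0 | hbpos
    · exfalso
      rw [hb0, mul_zero, add_zero] at hdec
      have htop : fixC ρ = ⊤ := Submodule.eq_top_of_finrank_eq hdec.symm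
      have := finrank_le_one_of_trivial ρ hirr (rep_trivial_of_fixC_top N ρ htop)
      omega
    · have hb1 : finrank ℂ (lamR ρ ψ) = 1 := by omega
      have : Nontrivial (lamR ρ ψ) := Module.nontrivial_of_finrank_pos hbpos
      obtain ⟨w, hw⟩ := exists_ne (0 : lamR ρ ψ)
      have hw0 : (w : V) ≠ 0 := fun h => hw (Subtype.ext h)
      have hpsi := psi_of_lam N ρ ψ hb1 w.1 w.2 hw0 hex
      exact strong_bound N ρ hirr ψ hψ (by unfold Good; omega) (by omega) w.1 hw0 hpsi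
  · have h2 := two_mul_ge (Fintype.card F) N hq
    have e : Fintype.card F ^ (N + 2) = Fintype.card F ^ (N + 1 + 1) := rfl
    have hQ : 1 ≤ Fintype.card F ^ (N + 1 + 1) := Nat.one_le_pow _ _ (by omega)
    have h1 : (Fintype.card F ^ (N + 1 + 1) - 1) * 2 ≤
        (Fintype.card F ^ (N + 1 + 1) - 1) * finrank ℂ (lamR ρ ψ) :=
      Nat.mul_le_mul_left _ hb
    omega

end Final

end Cfsg.Agent.H44
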