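import Mathlib
import Cfsg.Agent.H44.SpLDefs

/-!
# S2333 pieces SPL-R1 and SPL-R3 (helper44): the decomposition
`finrank V = finrank C_V(Z) + Σ_{p.2 ≠ 0} finrank E_p`.
-/

set_option autoImplicit false

namespace Cfsg.Agent.H44.SpL

open Matrix Module Cfsg.Agent.H17 Cfsg.Agent.H44

universe u v w

section Lin

variable {F : Type u} [Field F] [Fintype F] {A : Type*} [AddCommGroup A] [Module F A] [Fintype A]

theorem sum_psi_lin_inv (ψ : AddChar F ℂ) (hψ : ψ.IsPrimitive) (L : A →ₗ[F] F) (hL : L ≠ 0) :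
    ∑ a, (ψ (L a))⁻¹ = 0 := by
  obtain ⟨a₀, ha₀⟩ : ∃ a, L a ≠ 0 := by
    by_contra h
    push Not at h
    exact hL (LinearMap.ext h)
  have hμ : (ψ.compAddMonoidHom L.toAddMonoidHom) ≠ 1 := by
    intro h1
    apply hψ ha₀
    apply DFunLike.ext
    intro t
    have h3 := DFunLike.congr_fun h1 (t • a₀)
    simp only [AddChar.compAddMonoidHom_apply, LinearMap.toAddMonoidHom_coe, map_smul,
      smul_eq_mul, AddChar.one_apply] at h3
    rw [AddChar.mulShift_apply, AddChar.one_apply, mul_comm]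
    exact h3
  have h4 := sum_addChar_inv (ψ.compAddMonoidHom L.toAddMonoidHom) hμ
  simpa using h4

end Lin

section Form

variable {F : Type u} [Field F] (m : ℕ)

theorem sympForm_nondeg_right (u : Fin m ⊕ Fin m → F)
    (h : ∀ v, Cfsg.sympForm m F u v = 0) : u = 0 := by
  classical
  funext x
  have h1 := h ((Matrix.J (Fin m) F) *ᵥ (-(Pi.single x 1)))
  simp only [Cfsg.sympForm, Matrix.mulVec_mulVec, Matrix.J_squared, Matrix.mulVec_neg,
    Matrix.neg_mulVec, Matrix.one_mulVec, neg_neg, dotProduct_single, mul_one] at h1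
  simpa using h1

theorem sympForm_nondeg_left (u : Fin m ⊕ Fin m → F)
    (h : ∀ v, Cfsg.sympForm m F v u = 0) : u = 0 := by
  apply sympForm_nondeg_right m u
  intro v
  rw [sympForm_swap, h v, neg_zero]

/-- `a ↦ f(a.1, p.1) + p.2 * a.2` as a linear map. -/
noncomputable def lin1 (p : (Fin m ⊕ Fin m → F) × F) : ((Fin m ⊕ Fin m → F) × F) →ₗ[F] F :=
  ((sympBilin m F).flip p.1) ∘ₗ LinearMap.fst F _ _ + p.2 • LinearMap.snd F _ _

theorem lin1_apply (p a : (Fin m ⊕ Fin m → F) × F) :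
    lin1 m p a = Cfsg.sympForm m F a.1 p.1 + p.2 * a.2 := by
  simp [lin1, sympBilin_apply]

/-- `p ↦ f(a.1, p.1) + p.2 * a.2` as a linear map. -/
noncomputable def lin2 (a : (Fin m ⊕ Fin m → F) × F) : ((Fin m ⊕ Fin m → F) × F) →ₗ[F] F :=
  (sympBilin m F a.1) ∘ₗ LinearMap.fst F _ _ + a.2 • LinearMap.snd F _ _

theorem lin2_apply (a p : (Fin m ⊕ Fin m → F) × F) :
    lin2 m a p = Cfsg.sympForm m F a.1 p.1 + p.2 * a.2 := by
  simp [lin2, sympBilin_apply, mul_comm]

theorem lin1_ne_zero (p : (Fin m ⊕ Fin m → F) × F) (hp : p ≠ 0) : lin1 m p ≠ 0 := by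
  intro h
  apply hp
  have h1 : ∀ a : (Fin m ⊕ Fin m → F) × F, Cfsg.sympForm m F a.1 p.1 + p.2 * a.2 = 0 := by
    intro a
    rw [← lin1_apply, h]
    rfl
  have h2 : p.2 = 0 := by
    have := h1 (0, 1)
    simpa [sympForm_zero_left] using this
  have h3 : p.1 = 0 := by
    apply sympForm_nondeg_left
    intro v
    have := h1 (v, 0)
    simpa using this
  exact Prod.ext h3 h2

theorem lin2_ne_zero (a : (Fin m ⊕ Fin m → F) × F) (ha : a ≠ 0) : lin2 m a ≠ 0 := by
  intro h
  apply ha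
  have h1 : ∀ p : (Fin m ⊕ Fin m → F) × F, Cfsg.sympForm m F a.1 p.1 + p.2 * a.2 = 0 := by
    intro p
    rw [← lin2_apply, h]
    rfl
  have h2 : a.2 = 0 := by
    have := h1 (0, 1)
    simpa [sympForm_zero_right] using this
  have h3 : a.1 = 0 := by
    apply sympForm_nondeg_right
    intro v
    have := h1 (v, 0)
    simpa using this
  exact Prod.ext h3 h2

/-- `chi p` as an additive character. -/
noncomputable def chiA (ψ : AddChar F ℂ) (p : (Fin m ⊕ Fin m → F) × F) :
    AddChar ((Fin m ⊕ Fin m → F) × F) ℂ :=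
  ψ.compAddMonoidHom (lin1 m p).toAddMonoidHom

theorem chiA_apply (ψ : AddChar F ℂ) (p a : (Fin m ⊕ Fin m → F) × F) :
    chiA m ψ p a = chi m ψ p a := by
  simp [chiA, chi, lin1_apply]

theorem chiA_coe (ψ : AddChar F ℂ) (p : (Fin m ⊕ Fin m → F) × F) :
    ((chiA m ψ p : AddChar ((Fin m ⊕ Fin m → F) × F) ℂ) : (Fin m ⊕ Fin m → F) × F → ℂ) =
      chi m ψ p := by
  funext a
  exact chiA_apply m ψ p a

end Form

section Key

variable {F : Type u} [Field F] [Fintype F] (m : ℕ) {G : Type w} [Group G] {V : Type v}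
  [AddCommGroup V] [Module ℂ V] [FiniteDimensional ℂ V]

/-- The fixed space of the centre `y (0, ·)`. -/
def czSub (ρ : Representation ℂ G V) (y : (Fin m ⊕ Fin m → F) × F → G) : Submodule ℂ V :=
  eigSub (fun c : F => ρ (y ((0 : Fin m ⊕ Fin m → F), c))) (fun _ => (1 : ℂ))

open scoped Classical in
theorem key_decomp (ρ : Representation ℂ G V) (y : (Fin m ⊕ Fin m → F) × F → G)
    (hy : ∀ p p', y (p + p') = y p * y p') (ψ : AddChar F ℂ) (hψ : ψ.IsPrimitive) :
    finrank ℂ V = finrank ℂ (czSub m ρ y) +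
      ∑ p ∈ (Finset.univ : Finset ((Fin m ⊕ Fin m → F) × F)).filter (fun p => p.2 ≠ 0),
        finrank ℂ (eigSub (fun a => ρ (y a)) (chi m ψ p)) := by
  have hy0 : y 0 = 1 := by
    have h := hy 0 0
    rw [add_zero] at h
    exact (mul_eq_left (a := y 0) (b := y 0)).mp h.symm
  have hTadd : ∀ a b : (Fin m ⊕ Fin m → F) × F, (fun a => ρ (y a)) (a + b) =
      (fun a => ρ (y a)) a * (fun a => ρ (y a)) b := by
    intro a b
    simp only [hy, map_mul]
  have hT'add : ∀ c d : F, (fun c : F => ρ (y ((0 : Fin m ⊕ Fin m → F), c))) (c + d) =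
      (fun c : F => ρ (y ((0 : Fin m ⊕ Fin m → F), c))) c *
        (fun c : F => ρ (y ((0 : Fin m ⊕ Fin m → F), c))) d := by
    intro c d
    simp only
    rw [← map_mul, ← hy]
    simp
  have hcardA : (Fintype.card ((Fin m ⊕ Fin m → F) × F) : ℂ) ≠ 0 := by
    exact_mod_cast Fintype.card_ne_zero
  have hcardF : (Fintype.card F : ℂ) ≠ 0 := by
    exact_mod_cast Fintype.card_ne_zero
  -- multiplicity formula for each p
  have hmult : ∀ p : (Fin m ⊕ Fin m → F) × F,
      (Fintype.card ((Fin m ⊕ Fin m → F) × F) : ℂ) *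
        (finrank ℂ (eigSub (fun a => ρ (y a)) (chi m ψ p)) : ℂ) =
      ∑ a, (chi m ψ p a)⁻¹ * LinearMap.trace ℂ V (ρ (y a)) := by
    intro p
    have h := mult_formula (fun a => ρ (y a)) hTadd (chiA m ψ p)
    rw [chiA_coe] at h
    rw [h]
  -- (E1)
  have hsum1 : ∀ a : (Fin m ⊕ Fin m → F) × F, ∑ p, (chi m ψ p a)⁻¹ =
      if a = 0 then (Fintype.card ((Fin m ⊕ Fin m → F) × F) : ℂ) else 0 := by
    intro a
    split_ifs with ha
    · subst ha
      simp [chi, sympForm_zero_left]
    · have h := sum_psi_lin_inv ψ hψ (lin2 m a) (lin2_ne_zero m a ha)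
      rw [← h]
      apply Finset.sum_congr rfl
      intro p _
      rw [lin2_apply]
      rfl
  have hE1 : (finrank ℂ V : ℂ) =
      ∑ p, (finrank ℂ (eigSub (fun a => ρ (y a)) (chi m ψ p)) : ℂ) := by
    apply mul_left_cancel₀ hcardA
    rw [Finset.mul_sum]
    simp only [hmult]
    rw [Finset.sum_comm]
    simp only [← Finset.sum_mul, hsum1]
    rw [Finset.sum_eq_single 0]
    · simp only [if_true]
      rw [hy0, map_one]
      have h3 : (1 : V →ₗ[ℂ] V) = LinearMap.id := rfl
      rw [h3, LinearMap.trace_id]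
    · intro b _ hb
      simp [hb]
    · intro h
      exact absurd (Finset.mem_univ _) h
  -- (E2)
  have hsum2 : ∀ a : (Fin m ⊕ Fin m → F) × F,
      ∑ w' : Fin m ⊕ Fin m → F, (chi m ψ (w', 0) a)⁻¹ =
      if a.1 = 0 then (Fintype.card (Fin m ⊕ Fin m → F) : ℂ) else 0 := by
    intro a
    split_ifs with ha
    · simp [chi, ha, sympForm_zero_left]
    · have hne : sympBilin m F a.1 ≠ 0 := by
        intro h0
        apply ha
        apply sympForm_nondeg_right
        intro v
        rw [← sympBilin_apply, h0]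
        rfl
      have h := sum_psi_lin_inv ψ hψ (sympBilin m F a.1) hne
      rw [← h]
      apply Finset.sum_congr rfl
      intro p _
      simp [chi, sympBilin_apply]
  have hE2 : (finrank ℂ (czSub m ρ y) : ℂ) =
      ∑ w' : Fin m ⊕ Fin m → F,
        (finrank ℂ (eigSub (fun a => ρ (y a)) (chi m ψ (w', 0))) : ℂ) := by
    apply mul_left_cancel₀ hcardA
    rw [Finset.mul_sum]
    simp only [hmult]
    rw [Finset.sum_comm]
    simp only [← Finset.sum_mul, hsum2]
    rw [Fintype.sum_prod_type]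
    rw [Finset.sum_eq_single 0]
    · simp only [if_true]
      have h := mult_formula (fun c : F => ρ (y ((0 : Fin m ⊕ Fin m → F), c))) hT'add
        (1 : AddChar F ℂ)
      have h1 : ((1 : AddChar F ℂ) : F → ℂ) = fun _ => (1 : ℂ) := by
        ext a
        simp
      rw [h1] at h
      simp only [inv_one, one_mul] at h
      rw [← Finset.mul_sum, ← h, Fintype.card_prod]
      push_cast
      rw [czSub]
      ring
    · intro b _ hb
      simp [hb]
    · intro h
      exact absurd (Finset.mem_univ _) h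
  -- combine
  have hE3 : (finrank ℂ V : ℂ) = ((finrank ℂ (czSub m ρ y) +
      ∑ p ∈ (Finset.univ : Finset ((Fin m ⊕ Fin m → F) × F)).filter (fun p => p.2 ≠ 0),
        finrank ℂ (eigSub (fun a => ρ (y a)) (chi m ψ p)) : ℕ) : ℂ) := by
    rw [hE1, Nat.cast_add, hE2, Nat.cast_sum]
    rw [← Finset.sum_filter_add_sum_filter_not Finset.univ
      (fun p : (Fin m ⊕ Fin m → F) × F => p.2 = 0)]
    congr 1
    rw [Finset.sum_filter, Fintype.sum_prod_type]
    apply Finset.sum_congr rfl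
    intro w' _
    rw [Finset.sum_ite_eq' Finset.univ (0 : F)
      (fun s => (finrank ℂ (eigSub (fun a => ρ (y a)) (chi m ψ (w', s))) : ℂ))]
    simp
  exact_mod_cast hE3

end Key

open scoped Classical in
/-- SPL-R1. -/
theorem r1 : StR1.{u, v, w} := by
  intro F _ _ m G _ V _ _ _ ρ y hy ψ hψ C hC
  have hkey := key_decomp m ρ y hy ψ hψ
  have h1 : finrank ℂ C ≤ finrank ℂ (czSub m ρ y) := by
    apply Submodule.finrank_mono
    intro v hv c
    rw [one_smul]
    exact hC v hv c
  have h2 : Set.ncard {p | p ∈ Xset m ρ y ψ ∧ p.2 ≠ 0} ≤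
      ∑ p ∈ (Finset.univ : Finset ((Fin m ⊕ Fin m → F) × F)).filter (fun p => p.2 ≠ 0),
        finrank ℂ (eigSub (fun a => ρ (y a)) (chi m ψ p)) := by
    rw [Set.ncard_eq_toFinset_card']
    rw [Finset.card_eq_sum_ones]
    have hsub : Set.toFinset {p | p ∈ Xset m ρ y ψ ∧ p.2 ≠ 0} ⊆
        (Finset.univ : Finset ((Fin m ⊕ Fin m → F) × F)).filter (fun p => p.2 ≠ 0) := by
      intro p hp
      rw [Set.mem_toFinset] at hp
      simp only [Finset.mem_filter, Finset.mem_univ, true_and]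
      exact hp.2
    refine le_trans ?_ (Finset.sum_le_sum_of_subset hsub)
    apply Finset.sum_le_sum
    intro p hp
    rw [Set.mem_toFinset] at hp
    obtain ⟨v, hv0, hv⟩ := hp.1
    rw [Nat.succ_le_iff, Module.finrank_pos_iff]
    exact ⟨⟨⟨v, hv⟩, 0, fun h => hv0 (congrArg Subtype.val h)⟩⟩
  omega

open scoped Classical in
/-- SPL-R3. -/
theorem r3 : StR3.{u, v, w} := by
  intro F _ _ m G _ V _ _ _ ρ y hy ψ hψ hnt
  by_contra hcon
  push Not at hcon
  have hkey := key_decomp m ρ y hy ψ hψ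
  have h0 : ∑ p ∈ (Finset.univ : Finset ((Fin m ⊕ Fin m → F) × F)).filter (fun p => p.2 ≠ 0),
        finrank ℂ (eigSub (fun a => ρ (y a)) (chi m ψ p)) = 0 := by
    apply Finset.sum_eq_zero
    intro p hp
    simp only [Finset.mem_filter, Finset.mem_univ, true_and] at hp
    by_contra hne
    have hpos : 0 < finrank ℂ (eigSub (fun a => ρ (y a)) (chi m ψ p)) := Nat.pos_of_ne_zero hne
    rw [Module.finrank_pos_iff] at hpos
    obtain ⟨x, hx⟩ := exists_ne (0 : eigSub (fun a => ρ (y a)) (chi m ψ p))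
    apply hp
    apply hcon p
    exact ⟨x.1, fun h => hx (Subtype.ext h), x.2⟩
  rw [h0, add_zero] at hkey
  have htop : czSub m ρ y = ⊤ := Submodule.eq_top_of_finrank_eq hkey.symm
  obtain ⟨c, hc⟩ := hnt
  apply hc
  apply LinearMap.ext
  intro v
  have hv : v ∈ czSub m ρ y := by
    rw [htop]
    exact Submodule.mem_top
  have := hv c
  simpa using this

example : StR1.{u, v, w} := r1
example : StR3.{u, v, w} := r3

end Cfsg.Agent.H44.SpL
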