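import Mathlib
import Cfsg.Agent.H44.SpLDefs
import Cfsg.Agent.H44.SpLRep
import Cfsg.Agent.H17.SpPerfect
import Cfsg.Agent.H89.SpLChar

/-!
# S2333 piece SPL-B2 (helper44)
-/

set_option autoImplicit false

namespace Cfsg.Agent.H44.SpL

open Matrix Module Cfsg.Agent.H17 Cfsg.Agent.H44

universe u v w

section EmbW

variable {F : Type u} [Field F] (m : ℕ)

theorem embW_smul (t : F) (a : Fin m ⊕ Fin m → F) : embW m (t • a) = t • embW m a := by
  funext x
  rcases x with j | j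
  · refine Fin.cases ?_ (fun j' => ?_) j <;> simp [embW]
  · refine Fin.cases ?_ (fun j' => ?_) j <;> simp [embW]

end EmbW

section Proj

variable {F : Type u} [Field F] [Fintype F] (m : ℕ) {G : Type w} [Group G] {V : Type v}
  [AddCommGroup V] [Module ℂ V]

theorem eigProj_self' (ρ : Representation ℂ G V) (y : (Fin m ⊕ Fin m → F) × F → G)
    (hy : ∀ p p', y (p + p') = y p * y p') (ψ : AddChar F ℂ)
    (p : (Fin m ⊕ Fin m → F) × F) (x : V) (hx : ∀ a, ρ (y a) x = chi m ψ p a • x) :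
    eigProj (fun a => ρ (y a)) (chi m ψ p) x = x := by
  have hTadd : ∀ a b : (Fin m ⊕ Fin m → F) × F, (fun a => ρ (y a)) (a + b) =
      (fun a => ρ (y a)) a * (fun a => ρ (y a)) b := by
    intro a b
    simp only [hy, map_mul]
  have h := eigProj_isProj (fun a => ρ (y a)) hTadd (chiA m ψ p)
  rw [chiA_coe] at h
  exact h.map_id x hx

theorem eigProj_other (ρ : Representation ℂ G V) (y : (Fin m ⊕ Fin m → F) × F → G)
    (ψ : AddChar F ℂ) (hψ : ψ.IsPrimitive)
    (p p' : (Fin m ⊕ Fin m → F) × F) (hne : p ≠ p') (x : V)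
    (hx : ∀ a, ρ (y a) x = chi m ψ p' a • x) :
    eigProj (fun a => ρ (y a)) (chi m ψ p) x = 0 := by
  simp only [eigProj, LinearMap.smul_apply, LinearMap.sum_apply, hx, smul_smul]
  rw [← Finset.sum_smul]
  have h0 : ∑ a, (chi m ψ p a)⁻¹ * chi m ψ p' a = 0 := by
    have h := sum_psi_lin_inv ψ hψ (lin1 m (p - p')) (lin1_ne_zero m _ (sub_ne_zero.mpr hne))
    rw [← h]
    apply Finset.sum_congr rfl
    intro a _
    rw [lin1_apply]
    simp only [chi]
    have hZ : Cfsg.sympForm m F a.1 (p - p').1 + (p - p').2 * a.2 =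
        (Cfsg.sympForm m F a.1 p.1 + p.2 * a.2) - (Cfsg.sympForm m F a.1 p'.1 + p'.2 * a.2) := by
      rw [Prod.fst_sub, Prod.snd_sub, sympForm_sub_right]
      ring
    rw [hZ]
    have h3 : ψ (Cfsg.sympForm m F a.1 p.1 + p.2 * a.2) =
        ψ ((Cfsg.sympForm m F a.1 p.1 + p.2 * a.2) -
          (Cfsg.sympForm m F a.1 p'.1 + p'.2 * a.2)) *
          ψ (Cfsg.sympForm m F a.1 p'.1 + p'.2 * a.2) := by
      rw [← AddChar.map_add_eq_mul]
      congr 1
      ring
    rw [h3, mul_inv, mul_assoc, inv_mul_cancel₀ (addChar_ne_zero ψ _), mul_one]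
  rw [h0, zero_smul, smul_zero]

end Proj

/-- SPL-B2. -/
theorem b2 (hG1 : StG1.{u}) (hG2 : StG2.{u}) (hChiT : StChiT.{u}) : StB2.{u, v} := by
  intro F _ _ m h2 i V _ _ _ ρ ψ hψ hψ2 w s hs hwi hX
  classical
  obtain ⟨hy_add, hy0⟩ := hG1 (F := F) m h2
  obtain ⟨v, hv0, hv⟩ := hX
  obtain ⟨r, hr⟩ := Cfsg.Agent.H89.SpL.sq_surjective h2 s
  simp only at hr
  have hr0 : r ≠ 0 := by
    rintro rfl
    apply hs
    rw [← hr]
    simp
  have hx : ∀ c : F,
      (c ≠ 0 → eigProj (fun a => ρ (yel m a)) (chi m ψ (w, s))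
        (ρ (spTransv (m + 1) (embW m (Pi.single (Sum.inl i) 1)) c) v) = 0) ∧
      (∀ c₀ : F, ρ (yel m ((0 : Fin m ⊕ Fin m → F), c₀))
        (ρ (spTransv (m + 1) (embW m (Pi.single (Sum.inl i) 1)) c) v) =
        ψ (s * c₀) • ρ (spTransv (m + 1) (embW m (Pi.single (Sum.inl i) 1)) c) v) := by
    intro c
    obtain ⟨c', hc'⟩ := Cfsg.Agent.H89.SpL.sq_surjective h2 c
    simp only at hc'
    have hT : spTransv (m + 1) (embW m (Pi.single (Sum.inl i) 1)) c =
        spTransv (m + 1) (embW m (c' • (Pi.single (Sum.inl i) 1 : Fin m ⊕ Fin m → F))) 1 := by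
      rw [embW_smul, spTransv_smul, ← hc']
      congr 1
      ring
    have hk : (0 : F) ^ 2 = kap m (c' • (Pi.single (Sum.inl i) 1 : Fin m ⊕ Fin m → F)) := by
      simp [kap]
    have hf : Cfsg.sympForm m F (c' • (Pi.single (Sum.inl i) 1 : Fin m ⊕ Fin m → F)) w = 0 := by
      rw [sympForm_smul_left, sympForm_eq_sum]
      simp [Pi.single_apply, hwi]
    have hmove := eig_move m ρ (yel m) ψ
      (spTransv (m + 1) (embW m (c' • (Pi.single (Sum.inl i) 1 : Fin m ⊕ Fin m → F))) 1)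
      (fun a => (a.1 + Cfsg.sympForm m F a.1 (c' • (Pi.single (Sum.inl i) 1 : Fin m ⊕ Fin m → F)) •
          (c' • (Pi.single (Sum.inl i) 1 : Fin m ⊕ Fin m → F)),
        a.2 + (Cfsg.sympForm m F a.1 (c' • (Pi.single (Sum.inl i) 1 : Fin m ⊕ Fin m → F))) ^ 2 *
          (kap m (c' • (Pi.single (Sum.inl i) 1 : Fin m ⊕ Fin m → F)) + 1)))
      (w, s)
      (w + (Cfsg.sympForm m F (c' • (Pi.single (Sum.inl i) 1 : Fin m ⊕ Fin m → F)) w +
          r * (0 + 1)) • (c' • (Pi.single (Sum.inl i) 1 : Fin m ⊕ Fin m → F)), s)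
      (fun a => hG2 m h2 (c' • (Pi.single (Sum.inl i) 1 : Fin m ⊕ Fin m → F)) a.1 a.2)
      (fun a => hChiT m h2 ψ hψ2 w (c' • (Pi.single (Sum.inl i) 1 : Fin m ⊕ Fin m → F)) s r 0
        hr hk a.1 a.2) v hv
    rw [hT]
    constructor
    · intro hc
      refine eigProj_other m ρ (yel m) ψ hψ (w, s) _ ?_ _ hmove
      intro heq
      have h1 := congrArg (fun p : (Fin m ⊕ Fin m → F) × F => p.1 (Sum.inl i)) heq
      simp only [hf, zero_add, mul_one, Pi.add_apply, Pi.smul_apply, Pi.single_eq_same,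
        smul_eq_mul, left_eq_add] at h1
      rcases mul_eq_zero.mp h1 with h | h
      · exact hr0 h
      · apply hc
        rw [← hc', h]
        simp
    · intro c₀
      have h3 := hmove (0, c₀)
      simpa [chi, sympForm_zero_left] using h3
  refine ⟨∑ c : F, ρ (spTransv (m + 1) (embW m (Pi.single (Sum.inl i) 1)) c) v, ?_, ?_⟩
  · intro d
    rw [map_sum]
    have e1 : ∀ c : F, ρ (spTransv (m + 1) (embW m (Pi.single (Sum.inl i) 1)) d)
        (ρ (spTransv (m + 1) (embW m (Pi.single (Sum.inl i) 1)) c) v) =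
        ρ (spTransv (m + 1) (embW m (Pi.single (Sum.inl i) 1)) (d + c)) v := by
      intro c
      rw [← spTransv_mul, map_mul]
      rfl
    simp only [e1]
    exact Fintype.sum_equiv (Equiv.addLeft d) _ _ (fun c => rfl)
  · have hPu : eigProj (fun a => ρ (yel m a)) (chi m ψ (w, s))
        (∑ c : F, ρ (spTransv (m + 1) (embW m (Pi.single (Sum.inl i) 1)) c) v) = v := by
      rw [map_sum, Finset.sum_eq_single 0]
      · rw [spTransv_zero, map_one]
        exact eigProj_self' m ρ (yel m) hy_add ψ (w, s) v hv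
      · intro c _ hc
        exact (hx c).1 hc
      · intro h
        exact absurd (Finset.mem_univ _) h
    have hu0 : (∑ c : F, ρ (spTransv (m + 1) (embW m (Pi.single (Sum.inl i) 1)) c) v) ≠ 0 := by
      intro h
      rw [h, map_zero] at hPu
      exact hv0 hPu.symm
    obtain ⟨c₀, hc₀⟩ : ∃ c₀, ψ (s * c₀) ≠ 1 := by
      by_contra hcon
      push Not at hcon
      apply hψ hs
      apply DFunLike.ext
      intro t
      rw [AddChar.mulShift_apply, AddChar.one_apply]
      exact hcon t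
    refine ⟨c₀, ?_⟩
    rw [← hy0 c₀]
    have h5 : ρ (yel m ((0 : Fin m ⊕ Fin m → F), c₀))
        (∑ c : F, ρ (spTransv (m + 1) (embW m (Pi.single (Sum.inl i) 1)) c) v) =
        ψ (s * c₀) • ∑ c : F, ρ (spTransv (m + 1) (embW m (Pi.single (Sum.inl i) 1)) c) v := by
      rw [map_sum, Finset.smul_sum]
      apply Finset.sum_congr rfl
      intro c _
      exact (hx c).2 c₀
    rw [h5]
    intro h
    have h6 : (ψ (s * c₀) - 1) •
        (∑ c : F, ρ (spTransv (m + 1) (embW m (Pi.single (Sum.inl i) 1)) c) v) = 0 := by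
      rw [sub_smul, h, one_smul, sub_self]
    rcases smul_eq_zero.mp h6 with h7 | h7
    · exact hc₀ (sub_eq_zero.mp h7)
    · exact hu0 h7

example (hG1 : StG1.{u}) (hG2 : StG2.{u}) (hChiT : StChiT.{u}) : StB2.{u, v} := b2 hG1 hG2 hChiT

end Cfsg.Agent.H44.SpL
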