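import Mathlib
import Cfsg.Agent.H44.SpLDefs

/-!
# S2333 (team project, helper44): assembly of the pieces
-/

set_option autoImplicit false

namespace Cfsg.Agent.H44.SpL

open Matrix Module Cfsg.Agent.H17 Cfsg.Agent.H44

universe u v w

section Aux

variable {G : Type w} [Group G] {V : Type v} [AddCommGroup V] [Module ℂ V]

/-- The kernel of a representation, as a subgroup. -/
def kerSub (ρ : Representation ℂ G V) : Subgroup G where
  carrier := {g | ρ g = 1}
  mul_mem' := by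
    intro a b ha hb
    change ρ a = 1 at ha
    change ρ b = 1 at hb
    change ρ (a * b) = 1
    rw [map_mul, ha, hb, mul_one]
  one_mem' := map_one ρ
  inv_mem' := by
    intro a ha
    change ρ a = 1 at ha
    change ρ a⁻¹ = 1
    have h : ρ a⁻¹ * ρ a = 1 := by rw [← map_mul, inv_mul_cancel, map_one]
    rw [ha, mul_one] at h
    exact h

theorem mem_kerSub (ρ : Representation ℂ G V) (g : G) : g ∈ kerSub ρ ↔ ρ g = 1 := Iff.rfl

theorem kerSub_normal (ρ : Representation ℂ G V) : (kerSub ρ).Normal := by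
  constructor
  intro n hn g
  rw [mem_kerSub] at hn ⊢
  rw [map_mul, map_mul, hn, mul_one, ← map_mul, mul_inv_cancel, map_one]

/-- The subspace fixed by a family of group elements. -/
def fixSub {ι : Type*} (ρ : Representation ℂ G V) (T : ι → G) : Submodule ℂ V where
  carrier := {v | ∀ c, ρ (T c) v = v}
  add_mem' := by
    intro a b ha hb c
    rw [map_add, ha c, hb c]
  zero_mem' := by
    intro c
    simp
  smul_mem' := by
    intro t a ha c
    rw [map_smul, ha c]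

theorem mem_fixSub {ι : Type*} (ρ : Representation ℂ G V) (T : ι → G) (v : V) :
    v ∈ fixSub ρ T ↔ ∀ c, ρ (T c) v = v := Iff.rfl

end Aux

theorem bnd_one (q : ℕ) : bnd q 1 = 0 := by
  simp [bnd]

/-- The induction step. -/
theorem step (hR1 : StR1.{u, v, u}) (hR3 : StR3.{u, v, u}) (hG1 : StG1.{u}) (hG2 : StG2.{u})
    (hG3 : StG3.{u}) (hG4 : StG4.{u}) (hEmb : StEmb.{u}) (hB3 : StB3.{u, v})
    (hChiT : StChiT.{u}) (hChar : StChar.{u}) (hB1 : StB1.{u}) (hB2 : StB2.{u, v})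
    (hOrb : StOrb.{u}) (hArith : StArith)
    {F : Type u} [Field F] [Fintype F] (h2 : (2 : F) = 0) (m : ℕ)
    (IH : 2 ≤ m → ∀ {V' : Type v} [AddCommGroup V'] [Module ℂ V'] [FiniteDimensional ℂ V']
      (ρ' : Representation ℂ (Matrix.symplecticGroup (Fin m) F) V'),
      (∃ g, ρ' g ≠ 1) → bnd (Fintype.card F) m ≤ finrank ℂ V')
    {V : Type v} [AddCommGroup V] [Module ℂ V] [FiniteDimensional ℂ V]
    (ρ : Representation ℂ (Matrix.symplecticGroup (Fin (m + 1)) F) V) (hnt : ∃ g, ρ g ≠ 1) :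
    bnd (Fintype.card F) (m + 1) ≤ finrank ℂ V := by
  classical
  obtain ⟨ψ, hψ, hψ2⟩ := hChar (F := F) h2
  obtain ⟨hy_add, hy0⟩ := hG1 (F := F) m h2
  -- the centre acts nontrivially
  have hnt' : ∃ c : F, ρ (yel m ((0 : Fin m ⊕ Fin m → F), c)) ≠ 1 := by
    by_contra hcon
    push Not at hcon
    have hN : kerSub ρ = ⊤ := by
      apply hG4 m (kerSub ρ) (kerSub_normal ρ)
      intro c
      rw [mem_kerSub, ← hy0 c]
      exact hcon c
    obtain ⟨g, hg⟩ := hnt
    apply hg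
    rw [← mem_kerSub, hN]
    exact Subgroup.mem_top g
  -- closure properties of the set of occurring characters
  have hTC : TClosed m (Xset m ρ (yel m) ψ) := by
    intro w b s r k hws hr hk
    exact xset_move m ρ (yel m) ψ (spTransv (m + 1) (embW m b) 1)
      (fun a => (a.1 + Cfsg.sympForm m F a.1 b • b,
        a.2 + (Cfsg.sympForm m F a.1 b) ^ 2 * (kap m b + 1)))
      (w, s) (w + (Cfsg.sympForm m F b w + r * (k + 1)) • b, s)
      (fun a => hG2 m h2 b a.1 a.2)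
      (fun a => hChiT m h2 ψ hψ2 w b s r k hr hk a.1 a.2) hws
  have hHC : HClosed m (Xset m ρ (yel m) ψ) := by
    intro w s t hws ht
    obtain ⟨h, hh⟩ := hG3 (F := F) m h2 t ht
    refine xset_move m ρ (yel m) ψ h (fun a => (t • a.1, t ^ 2 * a.2)) (w, s) (t • w, t ^ 2 * s)
      (fun a => hh a.1 a.2) ?_ hws
    intro a
    simp only [chi]
    rw [sympForm_smul_left, sympForm_smul_right]
    congr 1
    ring
  obtain ⟨p, hpX, hp2⟩ := hR3 m ρ (yel m) hy_add ψ hψ hnt'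
  have horb := hOrb m h2 (Xset m ρ (yel m) ψ) hTC hHC p.1 p.2 hp2 hpX
  -- the fixed space of the centre
  have hC : ∀ v ∈ fixSub ρ (fun c : F => spTransv (m + 1) (e0 F m) c), ∀ c : F,
      ρ (yel m ((0 : Fin m ⊕ Fin m → F), c)) v = v := by
    intro v hv c
    rw [hy0 c]
    exact hv c
  have hr1 := hR1 m ρ (yel m) hy_add ψ hψ
    (fixSub ρ (fun c : F => spTransv (m + 1) (e0 F m) c)) hC
  have hCb : bnd (Fintype.card F) m ≤
      finrank ℂ (fixSub ρ (fun c : F => spTransv (m + 1) (e0 F m) c)) := by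
    by_cases hm : 2 ≤ m
    · have hij : (⟨0, by omega⟩ : Fin m) ≠ ⟨1, by omega⟩ := by
        intro h
        simp [Fin.ext_iff] at h
      obtain ⟨w', hw'X, hw'0⟩ := hB1 m h2 ⟨0, by omega⟩ ⟨1, by omega⟩ hij
        (Xset m ρ (yel m) ψ) hTC p.1 p.2 hp2 hpX
      obtain ⟨u', hu'1, c₁, hu'2⟩ := hB3 m ⟨0, by omega⟩ ρ
        (hB2 m h2 ⟨0, by omega⟩ ρ ψ hψ hψ2 w' p.2 hp2 hw'0 hw'X)
      obtain ⟨φ, hφ1, hφ2⟩ := hEmb (F := F) m
      have hinv : ∀ g, ∀ v ∈ fixSub ρ (fun c : F => spTransv (m + 1) (e0 F m) c),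
          ρ (φ g) v ∈ fixSub ρ (fun c : F => spTransv (m + 1) (e0 F m) c) := by
        intro g v hv c
        have e1 : ρ (spTransv (m + 1) (e0 F m) c) (ρ (φ g) v) =
            ρ (spTransv (m + 1) (e0 F m) c * φ g) v := by rw [map_mul]; rfl
        rw [e1, ← hφ2 g c, map_mul, Module.End.mul_apply, hv c]
      apply IH hm (resRep ρ φ _ hinv)
      refine ⟨spTransv m (Pi.single (Sum.inl ⟨0, by omega⟩) 1) c₁, ?_⟩
      intro h1
      apply hu'2
      have h3 := congrArg (fun T => ((T ⟨u', hu'1⟩ :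
        fixSub ρ (fun c : F => spTransv (m + 1) (e0 F m) c)) : V)) h1
      simp only [resRep_apply, hφ1] at h3
      exact h3
    · have hm1 : m ≤ 1 := by omega
      interval_cases m
      · simp [bnd]
      · simp [bnd]
  have := hArith (Fintype.card F) m _ _ hCb horb
  omega

/-- The bound for all nontrivial representations of `Sp_{2(m+2)}(F)`. -/
theorem main_bound (hR1 : StR1.{u, v, u}) (hR3 : StR3.{u, v, u}) (hG1 : StG1.{u})
    (hG2 : StG2.{u}) (hG3 : StG3.{u}) (hG4 : StG4.{u}) (hEmb : StEmb.{u}) (hB3 : StB3.{u, v})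
    (hChiT : StChiT.{u}) (hChar : StChar.{u}) (hB1 : StB1.{u}) (hB2 : StB2.{u, v})
    (hOrb : StOrb.{u}) (hArith : StArith)
    {F : Type u} [Field F] [Fintype F] (h2 : (2 : F) = 0) :
    ∀ (m : ℕ) {V : Type v} [AddCommGroup V] [Module ℂ V] [FiniteDimensional ℂ V]
      (ρ : Representation ℂ (Matrix.symplecticGroup (Fin (m + 2)) F) V),
      (∃ g, ρ g ≠ 1) → bnd (Fintype.card F) (m + 2) ≤ finrank ℂ V := by
  intro m
  induction m with
  | zero =>
    intro V _ _ _ ρ hnt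
    exact step hR1 hR3 hG1 hG2 hG3 hG4 hEmb hB3 hChiT hChar hB1 hB2 hOrb hArith h2 1
      (fun h => absurd h (by omega)) ρ hnt
  | succ m ih =>
    intro V _ _ _ ρ hnt
    exact step hR1 hR3 hG1 hG2 hG3 hG4 hEmb hB3 hChiT hChar hB1 hB2 hOrb hArith h2 (m + 2)
      (fun _ V' _ _ _ ρ' hnt' => ih ρ' hnt') ρ hnt

/-- The statement of S2333 from the pieces. -/
theorem final (hR1 : StR1.{u, 0, u}) (hR3 : StR3.{u, 0, u}) (hG1 : StG1.{u})
    (hG2 : StG2.{u}) (hG3 : StG3.{u}) (hG4 : StG4.{u}) (hEmb : StEmb.{u}) (hB3 : StB3.{u, 0})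
    (hChiT : StChiT.{u}) (hChar : StChar.{u}) (hB1 : StB1.{u}) (hB2 : StB2.{u, 0})
    (hOrb : StOrb.{u}) (hArith : StArith) (hChar2 : StChar2.{u})
    {F : Type u} [Field F] [Fintype F] (n : ℕ) (hn : 2 ≤ n)
    (heven : Even (Fintype.card F)) :
    ∀ (k : ℕ) (ρ : Representation ℂ (Matrix.symplecticGroup (Fin n) F) (Fin k → ℂ)),
      ρ.IsIrreducible → 2 ≤ k →
      (Fintype.card F ^ n - 1) * (Fintype.card F ^ n - Fintype.card F) /
        (2 * (Fintype.card F + 1)) ≤ k := by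
  obtain ⟨m, rfl⟩ : ∃ m, n = m + 2 := ⟨n - 2, by omega⟩
  intro k ρ hirr hk
  have h2 : (2 : F) = 0 := hChar2 heven
  have hnt : ∃ g, ρ g ≠ 1 := by
    by_contra hcon
    push Not at hcon
    have h1 := finrank_le_one_of_trivial ρ hirr hcon
    rw [Module.finrank_fin_fun] at h1
    omega
  have h3 := main_bound hR1 hR3 hG1 hG2 hG3 hG4 hEmb hB3 hChiT hChar hB1 hB2 hOrb hArith h2 m
    ρ hnt
  rw [Module.finrank_fin_fun] at h3
  exact h3

end Cfsg.Agent.H44.SpL
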