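import Mathlib
import Cfsg.Agent.H44.SpODefs
import Cfsg.Agent.H44.SpLRep

/-!
# S2347 part A (helper44): the decomposition
`finrank V = finrank C_V(Z) + Σ_{p i₀ ≠ 0} finrank E_p` for the abelian group `(ι → F, +)` acting
through the characters `chi ψ p a = ψ (a ⬝ᵥ p)`.
-/

set_option autoImplicit false

namespace Cfsg.Agent.H44.SpO

open Matrix Module Cfsg.Agent.H44

universe u v w

section Gen

variable {F : Type u} [Field F] [Fintype F] {ι : Type*} [Fintype ι] [DecidableEq ι]

theorem sum_psi_lin {A : Type*} [AddCommGroup A] [Module F A] [Fintype A] (ψ : AddChar F ℂ)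
    (hψ : ψ.IsPrimitive) (L : A →ₗ[F] F) (hL : L ≠ 0) : ∑ a, ψ (L a) = 0 := by
  have h := SpL.sum_psi_lin_inv ψ hψ (-L) (neg_ne_zero.mpr hL)
  rw [← h]
  apply Finset.sum_congr rfl
  intro a _
  rw [LinearMap.neg_apply, AddChar.map_neg_eq_inv, inv_inv]

/-- `a ↦ a ⬝ᵥ p` as a linear map. -/
def dlin (p : ι → F) : (ι → F) →ₗ[F] F where
  toFun a := a ⬝ᵥ p
  map_add' := fun a b => add_dotProduct a b p
  map_smul' := fun c a => by simp [smul_dotProduct]

theorem dlin_apply (p a : ι → F) : dlin p a = a ⬝ᵥ p := rfl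

theorem dlin_ne_zero (p : ι → F) (hp : p ≠ 0) : dlin p ≠ 0 := by
  intro h
  apply hp
  funext i
  have h1 := LinearMap.congr_fun h (Pi.single i 1)
  simpa [dlin_apply] using h1

/-- `p ↦ a ⬝ᵥ p` as a linear map. -/
def dlin' (a : ι → F) : (ι → F) →ₗ[F] F where
  toFun p := a ⬝ᵥ p
  map_add' := fun p q => dotProduct_add a p q
  map_smul' := fun c p => by simp [dotProduct_smul]

theorem dlin'_apply (a p : ι → F) : dlin' a p = a ⬝ᵥ p := rfl

theorem dlin'_ne_zero (a : ι → F) (ha : a ≠ 0) : dlin' a ≠ 0 := by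
  intro h
  apply ha
  funext i
  have h1 := LinearMap.congr_fun h (Pi.single i 1)
  simpa [dlin'_apply] using h1

/-- `chi ψ p` as an additive character. -/
noncomputable def chiA (ψ : AddChar F ℂ) (p : ι → F) : AddChar (ι → F) ℂ :=
  ψ.compAddMonoidHom (dlin p).toAddMonoidHom

theorem chiA_coe (ψ : AddChar F ℂ) (p : ι → F) :
    ((chiA ψ p : AddChar (ι → F) ℂ) : (ι → F) → ℂ) = chi ψ p := by
  funext a
  rfl

open scoped Classical in
theorem key_decomp {G : Type w} [Group G] {V : Type v} [AddCommGroup V] [Module ℂ V]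
    [FiniteDimensional ℂ V] (ρ : Representation ℂ G V) (y : (ι → F) → G)
    (hy : ∀ a b, y (a + b) = y a * y b) (ψ : AddChar F ℂ) (hψ : ψ.IsPrimitive) (i₀ : ι) :
    finrank ℂ V =
      finrank ℂ (eigSub (fun c : F => ρ (y (Pi.single i₀ c))) (fun _ => (1 : ℂ))) +
      ∑ p ∈ (Finset.univ : Finset (ι → F)).filter (fun p => p i₀ ≠ 0),
        finrank ℂ (eigSub (fun a => ρ (y a)) (chi ψ p)) := by
  have hy0 : y 0 = 1 := by
    have h := hy 0 0
    rw [add_zero] at h
    exact (mul_eq_left (a := y 0) (b := y 0)).mp h.symm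
  have hTadd : ∀ a b : ι → F, (fun a => ρ (y a)) (a + b) =
      (fun a => ρ (y a)) a * (fun a => ρ (y a)) b := by
    intro a b
    simp only [hy, map_mul]
  have hT'add : ∀ c d : F, (fun c : F => ρ (y (Pi.single i₀ c))) (c + d) =
      (fun c : F => ρ (y (Pi.single i₀ c))) c * (fun c : F => ρ (y (Pi.single i₀ c))) d := by
    intro c d
    simp only
    rw [← map_mul, ← hy, ← Pi.single_add]
  have hcardA : (Fintype.card (ι → F) : ℂ) ≠ 0 := by
    exact_mod_cast Fintype.card_ne_zero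
  have hcardF : (Fintype.card F : ℂ) ≠ 0 := by
    exact_mod_cast Fintype.card_ne_zero
  have hproj : ∀ p : ι → F, LinearMap.IsProj (eigSub (fun a => ρ (y a)) (chi ψ p))
      (eigProj (fun a => ρ (y a)) (chi ψ p)) := by
    intro p
    have h := eigProj_isProj (fun a => ρ (y a)) hTadd (chiA ψ p)
    rw [chiA_coe] at h
    exact h
  have hprojZ : LinearMap.IsProj
      (eigSub (fun c : F => ρ (y (Pi.single i₀ c))) (fun _ => (1 : ℂ)))
      (eigProj (fun c : F => ρ (y (Pi.single i₀ c))) (fun _ => (1 : ℂ))) := by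
    have h := eigProj_isProj (fun c : F => ρ (y (Pi.single i₀ c))) hT'add (1 : AddChar F ℂ)
    have h1 : ((1 : AddChar F ℂ) : F → ℂ) = fun _ => (1 : ℂ) := by
      ext a
      simp
    rw [h1] at h
    exact h
  have hsum1 : ∀ a : ι → F, ∑ p, (chi ψ p a)⁻¹ =
      if a = 0 then (Fintype.card (ι → F) : ℂ) else 0 := by
    intro a
    split_ifs with ha
    · subst ha
      simp [chi]
    · have h := SpL.sum_psi_lin_inv ψ hψ (dlin' a) (dlin'_ne_zero a ha)
      rw [← h]
      rfl
  have hS : ∑ p, eigProj (fun a => ρ (y a)) (chi ψ p) = 1 := by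
    simp only [eigProj]
    rw [← Finset.smul_sum, Finset.sum_comm]
    simp only [← Finset.sum_smul, hsum1]
    rw [Finset.sum_eq_single 0]
    · simp only [if_true]
      rw [hy0, map_one, smul_smul, inv_mul_cancel₀ hcardA, one_smul]
    · intro b _ hb
      simp [hb]
    · intro h
      exact absurd (Finset.mem_univ _) h
  have hZp : ∀ p : ι → F,
      eigProj (fun c : F => ρ (y (Pi.single i₀ c))) (fun _ => (1 : ℂ)) *
        eigProj (fun a => ρ (y a)) (chi ψ p) =
      if p i₀ = 0 then eigProj (fun a => ρ (y a)) (chi ψ p) else 0 := by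
    intro p
    apply LinearMap.ext
    intro v
    have hx : ∀ a, ρ (y a) (eigProj (fun a => ρ (y a)) (chi ψ p) v) =
        chi ψ p a • eigProj (fun a => ρ (y a)) (chi ψ p) v := (hproj p).map_mem v
    have e1 : (eigProj (fun c : F => ρ (y (Pi.single i₀ c))) (fun _ => (1 : ℂ)) *
        eigProj (fun a => ρ (y a)) (chi ψ p)) v =
        (Fintype.card F : ℂ)⁻¹ • (∑ c : F, ψ (c * p i₀)) •
          eigProj (fun a => ρ (y a)) (chi ψ p) v := by
      rw [Module.End.mul_apply]
      conv_lhs => rw [eigProj]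
      simp only [LinearMap.smul_apply, LinearMap.sum_apply, inv_one, one_smul, hx]
      rw [← Finset.sum_smul]
      congr 2
      apply Finset.sum_congr rfl
      intro c _
      simp [chi]
    rw [e1]
    split_ifs with hp
    · simp only [hp, mul_zero, AddChar.map_zero_eq_one, Finset.sum_const, Finset.card_univ]
      simp only [nsmul_eq_mul, mul_one]
      rw [smul_smul, inv_mul_cancel₀ hcardF, one_smul]
    · have hL : (p i₀ • (LinearMap.id : F →ₗ[F] F)) ≠ 0 := by
        intro h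
        apply hp
        have h1 := LinearMap.congr_fun h 1
        simpa using h1
      have h0 := sum_psi_lin ψ hψ (p i₀ • (LinearMap.id : F →ₗ[F] F)) hL
      have h0' : ∑ c : F, ψ (c * p i₀) = 0 := by
        rw [← h0]
        apply Finset.sum_congr rfl
        intro c _
        simp [mul_comm]
      rw [h0', zero_smul, smul_zero]
      rfl
  have hPZ : eigProj (fun c : F => ρ (y (Pi.single i₀ c))) (fun _ => (1 : ℂ)) =
      ∑ p ∈ (Finset.univ : Finset (ι → F)).filter (fun p => p i₀ = 0),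
        eigProj (fun a => ρ (y a)) (chi ψ p) := by
    have h1 : eigProj (fun c : F => ρ (y (Pi.single i₀ c))) (fun _ => (1 : ℂ)) =
        eigProj (fun c : F => ρ (y (Pi.single i₀ c))) (fun _ => (1 : ℂ)) *
          ∑ p, eigProj (fun a => ρ (y a)) (chi ψ p) := by
      rw [hS, mul_one]
    rw [h1, Finset.mul_sum, Finset.sum_filter]
    apply Finset.sum_congr rfl
    intro p _
    exact hZp p
  have hE1 : (finrank ℂ V : ℂ) =
      ∑ p, (finrank ℂ (eigSub (fun a => ρ (y a)) (chi ψ p)) : ℂ) := by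
    have h := congrArg (LinearMap.trace ℂ V) hS
    rw [map_sum] at h
    have h3 : (1 : V →ₗ[ℂ] V) = LinearMap.id := rfl
    rw [h3, LinearMap.trace_id] at h
    rw [← h]
    apply Finset.sum_congr rfl
    intro p _
    exact (hproj p).trace
  have hE2 : (finrank ℂ (eigSub (fun c : F => ρ (y (Pi.single i₀ c))) (fun _ => (1 : ℂ))) : ℂ) =
      ∑ p ∈ (Finset.univ : Finset (ι → F)).filter (fun p => p i₀ = 0),
        (finrank ℂ (eigSub (fun a => ρ (y a)) (chi ψ p)) : ℂ) := by
    have h := congrArg (LinearMap.trace ℂ V) hPZ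
    rw [map_sum, hprojZ.trace] at h
    rw [h]
    apply Finset.sum_congr rfl
    intro p _
    exact (hproj p).trace
  have hE3 : (finrank ℂ V : ℂ) =
      ((finrank ℂ (eigSub (fun c : F => ρ (y (Pi.single i₀ c))) (fun _ => (1 : ℂ))) +
      ∑ p ∈ (Finset.univ : Finset (ι → F)).filter (fun p => p i₀ ≠ 0),
        finrank ℂ (eigSub (fun a => ρ (y a)) (chi ψ p)) : ℕ) : ℂ) := by
    rw [hE1, Nat.cast_add, hE2, Nat.cast_sum]
    rw [← Finset.sum_filter_add_sum_filter_not Finset.univ (fun p : ι → F => p i₀ = 0)]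
  exact_mod_cast hE3

open scoped Classical in
/-- R1 for `(ι → F, +)`. -/
theorem r1g {G : Type w} [Group G] {V : Type v} [AddCommGroup V] [Module ℂ V]
    [FiniteDimensional ℂ V] (ρ : Representation ℂ G V) (y : (ι → F) → G)
    (hy : ∀ a b, y (a + b) = y a * y b) (ψ : AddChar F ℂ) (hψ : ψ.IsPrimitive) (i₀ : ι)
    (C : Submodule ℂ V) (hC : ∀ v ∈ C, ∀ c : F, ρ (y (Pi.single i₀ c)) v = v) :
    finrank ℂ C + Set.ncard {p | p ∈ Xset ρ y ψ ∧ p i₀ ≠ 0} ≤ finrank ℂ V := by
  have hkey := key_decomp ρ y hy ψ hψ i₀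
  have h1 : finrank ℂ C ≤
      finrank ℂ (eigSub (fun c : F => ρ (y (Pi.single i₀ c))) (fun _ => (1 : ℂ))) := by
    apply Submodule.finrank_mono
    intro v hv c
    rw [one_smul]
    exact hC v hv c
  have h2 : Set.ncard {p | p ∈ Xset ρ y ψ ∧ p i₀ ≠ 0} ≤
      ∑ p ∈ (Finset.univ : Finset (ι → F)).filter (fun p => p i₀ ≠ 0),
        finrank ℂ (eigSub (fun a => ρ (y a)) (chi ψ p)) := by
    rw [Set.ncard_eq_toFinset_card']
    rw [Finset.card_eq_sum_ones]
    have hsub : Set.toFinset {p | p ∈ Xset ρ y ψ ∧ p i₀ ≠ 0} ⊆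
        (Finset.univ : Finset (ι → F)).filter (fun p => p i₀ ≠ 0) := by
      intro p hp
      rw [Set.mem_toFinset] at hp
      simp only [Finset.mem_filter, Finset.mem_univ, true_and]
      exact hp.2
    refine le_trans ?_ (Finset.sum_le_sum_of_subset hsub)
    apply Finset.sum_le_sum
    intro p hp
    rw [Set.mem_toFinset] at hp
    obtain ⟨v, hv0, hv⟩ := hp.1
    rw [Nat.succ_le_iff, Module.finrank_pos_iff]
    exact ⟨⟨⟨v, hv⟩, 0, fun h => hv0 (congrArg Subtype.val h)⟩⟩
  omega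

open scoped Classical in
/-- R3 for `(ι → F, +)`. -/
theorem r3g {G : Type w} [Group G] {V : Type v} [AddCommGroup V] [Module ℂ V]
    [FiniteDimensional ℂ V] (ρ : Representation ℂ G V) (y : (ι → F) → G)
    (hy : ∀ a b, y (a + b) = y a * y b) (ψ : AddChar F ℂ) (hψ : ψ.IsPrimitive) (i₀ : ι)
    (hnt : ∃ c : F, ρ (y (Pi.single i₀ c)) ≠ 1) : ∃ p, p ∈ Xset ρ y ψ ∧ p i₀ ≠ 0 := by
  by_contra hcon
  push Not at hcon
  have hkey := key_decomp ρ y hy ψ hψ i₀
  have h0 : ∑ p ∈ (Finset.univ : Finset (ι → F)).filter (fun p => p i₀ ≠ 0),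
        finrank ℂ (eigSub (fun a => ρ (y a)) (chi ψ p)) = 0 := by
    apply Finset.sum_eq_zero
    intro p hp
    simp only [Finset.mem_filter, Finset.mem_univ, true_and] at hp
    by_contra hne
    have hpos : 0 < finrank ℂ (eigSub (fun a => ρ (y a)) (chi ψ p)) := Nat.pos_of_ne_zero hne
    rw [Module.finrank_pos_iff] at hpos
    obtain ⟨x, hx⟩ := exists_ne (0 : eigSub (fun a => ρ (y a)) (chi ψ p))
    apply hp
    apply hcon p
    exact ⟨x.1, fun h => hx (Subtype.ext h), x.2⟩
  rw [h0, add_zero] at hkey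
  have htop : eigSub (fun c : F => ρ (y (Pi.single i₀ c))) (fun _ => (1 : ℂ)) = ⊤ :=
    Submodule.eq_top_of_finrank_eq hkey.symm
  obtain ⟨c, hc⟩ := hnt
  apply hc
  apply LinearMap.ext
  intro v
  have hv : v ∈ eigSub (fun c : F => ρ (y (Pi.single i₀ c))) (fun _ => (1 : ℂ)) := by
    rw [htop]
    exact Submodule.mem_top
  have := hv c
  simpa using this

end Gen

end Cfsg.Agent.H44.SpO
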