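import Mathlib
import Cfsg.Agent.H44.SpODefs
import Cfsg.Agent.H44.SpORep
import Cfsg.Agent.H44.SpLMain

/-!
# S2347 part A (helper44): the lower bound `(q^n - 1)/2` from the pieces
-/

set_option autoImplicit false

namespace Cfsg.Agent.H44.SpO

open Matrix Module Cfsg.Agent.H17 Cfsg.Agent.H44 Cfsg.Agent.H44.SpL

universe u v

theorem exists_primitive (F : Type u) [Field F] [Fintype F] :
    ∃ ψ : AddChar F ℂ, ψ.IsPrimitive := by
  obtain ⟨ψ₀, hψ₀1⟩ := (AddChar.exists_apply_ne_zero (a := (1 : F))).mpr one_ne_zero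
  have hψ₀ne : ψ₀ ≠ 1 := by
    intro h
    apply hψ₀1
    rw [h]
    simp
  exact ⟨ψ₀, AddChar.IsPrimitive.of_ne_one hψ₀ne⟩

theorem exists_psi_ne_one {F : Type u} [Field F] (ψ : AddChar F ℂ) (hψ : ψ.IsPrimitive) (s : F)
    (hs : s ≠ 0) : ∃ c : F, ψ (c * s) ≠ 1 := by
  by_contra hcon
  push Not at hcon
  apply hψ hs
  apply DFunLike.ext
  intro t
  rw [AddChar.mulShift_apply, AddChar.one_apply, mul_comm]
  exact hcon t

theorem arith_case2 (q m : ℕ) (hq : Odd q) :
    (q ^ (m + 1) - 1) / 2 ≤ (q ^ m - 1) / 2 + (q - 1) / 2 * q ^ m := by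
  obtain ⟨k, hk⟩ := hq
  obtain ⟨j, hj⟩ : Odd (q ^ m) := Odd.pow ⟨k, hk⟩
  have h1 : q ^ (m + 1) = 4 * (j * k) + 2 * j + 2 * k + 1 := by
    rw [pow_succ, hj, hk]
    ring
  have h2 : (q - 1) / 2 = k := by omega
  have h3 : (q - 1) / 2 * q ^ m = 2 * (j * k) + k := by
    rw [h2, hj]
    ring
  rw [h1, h3, hj]
  generalize j * k = N
  omega

theorem arith_case1 (q m : ℕ) (hq : Odd q) (hq1 : 1 < q) :
    (q ^ (m + 1) - 1) / 2 ≤ (q - 1) * q ^ m := by
  obtain ⟨k, hk⟩ := hq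
  have hk1 : 1 ≤ k := by omega
  have h1 : q ^ (m + 1) = 2 * (k * q ^ m) + q ^ m := by
    rw [pow_succ, hk]
    ring
  have h2 : (q - 1) * q ^ m = 2 * (k * q ^ m) := by
    have : q - 1 = 2 * k := by omega
    rw [this]
    ring
  have h3 : q ^ m ≤ k * q ^ m := Nat.le_mul_of_pos_left _ hk1
  rw [h1, h2]
  generalize k * q ^ m = P at h3 ⊢
  omega

theorem chi_single' {F : Type u} [Field F] {ι : Type*} [Fintype ι] [DecidableEq ι]
    (ψ : AddChar F ℂ) (p : ι → F) (i : ι) (x : F) :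
    chi ψ p (Pi.single i x) = ψ (x * p i) := by
  simp [chi]

/-- The induction step. -/
theorem stepO (hY : StY.{u}) (hMove : StMove.{u}) (hChiMove : StChiMove.{u})
    (hCount1 : StCount1.{u}) (hCount2 : StCount2.{u}) (hDich : StDich.{u})
    (hG4 : StG4.{u}) (hEmb : StEmb.{u}) (hB3 : StB3.{u, v})
    {F : Type u} [Field F] [Fintype F] (h2 : (2 : F) ≠ 0) (hq : Odd (Fintype.card F)) (m : ℕ)
    (IH : 1 ≤ m → ∀ {V' : Type v} [AddCommGroup V'] [Module ℂ V'] [FiniteDimensional ℂ V']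
      (ρ' : Representation ℂ (Matrix.symplecticGroup (Fin m) F) V'),
      (∃ g, ρ' g ≠ 1) → (Fintype.card F ^ m - 1) / 2 ≤ finrank ℂ V')
    {V : Type v} [AddCommGroup V] [Module ℂ V] [FiniteDimensional ℂ V]
    (ρ : Representation ℂ (Matrix.symplecticGroup (Fin (m + 1)) F) V) (hnt : ∃ g, ρ g ≠ 1) :
    (Fintype.card F ^ (m + 1) - 1) / 2 ≤ finrank ℂ V := by
  classical
  obtain ⟨ψ, hψ⟩ := exists_primitive F
  obtain ⟨hyadd, hy0, hy1⟩ := hY (F := F) m
  have hq1 : 1 < Fintype.card F := Fintype.one_lt_card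
  -- the root group acts nontrivially
  have hnt' : ∃ c : F, ρ (ysym m (Pi.single (0, 0) c)) ≠ 1 := by
    by_contra hcon
    push Not at hcon
    have hN : kerSub ρ = ⊤ := by
      apply hG4 m (kerSub ρ) (kerSub_normal ρ)
      intro c
      rw [mem_kerSub]
      have h := hcon ((2 : F)⁻¹ * c)
      rw [hy0, ← mul_assoc, mul_inv_cancel₀ h2, one_mul] at h
      exact h
    obtain ⟨g, hg⟩ := hnt
    apply hg
    rw [← mem_kerSub, hN]
    exact Subgroup.mem_top g
  have hCC : CClosed m (Xset ρ (ysym m) ψ) := by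
    intro D hD p hp
    obtain ⟨g, hg⟩ := hMove m D hD
    exact xset_move ρ (ysym m) ψ g (congL (m + 1) D) p (congR (m + 1) D p) hg
      (fun a => hChiMove (m + 1) ψ D p a) hp
  obtain ⟨p, hpX, hp0⟩ := r3g ρ (ysym m) hyadd ψ hψ (0, 0) hnt'
  have hc1 := hCount1 m h2 (Xset ρ (ysym m) ψ) hCC p hpX hp0
  have hC : ∀ v ∈ fixSub ρ (fun c : F => spTransv (m + 1) (e0 F m) c), ∀ c : F,
      ρ (ysym m (Pi.single (0, 0) c)) v = v := by
    intro v hv c
    rw [hy0 c]
    exact hv (2 * c)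
  have hr1 := r1g ρ (ysym m) hyadd ψ hψ (0, 0)
    (fixSub ρ (fun c : F => spTransv (m + 1) (e0 F m) c)) hC
  by_cases hm : 1 ≤ m
  · rcases hDich m h2 ⟨0, by omega⟩ (Xset ρ (ysym m) ψ) hCC p hpX hp0 with
      ⟨p', hp'X, hp'0, hp'1⟩ | ⟨p', hp'X, hp'0, hnsq⟩
    · -- induction
      obtain ⟨v, hv0, hv⟩ := hp'X
      have hfix : ∀ c : F, ρ (spTransv (m + 1)
          (embW m (Pi.single (Sum.inl (⟨0, by omega⟩ : Fin m)) 1)) c) v = v := by
        intro c
        have h := hv (Pi.single ((⟨0, by omega⟩ : Fin m).succ, (⟨0, by omega⟩ : Fin m).succ)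
          ((2 : F)⁻¹ * c))
        rw [hy1, ← mul_assoc, mul_inv_cancel₀ h2, one_mul] at h
        rw [h, chi_single', hp'1, mul_zero, AddChar.map_zero_eq_one, one_smul]
      obtain ⟨c₀, hc₀⟩ := exists_psi_ne_one ψ hψ (p' (0, 0)) hp'0
      have hnfix : ∃ c : F, ρ (spTransv (m + 1) (e0 F m) c) v ≠ v := by
        refine ⟨2 * c₀, ?_⟩
        have h := hv (Pi.single (0, 0) c₀)
        rw [hy0] at h
        rw [h]
        intro h'
        have h6 : (chi ψ p' (Pi.single (0, 0) c₀) - 1) • v = 0 := by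
          rw [sub_smul, h', one_smul, sub_self]
        rcases smul_eq_zero.mp h6 with h7 | h7
        · apply hc₀
          have h8 := sub_eq_zero.mp h7
          rw [chi_single'] at h8
          exact h8
        · exact hv0 h7
      obtain ⟨u', hu'1, c₁, hu'2⟩ := hB3 m ⟨0, by omega⟩ ρ ⟨v, hfix, hnfix⟩
      obtain ⟨φ, hφ1, hφ2⟩ := hEmb (F := F) m
      have hinv : ∀ g, ∀ v ∈ fixSub ρ (fun c : F => spTransv (m + 1) (e0 F m) c),
          ρ (φ g) v ∈ fixSub ρ (fun c : F => spTransv (m + 1) (e0 F m) c) := by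
        intro g v hv c
        have e1 : ρ (spTransv (m + 1) (e0 F m) c) (ρ (φ g) v) =
            ρ (spTransv (m + 1) (e0 F m) c * φ g) v := by rw [map_mul]; rfl
        rw [e1, ← hφ2 g c, map_mul, Module.End.mul_apply, hv c]
      have hCb : (Fintype.card F ^ m - 1) / 2 ≤
          finrank ℂ (fixSub ρ (fun c : F => spTransv (m + 1) (e0 F m) c)) := by
        apply IH hm (resRep ρ φ _ hinv)
        refine ⟨spTransv m (Pi.single (Sum.inl ⟨0, by omega⟩) 1) c₁, ?_⟩
        intro h1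
        apply hu'2
        have h3 := congrArg (fun T => ((T ⟨u', hu'1⟩ :
          fixSub ρ (fun c : F => spTransv (m + 1) (e0 F m) c)) : V)) h1
        simp only [resRep_apply, hφ1] at h3
        exact h3
      have ha := arith_case2 (Fintype.card F) m hq
      omega
    · have hc2 := hCount2 m h2 (Xset ρ (ysym m) ψ) hCC p hpX p' hp'X hp0 hp'0 hnsq
      have ha := arith_case1 (Fintype.card F) m hq hq1
      omega
  · have hm0 : m = 0 := by omega
    subst hm0
    simp only [zero_add, pow_one, pow_zero, mul_one] at hc1 ⊢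
    omega

/-- The bound for all nontrivial representations of `Sp_{2(m+1)}(F)`, `q` odd. -/
theorem main_boundO (hY : StY.{u}) (hMove : StMove.{u}) (hChiMove : StChiMove.{u})
    (hCount1 : StCount1.{u}) (hCount2 : StCount2.{u}) (hDich : StDich.{u})
    (hG4 : StG4.{u}) (hEmb : StEmb.{u}) (hB3 : StB3.{u, v})
    {F : Type u} [Field F] [Fintype F] (h2 : (2 : F) ≠ 0) (hq : Odd (Fintype.card F)) :
    ∀ (m : ℕ) {V : Type v} [AddCommGroup V] [Module ℂ V] [FiniteDimensional ℂ V]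
      (ρ : Representation ℂ (Matrix.symplecticGroup (Fin (m + 1)) F) V),
      (∃ g, ρ g ≠ 1) → (Fintype.card F ^ (m + 1) - 1) / 2 ≤ finrank ℂ V := by
  intro m
  induction m with
  | zero =>
    intro V _ _ _ ρ hnt
    exact stepO hY hMove hChiMove hCount1 hCount2 hDich hG4 hEmb hB3 h2 hq 0
      (fun h => absurd h (by omega)) ρ hnt
  | succ m ih =>
    intro V _ _ _ ρ hnt
    exact stepO hY hMove hChiMove hCount1 hCount2 hDich hG4 hEmb hB3 h2 hq (m + 1)
      (fun _ V' _ _ _ ρ' hnt' => ih ρ' hnt') ρ hnt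

end Cfsg.Agent.H44.SpO
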