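import Mathlib

/-!
# Transfer of "regular unipotent" along an intertwining linear equivalence (helper44)

If `A *ᵥ P u = P (B *ᵥ u)` for a linear equivalence `P`, then `A - 1` is nilpotent iff `B - 1` is,
and `(A - 1)^j ≠ 0` iff `(B - 1)^j ≠ 0`.
-/

set_option autoImplicit false

namespace Cfsg.Agent.H44.UnipTransfer

open Matrix

variable {F : Type*} [Field F] {ι κ : Type*} [Fintype ι] [DecidableEq ι] [Fintype κ]
  [DecidableEq κ]

theorem sub_one_pow_intertwine (A : Matrix κ κ F) (B : Matrix ι ι F)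
    (P : (ι → F) ≃ₗ[F] (κ → F)) (h : ∀ u, A *ᵥ P u = P (B *ᵥ u)) (j : ℕ) (u : ι → F) :
    ((A - 1) ^ j) *ᵥ P u = P (((B - 1) ^ j) *ᵥ u) := by
  induction j generalizing u with
  | zero => simp
  | succ j ih =>
    rw [pow_succ, pow_succ, ← Matrix.mulVec_mulVec, ← Matrix.mulVec_mulVec]
    have h1 : (A - 1) *ᵥ P u = P ((B - 1) *ᵥ u) := by
      rw [Matrix.sub_mulVec, Matrix.sub_mulVec, Matrix.one_mulVec, Matrix.one_mulVec, h, map_sub]
    rw [h1, ih]

theorem pow_eq_zero_iff_intertwine (A : Matrix κ κ F) (B : Matrix ι ι F)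
    (P : (ι → F) ≃ₗ[F] (κ → F)) (h : ∀ u, A *ᵥ P u = P (B *ᵥ u)) (j : ℕ) :
    (A - 1) ^ j = 0 ↔ (B - 1) ^ j = 0 := by
  constructor
  · intro hA
    ext a b
    have h1 := sub_one_pow_intertwine A B P h j (Pi.single b 1)
    rw [hA, Matrix.zero_mulVec] at h1
    have h2 : ((B - 1) ^ j) *ᵥ (Pi.single b 1) = 0 := by
      apply P.injective
      rw [← h1, map_zero]
    have h3 := congrFun h2 a
    rw [Matrix.mulVec_single_one] at h3
    simpa using h3
  · intro hB
    ext a b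
    obtain ⟨u, hu⟩ := P.surjective (Pi.single b 1)
    have h1 := sub_one_pow_intertwine A B P h j u
    rw [hB, Matrix.zero_mulVec, map_zero, hu] at h1
    have h3 := congrFun h1 a
    rw [Matrix.mulVec_single_one] at h3
    simpa using h3

/-- Regular unipotency transfers. -/
theorem regunip_intertwine (A : Matrix κ κ F) (B : Matrix ι ι F)
    (P : (ι → F) ≃ₗ[F] (κ → F)) (h : ∀ u, A *ᵥ P u = P (B *ᵥ u)) (j : ℕ)
    (hn : IsNilpotent (B - 1)) (hj : (B - 1) ^ j ≠ 0) :
    IsNilpotent (A - 1) ∧ (A - 1) ^ j ≠ 0 := by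
  constructor
  · obtain ⟨N, hN⟩ := hn
    exact ⟨N, (pow_eq_zero_iff_intertwine A B P h N).2 hN⟩
  · intro h0
    exact hj ((pow_eq_zero_iff_intertwine A B P h j).1 h0)

end Cfsg.Agent.H44.UnipTransfer
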