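import Mathlib
import Cfsg.Agent.H44.WeilDefs
import Cfsg.Agent.H44.RepEig
import Cfsg.Agent.H4.Irr

/-!
# S2347 part B (helper44): an irreducible representation of degree `(q^n - 1)/2` from the pieces
-/

set_option autoImplicit false

namespace Cfsg.Agent.H44.Weil

open Matrix Module Cfsg.Agent.H17 Cfsg.Agent.H44

universe u

theorem exists_primitive' (F : Type u) [Field F] [Fintype F] :
    ∃ ψ : AddChar F ℂ, ψ.IsPrimitive := by
  obtain ⟨ψ₀, hψ₀1⟩ := (AddChar.exists_apply_ne_zero (a := (1 : F))).mpr one_ne_zero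
  have hψ₀ne : ψ₀ ≠ 1 := by
    intro h
    apply hψ₀1
    rw [h]
    simp
  exact ⟨ψ₀, AddChar.IsPrimitive.of_ne_one hψ₀ne⟩

theorem two_ne_zero_of_odd_card {F : Type u} [Field F] [Fintype F] (hodd : Odd (Fintype.card F)) :
    (2 : F) ≠ 0 := by
  apply Ring.two_ne_zero
  intro h
  have h1 := FiniteField.even_card_of_char_two h
  rcases hodd with ⟨k, hk⟩
  omega

/-- The odd part of the Weil representation, transported to `Fin d → ℂ`, is irreducible. -/
theorem weil_exists (hWR : StWeilRep.{u}) (hRC : StReflComm.{u}) (hD : StDims.{u})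
    (hNT : StNontriv.{u}) (hIrr : StIrr.{u, u})
    {F : Type u} [Field F] [Fintype F] (n : ℕ) (hn : 2 ≤ n) (h2 : (2 : F) ≠ 0)
    (hbound : ∀ {V : Type u} [AddCommGroup V] [Module ℂ V] [FiniteDimensional ℂ V]
      (ρ : Representation ℂ (Matrix.symplecticGroup (Fin n) F) V),
      (∃ g, ρ g ≠ 1) → (Fintype.card F ^ n - 1) / 2 ≤ finrank ℂ V) :
    ∃ ρ : Representation ℂ (Matrix.symplecticGroup (Fin n) F)
      (Fin ((Fintype.card F ^ n - 1) / 2) → ℂ), ρ.IsIrreducible := by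
  classical
  obtain ⟨ψ, hψ⟩ := exists_primitive' F
  obtain ⟨ω, hω⟩ := hWR n h2 ψ hψ
  obtain ⟨-, hdim, -⟩ := hD (F := F) n h2
  have hunit : ∀ g, IsUnit (ω g) := by
    intro g
    refine ⟨⟨ω g, ω g⁻¹, ?_, ?_⟩, rfl⟩
    · rw [← map_mul, mul_inv_cancel, map_one]
    · rw [← map_mul, inv_mul_cancel, map_one]
  have hcomm : ∀ g, refl F n ∘ₗ ω g = ω g ∘ₗ refl F n :=
    fun g => hRC n h2 ψ hψ g (ω g) (hunit g) (hω g)
  have hinv : ∀ g, ∀ φ ∈ oddSub F n, ω ((MonoidHom.id _) g) φ ∈ oddSub F n := by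
    intro g φ hφ
    rw [mem_oddSub] at hφ ⊢
    intro ξ
    have h1 := congrArg (fun T => T φ ξ) (hcomm g)
    simp only [LinearMap.comp_apply, refl_apply] at h1
    have h3 : refl F n φ = -φ := by
      funext ζ
      exact hφ ζ
    rw [MonoidHom.id_apply, h1, h3, map_neg]
    rfl
  have hfr : finrank ℂ (oddSub F n) = (Fintype.card F ^ n - 1) / 2 := by omega
  obtain ⟨g, φ, hφ, hne⟩ := hNT n hn h2 ψ hψ ω hω
  have hnt : ∃ g, resRep ω (MonoidHom.id _) (oddSub F n) hinv g ≠ 1 := by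
    refine ⟨g, fun h => hne ?_⟩
    have h3 := congrArg (fun T => ((T ⟨φ, hφ⟩ : oddSub F n) : (Fin n → F) → ℂ)) h
    simp only [resRep_apply, MonoidHom.id_apply] at h3
    exact h3
  have hirr := hIrr (G := Matrix.symplecticGroup (Fin n) F) ((Fintype.card F ^ n - 1) / 2)
    hbound (resRep ω (MonoidHom.id _) (oddSub F n) hinv) hfr hnt
  have e : ↥(oddSub F n) ≃ₗ[ℂ] (Fin ((Fintype.card F ^ n - 1) / 2) → ℂ) :=
    LinearEquiv.ofFinrankEq _ _ (by rw [hfr, Module.finrank_fin_fun])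
  exact ⟨Cfsg.Agent.H4.transport (resRep ω (MonoidHom.id _) (oddSub F n) hinv) e,
    Cfsg.Agent.H4.isIrreducible_of_linearEquiv e (by intro g v; simp) hirr⟩

end Cfsg.Agent.H44.Weil
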